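import Cfsg.Agent.Lib.GL2D.Cor

/-! AB: rank at most two, abelian Sylow subgroups, abelian normal subgroups.  See `plans/GL2D.md`. -/

set_option autoImplicit false

namespace CfsgLib.GL2D
open Subgroup

variable {G : Type*} [Group G] [Finite G] {A : Type*} [Ring A] [Algebra ℚ A] {ρ : G →* A}

omit [Algebra ℚ A] in
/-- No three non-zero pairwise orthogonal idempotents. -/
theorem Two.ab_no3 (h : Two A) {e₁ e₂ e₃ : A} (i1 : e₁ * e₁ = e₁) (i2 : e₂ * e₂ = e₂) (n1 : e₁ ≠ 0)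
    (n2 : e₂ ≠ 0) (n3 : e₃ ≠ 0) (o12 : e₁ * e₂ = 0) (o21 : e₂ * e₁ = 0) (o13 : e₁ * e₃ = 0)
    (o23 : e₂ * e₃ = 0) : False := by
  obtain ⟨w, hw⟩ := h.lf (e₁ + e₂) e₁ (by rw [add_mul, mul_add, mul_add, i1, i2, o12, o21]; simp)
    (fun e => n3 (by rw [← one_mul e₃, ← e, add_mul, o13, o23, add_zero]))
    (by rw [mul_add, i1, o12, add_zero]) n1
  apply n2
  have := congrArg (· * e₂) hw
  simp only [mul_assoc, add_mul, o12, i2, mul_zero, zero_add] at this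
  exact this.symm

omit [Algebra ℚ A] in
theorem ab_one_sub {f : A} (ff : f * f = f) : (1 - f) * (1 - f) = 1 - f := by
  rw [sub_mul, mul_sub, mul_sub, ff]; simp

/-- `y` has a non-zero fixed vector. -/
def AbFix (ρ : G →* A) (y : G) : Prop := ∃ f : A, f ≠ 0 ∧ ρ y * f = f

omit [Finite G] [Algebra ℚ A] in
theorem AbFix.conj {y : G} (h : AbFix ρ y) (g : G) : AbFix ρ (g * y * g⁻¹) := by
  obtain ⟨f, f0, hf⟩ := h
  refine ⟨ρ g * f, fun e => f0 ?_, ?_⟩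
  · rw [← one_mul f, ← map_one ρ, ← inv_mul_cancel g, map_mul, mul_assoc, e, mul_zero]
  · rw [← mul_assoc, ← map_mul, inv_mul_cancel_right, map_mul, mul_assoc, hf]

omit [Finite G] [Algebra ℚ A] in
theorem AbFix.pow {y : G} (h : AbFix ρ y) (k : ℕ) : AbFix ρ (y ^ k) := by
  obtain ⟨f, f0, hf⟩ := h
  exact ⟨f, f0, (fx ρ f).pow_mem (mem_fx.2 hf) k⟩

/-- The stabiliser of a non-zero vector is a Frobenius complement. -/
theorem Rp.ab_fx (h : Rp ρ) {f : A} (f0 : f ≠ 0) : Frob.PQCond (fx ρ f) := by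
  by_cases hb : fx ρ f = ⊥
  · intro x y hx
    rw [show x = 1 from Subtype.ext (mem_bot.1 (hb ▸ x.2)), orderOf_one] at hx
    exact absurd hx Nat.not_prime_one
  obtain ⟨e, ee, h1, h2, -, -, h5, -⟩ := h.av (fx ρ f)
  have e0 : e ≠ 0 := fun e' => f0 (by rw [← h2 f fun g hg => hg, e', zero_mul])
  refine (h.free_sub (ab_one_sub ee) (sub_ne_zero.2 (h5 hb).symm) (by simpa using e0)
    (fun y hy => by rw [mul_sub, sub_mul, (h1 y hy).1, (h1 y hy).2]; simp) ?_).pqCond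
  rw [eq_bot_iff, ← h.fx_inf e]
  exact inf_le_inf_right _ fun y hy => (h1 y hy).1

theorem Rp.ab_ey (h : Rp ρ) {y : G} (hy : AbFix ρ y) (y1 : y ≠ 1) : ∃ e : A, e * e = e ∧ e ≠ 0 ∧
    e ≠ 1 ∧ ρ y * e = e ∧ ∀ x, x * y * x⁻¹ ∈ zpowers y → ρ x * e = e * ρ x := by
  obtain ⟨f, f0, hf⟩ := hy
  obtain ⟨e, ee, h1, h2, -, h4, h5, -⟩ := h.av (zpowers y)
  refine ⟨e, ee, fun e' => f0 ?_, h5 (by simpa using y1), (h1 y (mem_zpowers y)).1,
    fun x hx => h4 x fun g hg => (mem_normalizer_iff.1 (TwoGrp.mem_normalizer_zpowers hx) g).1 hg⟩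
  rw [← h2 f fun g hg => (zpowers_le.2 (mem_fx.2 hf) hg : g ∈ fx ρ f), e', zero_mul]

theorem Rp.ab_orth (h : Rp ρ) {p : ℕ} (hp : p.Prime) {x y : G} (hx : orderOf x = p)
    (hy : orderOf y = p) (c : y * x = x * y) (hn : y ∉ zpowers x) {f : A} (h1 : ρ x * f = f)
    (h2 : ρ y * f = f) : f = 0 := by
  by_contra f0
  exact hn ((Frob.pqCond_subgroup_iff.1 (h.ab_fx f0) x h1 y h2 (hx ▸ hp) (hy ▸ hp)
    (by rw [c, mul_inv_cancel_right]; exact mem_zpowers x)).2 (hx.trans hy.symm))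

/-- At most two subgroups of order `p` of an abelian subgroup have fixed vectors. -/
theorem Rp.ab_three (h : Rp ρ) {p : ℕ} (hp : p.Prime) {x y z : G} (hx : orderOf x = p)
    (hy : orderOf y = p) (hz : orderOf z = p) (xy : y * x = x * y) (xz : z * x = x * z)
    (yz : z * y = y * z) (fx' : AbFix ρ x) (fy : AbFix ρ y) (fz : AbFix ρ z) :
    y ∈ zpowers x ∨ z ∈ zpowers x ∨ z ∈ zpowers y := by
  by_contra hc
  push Not at hc
  obtain ⟨n1, n2, n3⟩ := hc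
  have ne1 : ∀ u : G, orderOf u = p → u ≠ 1 := fun u hu e =>
    hp.one_lt.ne (by rw [← hu, e, orderOf_one])
  have cm : ∀ u v : G, u * v = v * u → u * v * u⁻¹ ∈ zpowers v := fun u v e => by
    rw [e, mul_inv_cancel_right]; exact mem_zpowers v
  obtain ⟨e₁, i1, z1, -, f1, c1⟩ := h.ab_ey fx' (ne1 x hx)
  obtain ⟨e₂, i2, z2, -, f2, c2⟩ := h.ab_ey fy (ne1 y hy)
  obtain ⟨e₃, -, z3, -, f3, -⟩ := h.ab_ey fz (ne1 z hz)
  refine h.two.ab_no3 i1 i2 z1 z2 z3 (h.ab_orth hp hx hy xy n1 ?_ ?_)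
    (h.ab_orth hp hx hy xy n1 ?_ ?_) (h.ab_orth hp hx hz xz n2 ?_ ?_)
    (h.ab_orth hp hy hz yz n3 ?_ ?_)
  · rw [← mul_assoc, f1]
  · rw [← mul_assoc, c1 y (cm _ _ xy), mul_assoc, f2]
  · rw [← mul_assoc, c2 x (cm _ _ xy.symm), mul_assoc, f1]
  · rw [← mul_assoc, f2]
  · rw [← mul_assoc, f1]
  · rw [← mul_assoc, c1 z (cm _ _ xz), mul_assoc, f3]
  · rw [← mul_assoc, f2]
  · rw [← mul_assoc, c2 z (cm _ _ yz), mul_assoc, f3]

/-- conjugates of `y` inside an abelian subgroup -/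
theorem Rp.ab_conj (h : Rp ρ) {p : ℕ} (hp : p.Prime) {E : Subgroup G}
    (hE : ∀ x ∈ E, ∀ y ∈ E, x * y = y * x) {y a b : G} (hy : orderOf y = p) (fy : AbFix ρ y)
    (yE : y ∈ E) (ha : a * y * a⁻¹ ∈ E) (hb : b * y * b⁻¹ ∈ E) :
    a ∈ normalizer (zpowers y : Set G) ∨ b ∈ normalizer (zpowers y : Set G) ∨
      a⁻¹ * b ∈ normalizer (zpowers y : Set G) := by
  have ho : ∀ g : G, orderOf (g * y * g⁻¹) = p := fun g => by
    rw [← hy]; exact (MulAut.conj g).orderOf_eq y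
  rcases h.ab_three hp hy (ho a) (ho b) (hE _ ha _ yE) (hE _ hb _ yE) (hE _ hb _ ha) fy (fy.conj a)
    (fy.conj b) with h1 | h1 | ⟨k, hk⟩
  · exact Or.inl (TwoGrp.mem_normalizer_zpowers h1)
  · exact Or.inr (Or.inl (TwoGrp.mem_normalizer_zpowers h1))
  · refine Or.inr (Or.inr (TwoGrp.mem_normalizer_zpowers ⟨k, ?_⟩))
    simp only [conj_zpow] at hk
    calc y ^ k = a⁻¹ * (a * y ^ k * a⁻¹) * a := by group
      _ = _ := by rw [hk]; group

theorem ab_card_le {X : Type*} [Group X] [Finite X] (hX : Frob.PQCond X) (hc : IsMulCommutative X)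
    {p : ℕ} (hp : p.Prime) (he : ∀ a : X, a ^ p = 1) : Nat.card X ≤ p := by
  have := hX.isCyclic_of_comm hc
  rw [← IsCyclic.exponent_eq_card]
  exact Nat.le_of_dvd hp.pos (Monoid.exponent_dvd_of_forall_pow_eq_one he)

theorem Rp.rank (h : Rp ρ) {p : ℕ} (hp : p.Prime) : Cfsg.PRankLE p 2 G := by
  intro E hc he
  have hc' : ∀ x ∈ E, ∀ y ∈ E, x * y = y * x := fun x hx y hy =>
    congrArg Subtype.val (hc.is_comm.comm (⟨x, hx⟩ : E) ⟨y, hy⟩)
  have he' : ∀ a : E, a ^ p = 1 := fun a => Subtype.ext (he a a.2)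
  rcases h.free_or E with hf | ⟨y, yE, y1, f, -, f0, hf⟩
  · exact (ab_card_le hf.pqCond hc hp he').trans (Nat.le_self_pow (by norm_num) p)
  obtain ⟨e, ee, e0, e1, -, ce⟩ := h.ab_ey ⟨f, f0, hf⟩ y1
  have hY : ∀ x ∈ E, ρ x * e = e * ρ x := fun x hx =>
    ce x (by rw [hc' x hx y yE, mul_inv_cancel_right]; exact mem_zpowers y)
  have hn := fx_normal hY
  have h1 : Nat.card (E ⧸ (fx ρ e).subgroupOf E) ≤ p := by
    refine ab_card_le (h.free ee e0 e1 hY).pqCond ⟨⟨fun a b => ?_⟩⟩ hp fun a => ?_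
    · obtain ⟨a, rfl⟩ := QuotientGroup.mk_surjective a
      obtain ⟨b, rfl⟩ := QuotientGroup.mk_surjective b
      rw [← QuotientGroup.mk_mul, ← QuotientGroup.mk_mul, hc.is_comm.comm a b]
    · obtain ⟨a, rfl⟩ := QuotientGroup.mk_surjective a
      rw [← QuotientGroup.mk_pow, he', QuotientGroup.mk_one]
  have h2 : Nat.card ((fx ρ e).subgroupOf E) ≤ p := by
    refine ab_card_le ((h.ab_fx e0).of_injective
      ((E.subtype.comp ((fx ρ e).subgroupOf E).subtype).codRestrict (fx ρ e) fun x => x.2) ?_)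
      inferInstance hp fun a => Subtype.ext (he' a)
    intro a b hab
    have h3 := congrArg Subtype.val hab
    exact Subtype.ext (Subtype.ext h3)
  rw [card_eq_card_quotient_mul_card_subgroup ((fx ρ e).subgroupOf E), sq]
  exact Nat.mul_le_mul h1 h2

theorem Rp.ab_comm_mem (h : Rp ρ) {p : ℕ} (hp : p.Prime) (h2 : p ≠ 2) {P : Subgroup G}
    (hP : IsPGroup p P) {f : A} (ff : f * f = f) (f0 : f ≠ 0) (f1 : f ≠ 1)
    (hY : ∀ y ∈ P, ρ y * f = f * ρ y) {x y : G} (hx : x ∈ P) (hy : y ∈ P) :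
    (y * x)⁻¹ * (x * y) ∈ fx ρ f := by
  have := Fact.mk hp
  have hn := fx_normal hY
  have hc := (h.free ff f0 f1 hY).pqCond.isCyclic_of_odd (hP.to_quotient _) h2
  have h1 : ((⟨y, hy⟩ * ⟨x, hx⟩ : P) : P ⧸ (fx ρ f).subgroupOf P) = (⟨x, hx⟩ * ⟨y, hy⟩ : P) := by
    rw [QuotientGroup.mk_mul, QuotientGroup.mk_mul]
    exact hc.isMulCommutative.is_comm.comm _ _
  have h3 := QuotientGroup.eq.1 h1
  exact h3

theorem Rp.odd_ab (h : Rp ρ) {p : ℕ} (hp : p.Prime) (h2 : p ≠ 2) {P : Subgroup G} (hP : IsPGroup p P) :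
    ∀ x ∈ P, ∀ y ∈ P, x * y = y * x := by
  have := Fact.mk hp
  by_cases hc : IsCyclic P
  · exact fun x hx y hy =>
      congrArg Subtype.val (hc.isMulCommutative.is_comm.comm (⟨x, hx⟩ : P) ⟨y, hy⟩)
  obtain ⟨E, hn, ⟨hE, he⟩, hcard⟩ := PGroup.exists_normal_rank_two h2 hP hc
  have hE' : ∀ x ∈ E.map P.subtype, ∀ y ∈ E.map P.subtype, x * y = y * x := by
    rintro _ ⟨x, hx, rfl⟩ _ ⟨y, hy, rfl⟩
    exact congrArg (fun u : E => ((u : P) : G)) (hE.is_comm.comm (⟨x, hx⟩ : E) ⟨y, hy⟩)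
  rcases h.free_or (E.map P.subtype) with hf | ⟨_, ⟨y, yE, rfl⟩, y1, f, -, f0, hf⟩
  · refine absurd ?_ ((hf.pqCond.of_injective
      (E.equivMapOfInjective P.subtype P.subtype_injective).toMonoidHom
      (MulEquiv.injective _)).card_ne_sq (p := p) ⊤ fun x _ => Subtype.ext (he x x.2))
    rw [card_top, hcard]
  have hy : orderOf (y : G) = p := orderOf_eq_prime (congrArg Subtype.val (he y yE)) y1
  obtain ⟨e, ee, e0, e1, -, ce⟩ := h.ab_ey ⟨f, f0, hf⟩ y1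
  have hY : ∀ g ∈ P, ρ g * e = e * ρ g := fun g hg => by
    have hm : ∀ a ∈ P, a * y * a⁻¹ ∈ E.map P.subtype := fun a ha =>
      ⟨_, hn.conj_mem y yE ⟨a, ha⟩, rfl⟩
    have hN : g ∈ normalizer (zpowers (y : G) : Set G) := by
      rcases h.ab_conj hp hE' hy ⟨f, f0, hf⟩ ⟨y, yE, rfl⟩ (hm g hg) (hm _ (P.pow_mem hg 2)) with
        h1 | h1 | h1
      · exact h1
      · obtain ⟨k, hk⟩ := IsPGroup.iff_orderOf.1 hP ⟨g, hg⟩
        rw [orderOf_mk] at hk
        obtain ⟨m, hm⟩ := exists_pow_eq_self_of_coprime (x := g) (n := 2) (by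
          rw [hk]; exact Nat.Coprime.pow_right _ ((Nat.coprime_primes Nat.prime_two hp).2 h2.symm))
        rw [← hm]
        exact pow_mem h1 m
      · simpa [pow_two] using h1
    exact ce g ((mem_normalizer_iff.1 hN _).1 (mem_zpowers _))
  intro x hx y hy
  have h3 : (y * x)⁻¹ * (x * y) ∈ fx ρ e ⊓ fx ρ (1 - e) :=
    ⟨h.ab_comm_mem hp h2 hP ee e0 e1 hY hx hy, h.ab_comm_mem hp h2 hP (ab_one_sub ee)
      (sub_ne_zero.2 e1.symm) (by simpa using e0)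
      (fun g hg => by rw [mul_sub, sub_mul, hY g hg]; simp) hx hy⟩
  rw [h.fx_inf, mem_bot, inv_mul_eq_one] at h3
  exact h3.symm

omit [Finite G] [Algebra ℚ A] in
theorem ab_fix_inv {a : G} (aa : a * a = 1) (ha : ρ a ≠ -1) : AbFix ρ a :=
  ⟨ρ a + 1, fun e => ha (eq_neg_of_add_eq_zero_left e),
    by rw [mul_add, ← map_mul, aa, map_one, mul_one, add_comm]⟩

omit [Finite G] in
theorem ab_mem_zpowers {a x : G} (aa : a * a = 1) (hx : x ∈ zpowers a) : x = 1 ∨ x = a := by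
  obtain ⟨k, rfl⟩ := hx
  have h2 : a ^ (2 : ℤ) = 1 := by rw [zpow_two, aa]
  obtain ⟨m, rfl | rfl⟩ := Int.even_or_odd' k
  · left; simp only [zpow_mul, h2, one_zpow]
  · right; simp only [zpow_add, zpow_mul, h2, one_zpow, zpow_one, one_mul]

theorem Rp.four (h : Rp ρ) {a b : G} (aa : a * a = 1) (bb : b * b = 1) (a1 : a ≠ 1) (b1 : b ≠ 1) (ab : a ≠ b)
    (c : a * b = b * a) : ∃ z : G, ρ z = -1 := by
  by_contra hc
  push Not at hc
  have cc : a * b * (a * b) = 1 := by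
    rw [mul_assoc, ← mul_assoc b, ← c, mul_assoc a b b, bb, mul_one, aa]
  have c1 : a * b ≠ 1 := fun e => ab (by rw [← mul_one a, ← bb, ← mul_assoc, e, one_mul])
  have ho : ∀ u : G, u * u = 1 → u ≠ 1 → orderOf u = 2 := fun u h1 h2 =>
    orderOf_eq_prime (by rw [pow_two, h1]) h2
  rcases h.ab_three Nat.prime_two (ho a aa a1) (ho b bb b1) (ho _ cc c1) c.symm
    (by rw [mul_assoc, ← c]) (by rw [mul_assoc, ← mul_assoc b, ← c, mul_assoc])
    (ab_fix_inv aa (hc a)) (ab_fix_inv bb (hc b)) (ab_fix_inv cc (hc _)) with h1 | h1 | h1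
  · rcases ab_mem_zpowers aa h1 with e | e
    exacts [b1 e, ab e.symm]
  · rcases ab_mem_zpowers aa h1 with e | e
    exacts [c1 e, b1 (by simpa using e)]
  · rcases ab_mem_zpowers bb h1 with e | e
    exacts [c1 e, a1 (by simpa using e)]

theorem Rp.cen_inv (h : Rp ρ) (hi : Irr ρ) {z : G} (zz : z * z = 1) (z1 : z ≠ 1) (zc : ∀ g, g * z = z * g) :
    ρ z = -1 := by
  by_contra hc
  obtain ⟨e, ee, e0, e1, -, ce⟩ := h.ab_ey (ab_fix_inv zz hc) z1
  rcases hi e ee fun g => ce g (by rw [zc, mul_inv_cancel_right]; exact mem_zpowers z) with h1 | h1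
  exacts [e0 h1, e1 h1]

theorem Rp.ab_normal (h : Rp ρ) (hi : Irr ρ) (hG : _root_.commutator G = ⊤) {Y : Subgroup G} [Y.Normal]
    (hY : ∀ x ∈ Y, ∀ y ∈ Y, x * y = y * x) : Y ≤ center G := by
  have hn : Y.Normal := inferInstance
  by_cases hc : IsCyclic Y
  · have h1 := Abelianization.commutator_subset_ker
      ((hc.mulAutMulEquiv Y).toMonoidHom.comp (MulAut.conjNormal (H := Y)))
    intro y hy
    rw [mem_center_iff]
    intro g
    have h2 : MulAut.conjNormal (H := Y) g = 1 := by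
      have := h1 (hG ▸ mem_top g)
      rw [MonoidHom.mem_ker, MonoidHom.comp_apply] at this
      exact (map_eq_one_iff _ (hc.mulAutMulEquiv Y).injective).1 this
    have h3 := congrArg (fun φ : MulAut Y => (φ ⟨y, hy⟩ : G)) h2
    simp only [MulAut.conjNormal_apply, MulAut.one_apply] at h3
    exact mul_inv_eq_iff_eq_mul.1 h3
  exfalso
  rcases h.free_or Y with hf | ⟨y₀, yY, y1, f, -, f0, hf⟩
  · exact hc (hf.pqCond.isCyclic_of_comm ⟨⟨fun a b => Subtype.ext (hY a a.2 b b.2)⟩⟩)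
  have hp : (orderOf y₀).minFac.Prime := Nat.minFac_prime (by simpa using y1)
  have hy := orderOf_pow_orderOf_div (orderOf_pos y₀).ne' (Nat.minFac_dvd (orderOf y₀))
  have fy : AbFix ρ (y₀ ^ (orderOf y₀ / (orderOf y₀).minFac)) := AbFix.pow ⟨f, f0, hf⟩ _
  have yY' := Y.pow_mem yY (orderOf y₀ / (orderOf y₀).minFac)
  generalize y₀ ^ (orderOf y₀ / (orderOf y₀).minFac) = y at hy fy yY'
  obtain ⟨N, hN⟩ : ∃ N, N = normalizer (zpowers y : Set G) := ⟨_, rfl⟩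
  have k1 : ∀ a b : G, a ∉ N → b ∉ N → a * b ∈ N := fun a b ha hb => by
    have := h.ab_conj hp hY hy fy yY' (hn.conj_mem y yY' a⁻¹) (hn.conj_mem y yY' b)
    rw [← hN, inv_inv, N.inv_mem_iff] at this
    tauto
  have k2 : ∀ a b : G, a * b ∈ N ↔ (a ∈ N ↔ b ∈ N) := fun a b => by
    by_cases ha : a ∈ N <;> by_cases hb : b ∈ N
    · simp [ha, hb, N.mul_mem ha hb]
    · simp [ha, hb, N.mul_mem_cancel_left ha]
    · simp [ha, hb, N.mul_mem_cancel_right hb]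
    · simp [ha, hb, k1 a b ha hb]
  have k3 : _root_.commutator G ≤ N := by
    rw [commutator_def, commutator_le]
    intro a _ b _
    rw [commutatorElement_def, k2, k2, k2, N.inv_mem_iff, N.inv_mem_iff]
    tauto
  obtain ⟨e, ee, e0, e1, -, ce⟩ := h.ab_ey fy fun e' => hp.one_lt.ne (by rw [← hy, e', orderOf_one])
  rcases hi e ee fun g => ce g ((mem_normalizer_iff.1 (hN ▸ k3 (hG ▸ mem_top g)) _).1
    (mem_zpowers y)) with h1 | h1
  exacts [e0 h1, e1 h1]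

end CfsgLib.GL2D
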