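import Cfsg.Agent.Lib.GL2D.Defs
import Cfsg.Agent.Lib.Tech.SylowIn
import Cfsg.Agent.Lib.Fus2.Base

/-! BAS: first consequences of `RG` and `LS`.  See `plans/GL2D.md`. -/

set_option autoImplicit false
set_option linter.unusedSectionVars false

namespace CfsgLib.GL2D
open Subgroup Tech

variable {G : Type*} [Group G] [Finite G] {z t s : G} {B : G → Subgroup G} {S : Sylow 2 G}

omit [Finite G] in
theorem RG.zl (h : RG z B) (x : G) : z * (z * x) = x := by rw [← mul_assoc, h.zz, one_mul]

omit [Finite G] in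
theorem RG.cz (h : RG z B) {r x : G} (xr : x * r = r * x) : x * (z * r) = z * r * x := by
  rw [← mul_assoc, h.zc, mul_assoc, xr, mul_assoc]

omit [Finite G] in
theorem RG.zmul (h : RG z B) (x y : G) : z * x * (z * y) = x * y := by
  rw [mul_assoc, ← mul_assoc x, h.zc, mul_assoc, h.zl]

omit [Finite G] in
theorem RG.rf_z (h : RG z B) {r : G} (hr : Rf z r) : Rf z (z * r) := by
  refine ⟨by rw [h.zmul, hr.1], fun e => hr.2.2 ?_, fun e => hr.2.1 (by simpa using e)⟩
  rw [← h.zl r, e, mul_one]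

omit [Finite G] in
theorem RG.rf_cj (h : RG z B) {r : G} (hr : Rf z r) (g : G) : Rf z (g * r * g⁻¹) := by
  refine ⟨?_, fun e => hr.2.1 (by simpa using e), fun e => hr.2.2 ?_⟩
  · calc g * r * g⁻¹ * (g * r * g⁻¹) = g * (r * r) * g⁻¹ := by group
      _ = 1 := by rw [hr.1]; group
  · calc r = g⁻¹ * (g * r * g⁻¹) * g := by group
      _ = z := by rw [e, h.zc]; group

omit [Finite G] in
theorem RG.inv_B (h : RG z B) {r x : G} (hr : Rf z r) (xB : x ∈ B r) (xx : x * x = 1) : x = 1 ∨ x = r := by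
  have hz := h.rf_z hr
  rcases h.uniq hz (h.cz (h.le hr xB)) (xx ▸ one_mem _) with e | e
  · exact .inl (h.dis hr xB e)
  · right
    have e2 := mul_mem e (h.self hz)
    rw [h.zmul] at e2
    have := h.dis hr (mul_mem xB (h.self hr)) e2
    rw [eq_inv_of_mul_eq_one_left this, inv_eq_of_mul_eq_one_right hr.1]

omit [Finite G] in
/-- The involutions of `C(r)`. -/
theorem RG.inv_cen (h : RG z B) {r x : G} (hr : Rf z r) (xr : x * r = r * x) (xx : x * x = 1) :
    x = 1 ∨ x = z ∨ x = r ∨ x = z * r := by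
  rcases h.uniq hr xr (xx ▸ one_mem _) with e | e
  · rcases h.inv_B hr e xx with e | e
    · exact .inl e
    · exact .inr (.inr (.inl e))
  · rcases h.inv_B hr e (by rw [h.zmul, xx]) with e | e
    · exact .inr (.inl (by rw [← h.zl x, e, mul_one]))
    · exact .inr (.inr (.inr (by rw [← h.zl x, e])))

omit [Finite G] in
/-- Square roots of a reflection. -/
theorem RG.sqrt (h : RG z B) {r x : G} (hr : Rf z r) (xx : x * x = r) : x ∈ B r ∨ z * x ∈ B r := by
  exact h.uniq hr (by rw [← xx, mul_assoc]) (by rw [xx]; exact h.self hr)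

omit [Finite G] in
theorem RG.nrm (h : RG z B) {r b x : G} (hr : Rf z r) (xr : x * r = r * x) (hb : b ∈ B r) :
    x * b * x⁻¹ ∈ B r := by
  have := h.cj x hr hb
  rwa [xr, mul_inv_cancel_right] at this

omit [Finite G] in
theorem RG.comm (h : RG z B) {r b c : G} (hr : Rf z r) (hb : b ∈ B r) (hc : c ∈ B (z * r)) : b * c = c * b := by
  have hz := h.rf_z hr
  have cr : c * r = r * c := by
    have := h.cz (h.le hz hc)
    rwa [h.zl] at this
  have h1 : b * (c * b⁻¹ * c⁻¹) ∈ B r := mul_mem hb (h.nrm hr cr (inv_mem hb))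
  have h2 : b * c * b⁻¹ * c⁻¹ ∈ B (z * r) := mul_mem (h.nrm hz (h.cz (h.le hr hb)) hc) (inv_mem hc)
  have := h.dis hr h1 (by simpa only [mul_assoc] using h2)
  calc b * c = b * (c * b⁻¹ * c⁻¹) * (c * b) := by group
    _ = c * b := by rw [this, one_mul]

omit [Finite G] in
theorem RG.dec_uniq (h : RG z B) {r b c b' c' : G} (hr : Rf z r) (hb : b ∈ B r) (hc : c ∈ B (z * r))
    (hb' : b' ∈ B r) (hc' : c' ∈ B (z * r)) (e : b * c = b' * c') : b = b' ∧ c = c' := by
  have e1 : b'⁻¹ * b = c' * c⁻¹ := by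
    calc b'⁻¹ * b = b'⁻¹ * (b * c) * c⁻¹ := by group
      _ = c' * c⁻¹ := by rw [e]; group
  have := h.dis hr (mul_mem (inv_mem hb') hb) (e1 ▸ mul_mem hc' (inv_mem hc))
  have e2 : b = b' := (inv_mul_eq_one.1 this).symm
  exact ⟨e2, mul_left_cancel (e2 ▸ e)⟩

omit [Finite G] in
/-- An anticommuting reflection swaps the two homology groups. -/
theorem RG.swap (h : RG z B) {r s b : G} (hr : Rf z r) (ss : s * s = 1) (sr : s * r = z * (r * s)) :
    (b ∈ B r → s * b * s ∈ B (z * r)) ∧ (b ∈ B (z * r) → s * b * s ∈ B r) := by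
  have si : s⁻¹ = s := inv_eq_of_mul_eq_one_right ss
  have e1 : s * r * s⁻¹ = z * r := by rw [sr]; group
  have e2 : s * (z * r) * s⁻¹ = r := by rw [← mul_assoc s, h.zc, mul_assoc z, mul_assoc z, e1, h.zl]
  exact ⟨fun hb => by simpa only [e1, si] using (e1 ▸ h.cj s hr hb :),
    fun hb => by simpa only [si] using (e2 ▸ h.cj s (h.rf_z hr) hb :)⟩

/-- The square of an element of order eight of `C(r)` lies in `B r × B (z r)` when `|B r| ≥ 4`. -/
theorem RG.lemL (h : RG z B) {r x : G} (hr : Rf z r) (two : IsPGroup 2 (B r)) (big : ∃ k ∈ B r, k * k = r)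
    (xr : x * r = r * x) (x4 : x ^ 4 = z) : ∃ b ∈ B r, x * x * b⁻¹ ∈ B (z * r) := by
  have hz := h.rf_z hr
  have zp : ∀ {u}, u ∈ zpowers r → u = 1 ∨ u = r := fun {u} hu =>
    h.inv_B hr (zpowers_le.2 (h.self hr) hu) (by
      obtain ⟨n, rfl⟩ := hu
      change r ^ n * r ^ n = 1
      rw [← Commute.mul_zpow (Commute.refl r), hr.1, one_zpow])
  have x8 : x ^ 2 ^ 3 = 1 := by rw [show 2 ^ 3 = 4 + 4 by rfl, pow_add, x4, h.zz]
  have le : B r ⊔ zpowers x ≤ centralizer {r} := sup_le (fun b hb => mem_centralizer_singleton_iff.2 (h.le hr hb))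
    (zpowers_le.2 (mem_centralizer_singleton_iff.2 xr))
  have nB : centralizer {r} ≤ normalizer (B r : Set G) := fun g hg =>
    mem_normalizer_of_forall fun b hb => h.nrm hr (mem_centralizer_singleton_iff.1 hg) hb
  have nr : centralizer {r} ≤ normalizer (zpowers r : Set G) := fun g hg =>
    mem_normalizer_of_forall fun b hb => by
      rcases zp hb with rfl | rfl
      · simp
      · rw [mem_centralizer_singleton_iff.1 hg]; simp
  have P2 : IsPGroup 2 (B r ⊔ zpowers x : Subgroup G) :=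
    two.to_sup_of_normal_left' (isPGroup_zpowers_of_pow x8) (le_sup_right.trans (le.trans nB))
  obtain ⟨k, kB, kr, kk, kx⟩ := Fus2.exists_central_mod P2 le_sup_left (le.trans nr) (le.trans nB) (fun e => by
    obtain ⟨k, kB, kk⟩ := big
    rcases zp (e kB) with rfl | rfl
    · exact hr.2.1 (by simpa using kk.symm)
    · exact hr.2.1 (kk.symm.trans hr.1))
  have kk : k * k = r := by
    rcases zp kk with e | e
    · rcases h.inv_B hr kB (by rwa [← pow_two]) with e | e
      · exact absurd (e ▸ one_mem _) kr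
      · exact absurd (e ▸ mem_zpowers _) kr
    · rwa [← pow_two]
  have kr' := h.le hr kB
  have xk : x * x * k = k * (x * x) := by
    rcases zp (kx x (mem_sup_right (mem_zpowers x))) with e | e
    · have e : x * k = k * x := commutatorElement_eq_one_iff_mul_comm.1 e
      rw [mul_assoc, e, ← mul_assoc, e, mul_assoc]
    · have e : x * k = r * (k * x) := by rw [← e, commutatorElement_def]; group
      rw [mul_assoc, e, ← mul_assoc, xr, mul_assoc, ← mul_assoc x, e, ← mul_assoc, ← mul_assoc, hr.1, one_mul,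
        mul_assoc]
  have xxr : x * x * r = r * (x * x) := by rw [mul_assoc, xr, ← mul_assoc, xr, mul_assoc]
  have sq : x * x * k * (x * x * k) = z * r := by
    calc x * x * k * (x * x * k) = x * x * (k * (x * x)) * k := by group
      _ = x ^ 4 * (k * k) := by rw [← xk]; simp only [pow_succ, pow_zero, one_mul, mul_assoc]
      _ = z * r := by rw [x4, kk]
  have c : x * x * k * r = r * (x * x * k) := by rw [mul_assoc, kr', ← mul_assoc, xxr, mul_assoc]
  rcases h.uniq hz (h.cz c) (by rw [sq]; exact h.self hz) with e | e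
  · exact ⟨k⁻¹, inv_mem kB, by rwa [inv_inv]⟩
  · refine ⟨(k * r)⁻¹, inv_mem (mul_mem kB (h.self hr)), ?_⟩
    have := mul_mem e (h.self hz)
    rwa [h.zmul, mul_assoc, ← inv_inv (k * r)] at this

omit [Finite G] in
theorem LS.nm_split (h : LS z B S t s) {x : G} (hx : Nm z t x) : x * t = t * x ∨ s * x * t = t * (s * x) := by
  rcases hx with e | e
  · exact .inl (mul_inv_eq_iff_eq_mul.1 e)
  · right
    have e := mul_inv_eq_iff_eq_mul.1 e
    have hh := h.toTop.toRG
    calc s * x * t = s * z * t * x := by rw [mul_assoc, e]; group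
      _ = z * (s * t) * x := by rw [h.zc s, mul_assoc z]
      _ = t * (s * x) := by rw [h.st, hh.zl, mul_assoc]

omit [Finite G] in
theorem LS.split (h : LS z B S t s) : ∀ x ∈ (S : Subgroup G), x ∈ RR S t ∨ s * x ∈ RR S t := by
  intro x hx
  rcases h.nm_split (h.nm x hx) with e | e
  · exact .inl (mem_RR.2 ⟨hx, e⟩)
  · exact .inr (mem_RR.2 ⟨mul_mem h.sS hx, e⟩)

omit [Finite G] in
theorem LS.s_nmem (h : LS z B S t s) : s ∉ RR S t := by
  intro e
  have := (mem_RR.1 e).2
  rw [h.st] at this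
  exact h.z1 (by simpa using this)

omit [Finite G] in
theorem LS.sRs (h : LS z B S t s) : ∀ x ∈ RR S t, s * x * s ∈ RR S t := by
  intro x hx
  have hS := (mem_RR.1 hx).1
  rcases h.split _ (mul_mem (mul_mem h.sS hS) h.sS) with e | e
  · exact e
  · rw [← mul_assoc, ← mul_assoc, h.rs.1, one_mul] at e
    exact absurd ((mul_mem_cancel_left hx).1 e) h.s_nmem

theorem LS.cen_le (h : LS z B S t s) : center G ≤ (S : Subgroup G) := by
  exact h.cen2.le_sylow_of_normal S

theorem LS.zS (h : LS z B S t s) : z ∈ (S : Subgroup G) := by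
  exact h.cen_le (mem_center_iff.2 h.zc)

/-- The normaliser of `⟨t, z⟩`. -/
def NN (hh : RG z B) (t : G) : Subgroup G where
  carrier := {x | Nm z t x}
  one_mem' := .inl (by simp)
  mul_mem' := fun {a b} ha hb => by
    have e : a * b * t * (a * b)⁻¹ = a * (b * t * b⁻¹) * a⁻¹ := by group
    have e2 : a * (z * t) * a⁻¹ = z * (a * t * a⁻¹) := by rw [← mul_assoc a, hh.zc]; group
    change Nm z t _
    unfold Nm
    rw [e]
    rcases hb with hb | hb <;> rw [hb]
    · exact ha
    · rw [e2]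
      rcases ha with ha | ha <;> rw [ha]
      · exact .inr rfl
      · exact .inl (hh.zl t)
  inv_mem' := fun {a} ha => by
    change Nm z t _
    unfold Nm
    rcases ha with ha | ha
    · left
      conv_lhs => rw [← ha]
      group
    · right
      have : t = z * (a * t * a⁻¹) := by rw [ha, hh.zl]
      conv_lhs => rw [this]
      rw [← mul_assoc a⁻¹, hh.zc]
      group

omit [Finite G] in
theorem mem_NN {hh : RG z B} {x : G} : x ∈ NN hh t ↔ Nm z t x := Iff.rfl

theorem LS.sylN (h : LS z B S t s) : IsSylowIn 2 (S : Subgroup G) (NN h.toTop.toRG t) :=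
  IsSylowIn.of_sylow S h.nm

theorem LS.sylH (h : LS z B S t s) : IsSylowIn 2 (RR S t) (centralizer {t}) := by
  have le : centralizer {t} ≤ NN h.toTop.toRG t := fun x hx =>
    .inl (mul_inv_eq_iff_eq_mul.2 (mem_centralizer_singleton_iff.1 hx))
  have := h.sylN.inf_of_le_normalizer (N := centralizer {t}) fun g hg => mem_normalizer_of_forall fun x hx => by
    have hx := mem_centralizer_singleton_iff.1 hx
    have hi := (NN h.toTop.toRG t).inv_mem hg
    refine mem_centralizer_singleton_iff.2 ?_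
    have key : x * (g⁻¹ * t * g⁻¹⁻¹) = g⁻¹ * t * g⁻¹⁻¹ * x := by
      rcases hi with e | e <;> rw [e]
      · exact hx
      · exact h.toTop.toRG.cz hx
    calc g * x * g⁻¹ * t = g * (x * (g⁻¹ * t * g⁻¹⁻¹)) * g⁻¹ := by group
      _ = _ := by rw [key]; group
  rwa [inf_eq_right.2 le] at this

/-- `R` is a Sylow `2`-subgroup of `C(t)`. -/
theorem LS.odd (h : LS z B S t s) : ¬ 2 ∣ (RR S t).relIndex (centralizer {t}) := by
  exact h.sylH.3

theorem LS.B_le (h : LS z B S t s) : B t ≤ RR S t ∧ B (z * t) ≤ RR S t := by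
  have hh := h.toTop.toRG
  have hz := hh.rf_z h.rt
  refine ⟨h.sylH.le_of_le_normalizer (h.two h.rt) (fun b hb => mem_centralizer_singleton_iff.2 (hh.le h.rt hb))
    fun g hg => mem_normalizer_of_forall fun b hb => hh.nrm h.rt (mem_centralizer_singleton_iff.1 hg) hb,
    h.sylH.le_of_le_normalizer (h.two hz) (fun b hb => mem_centralizer_singleton_iff.2 ?_)
    fun g hg => mem_normalizer_of_forall fun b hb => hh.nrm hz (hh.cz (mem_centralizer_singleton_iff.1 hg)) hb⟩
  have := hh.cz (hh.le hz hb)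
  rwa [hh.zl] at this

/-- A reflection normalising `⟨t, z⟩` is conjugate into `S` under `C(t)`. -/
theorem LS.conj_into (h : LS z B S t s) {r : G} (hr : Rf z r) (hn : Nm z t r) :
    ∃ n, n * t = t * n ∧ n * r * n⁻¹ ∈ (S : Subgroup G) := by
  obtain ⟨n, hn, e⟩ := h.sylN.exists_conj_mem (x := r) hn
    (isPGroup_zpowers_of_pow (k := 1) (by rw [pow_one, pow_two, hr.1]))
  rcases h.nm_split hn with c | c
  · exact ⟨n, c, e⟩
  · refine ⟨s * n, c, ?_⟩
    have := mul_mem (mul_mem h.sS e) (inv_mem h.sS)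
    simpa only [mul_assoc, mul_inv_rev] using this

omit [Finite G] in
theorem LS.replace (h : LS z B S t s) {r : G} (rS : r ∈ (S : Subgroup G)) (rr : r * r = 1) (hn : r ∉ RR S t) :
    LS z B S t r := by
  refine ⟨h.toTop, h.tS, rS, h.rt, ⟨rr, fun e => hn (e ▸ one_mem _), fun e => hn (mem_RR.2 ⟨rS, ?_⟩)⟩, ?_, h.nm,
    h.fus, h.two⟩
  · rw [e, h.zc]
  · rcases h.nm r rS with e | e
    · exact absurd (mem_RR.2 ⟨rS, mul_inv_eq_iff_eq_mul.1 e⟩) hn
    · rw [mul_inv_eq_iff_eq_mul.1 e, mul_assoc]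

omit [Finite G] in
theorem LS.big (h : LS z B S t s) (big : ∃ k ∈ B t, k * k = t) {r : G} (hr : Rf z r) : ∃ k ∈ B r, k * k = r := by
  obtain ⟨g, rfl⟩ := h.fus hr
  obtain ⟨k, kB, kk⟩ := big
  exact ⟨_, h.cj g h.rt kB, by rw [← kk]; group⟩

theorem LS.small_or_big (h : LS z B S t s) : (∀ b ∈ B t, b = 1 ∨ b = t) ∨ ∃ k ∈ B t, k * k = t := by
  have hh := h.toTop.toRG
  by_contra hn
  push Not at hn
  obtain ⟨⟨b, bB, b1, bt⟩, hk⟩ := hn
  obtain ⟨n, hn⟩ := isPGroup_iff_mem.1 (h.two h.rt) b bB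
  induction n generalizing b with
  | zero => exact b1 (by simpa using hn)
  | succ n ih =>
    refine ih (b * b) (mul_mem bB bB) (fun e => ?_) (hk b bB) (by rw [← pow_two, ← pow_mul, ← pow_succ', hn])
    rcases hh.inv_B h.rt bB e with e | e
    · exact b1 e
    · exact bt e

end CfsgLib.GL2D
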