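import Cfsg.Agent.Lib.GL2D.Bas
import Cfsg.Agent.Lib.Frob.Quaternion
import Cfsg.Agent.Lib.Hom.Defs
import Cfsg.Agent.Lib.PGroup.Rank

/-! BIG1: `|B t| ≥ 4`, the subgroup `W`.  See `plans/GL2D.md`. -/

set_option autoImplicit false

namespace CfsgLib.GL2D
open Subgroup

variable {G : Type*} [Group G] [Finite G] {z t s : G} {B : G → Subgroup G} {S : Sylow 2 G}

omit [Finite G] in
theorem big1_four (x : G) : x ^ 4 = x * x * (x * x) := by
  simp only [pow_succ, pow_zero, one_mul, mul_assoc]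

/-- The decomposition of the square of an element of order eight of `C(t)`. -/
theorem LS.big1_dec (h : LS z B S t s) (big : ∃ k ∈ B t, k * k = t) {x : G} (xt : x * t = t * x)
    (x4 : x ^ 4 = z) : ∃ b ∈ B t, ∃ c ∈ B (z * t), x * x = b * c ∧ x * b = b * x ∧ b * b = t := by
  obtain ⟨b, hb, hc⟩ := h.lemL h.rt (h.two h.rt) big xt x4
  obtain ⟨c, ec⟩ : ∃ c, c = x * x * b⁻¹ := ⟨_, rfl⟩
  rw [← ec] at hc
  have bc := h.comm h.rt hb hc
  have e : x * x = b * c := by rw [bc, ec]; group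
  have xzt : x * (z * t) = z * t * x := by rw [← mul_assoc, h.zc x, mul_assoc, xt, mul_assoc]
  refine ⟨b, hb, c, hc, e, ?_, ?_⟩
  · have := (h.dec_uniq h.rt (h.nrm h.rt xt hb) (h.nrm (h.rf_z h.rt) xzt hc) hb hc (by
      calc x * b * x⁻¹ * (x * c * x⁻¹) = x * (b * c) * x⁻¹ := by group
        _ = b * c := by rw [← e]; group)).1
    exact mul_inv_eq_iff_eq_mul.1 this
  · refine (h.dec_uniq h.rt (mul_mem hb hb) (mul_mem hc hc) (h.self h.rt) (h.self (h.rf_z h.rt)) ?_).1
    calc b * b * (c * c) = b * (b * c) * c := by group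
      _ = b * (c * b) * c := by rw [bc]
      _ = b * c * (b * c) := by group
      _ = x ^ 4 := by rw [← e, big1_four]
      _ = t * (z * t) := by rw [x4, ← mul_assoc, h.zc t, mul_assoc, h.rt.1, mul_one]

omit [Finite G] in
theorem big1_pow4 {x b t : G} (xb : x * b = b * x) (bb : b * b = t) (tt : t * t = 1) :
    (x * b⁻¹) ^ 4 = x ^ 4 := by
  have h1 : b ^ 4 = 1 := by rw [big1_four, bb, tt]
  rw [(Commute.inv_right xb).mul_pow, inv_pow, h1, inv_one, mul_one]

omit [Finite G] in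
theorem LS.big1_rf (h : LS z B S t s) {x : G} (xt : x * t = t * x) (xx : s * x * (s * x) = 1) :
    Rf z (s * x) := by
  have e : s * x * t = z * (t * (s * x)) := by
    rw [mul_assoc, xt, ← mul_assoc, h.st]; group
  refine ⟨xx, fun h1 => h.z1 ?_, fun h1 => h.z1 ?_⟩
  · rw [h1] at e
    simpa using e.symm
  · rw [h1, h.zc t] at e
    simpa using e.symm

theorem LS.no8 (h : LS z B S t s) (big : ∃ k ∈ B t, k * k = t) {y : G} (yt : y * t = t * y) (ys : y * s = s * y) :
    y ^ 4 ≠ z := by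
  intro y4
  obtain ⟨b, hb, c, hc, e, yb, bb⟩ := h.big1_dec big yt y4
  have ss := h.rs.1
  have si : s⁻¹ = s := inv_eq_of_mul_eq_one_right ss
  have sy : s * y * s = y := by rw [← ys, mul_assoc, ss, mul_one]
  have sb : s * b * s = c := (h.dec_uniq h.rt ((h.swap h.rt ss h.st).2 hc)
    ((h.swap h.rt ss h.st).1 hb) hb hc (by
      calc s * c * s * (s * b * s) = s * c * (s * s) * b * s := by group
        _ = s * (y * (s * s) * y) * s := by rw [ss, mul_one, mul_one, e, h.comm h.rt hb hc]; group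
        _ = s * y * s * (s * y * s) := by group
        _ = b * c := by rw [sy, e])).2
  have sb' : s * b⁻¹ * s = y⁻¹ * y⁻¹ * b := by
    calc s * b⁻¹ * s = (s⁻¹ * b * s⁻¹)⁻¹ := by group
      _ = (b⁻¹ * (b * c))⁻¹ := by rw [si, sb]; group
      _ = _ := by rw [← e]; group
  have bt : b⁻¹ * t = t * b⁻¹ := (Commute.inv_left (h.le h.rt hb)).eq
  have hs' : Rf z (s * (y * b⁻¹)) := h.big1_rf (by rw [mul_assoc, bt, ← mul_assoc, yt, mul_assoc]) (by
    calc s * (y * b⁻¹) * (s * (y * b⁻¹)) = s * y * (s * s) * b⁻¹ * s * (y * b⁻¹) := by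
          rw [ss]; group
      _ = s * y * s * (s * b⁻¹ * s) * (y * b⁻¹) := by group
      _ = y⁻¹ * (b * y) * b⁻¹ := by rw [sy, sb']; group
      _ = 1 := by rw [← yb]; group)
  have ys' : y * (s * (y * b⁻¹)) = s * (y * b⁻¹) * y :=
    (Commute.mul_right ys ((Commute.refl y).mul_right (Commute.inv_right yb))).eq
  obtain ⟨b₁, hb₁, hc₁⟩ := h.lemL h.rs (h.two h.rs) (h.big big h.rs) ys y4
  obtain ⟨b₂, hb₂, hc₂⟩ := h.lemL hs' (h.two hs') (h.big big hs') ys' y4
  refine h.int2 h.rs hs' ?_ (Commute.mul_left ys ys).eq (Commute.mul_left ys' ys').eq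
    (by rw [← y4, big1_four]) hb₁ hc₁ hb₂ hc₂
  rw [← mul_assoc, ss, one_mul, big1_pow4 yb bb h.rt.1, y4]

omit [Finite G] in
theorem big1_pow {x : G} {k : ℕ} (hk : x ^ 2 ^ k = 1) (h4 : x ^ 4 ≠ 1) :
    ∃ j : ℕ, (x ^ j) ^ 4 ≠ 1 ∧ (x ^ j) ^ 4 * (x ^ j) ^ 4 = 1 := by
  induction k generalizing x with
  | zero => exact absurd (by rw [show x = 1 by simpa using hk, one_pow]) h4
  | succ k ih =>
    by_cases h8 : x ^ 4 * x ^ 4 = 1
    · exact ⟨1, by simpa using h4, by simpa using h8⟩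
    · obtain ⟨j, hj⟩ := ih (x := x ^ 2) (by rw [← pow_mul, ← pow_succ', hk])
        (fun e => h8 (by rw [← e]; group))
      exact ⟨2 * j, by rwa [pow_mul]⟩

omit [Finite G] in
/-- The involution of `C(t, s)`. -/
theorem LS.big1_inv (h : LS z B S t s) {u : G} (ut : u * t = t * u) (us : u * s = s * u)
    (uu : u * u = 1) : u = 1 ∨ u = z := by
  rcases h.inv_cen h.rt ut uu with e | e | e | e
  · exact Or.inl e
  · exact Or.inr e
  · rw [e, h.st] at us
    exact absurd (by simpa using us.symm) h.z1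
  · rw [e, ← mul_assoc s, h.zc s, mul_assoc, mul_assoc, h.st] at us
    exact absurd (by simpa using us.symm) h.z1

theorem LS.big1_sq (h : LS z B S t s) (big : ∃ k ∈ B t, k * k = t) {x : G} (hx : x ∈ PP S t s) :
    x = 1 ∨ x = z ∨ x * x = z := by
  obtain ⟨xS, xt, xs⟩ := mem_PP.1 hx
  have h4 : x ^ 4 = 1 := by
    by_contra h4
    obtain ⟨k, hk⟩ := Tech.isPGroup_iff_mem.1 S.2 x xS
    obtain ⟨j, h1, h2⟩ := big1_pow hk h4
    have yt : Commute (x ^ j) t := Commute.pow_left xt j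
    have ys : Commute (x ^ j) s := Commute.pow_left xs j
    exact h.no8 big yt ys ((h.big1_inv (yt.pow_left 4) (ys.pow_left 4) h2).resolve_left h1)
  rcases h.big1_inv (Commute.mul_left xt xt) (Commute.mul_left xs xs)
    (by rw [← h4, big1_four]) with e | e
  · rcases h.big1_inv xt xs e with e | e
    exacts [Or.inl e, Or.inr (Or.inl e)]
  · exact Or.inr (Or.inr e)

/-- The involutions of `S ∖ R`. -/
theorem LS.big1_out (h : LS z B S t s) (big : ∃ k ∈ B t, k * k = t) {r : G}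
    (rS : r ∈ (S : Subgroup G)) (rr : r * r = 1) (hn : r ∉ RR S t) :
    (s * r ∈ PP S t s ∧ s * r * (s * r) = 1) ∨
      (s * r * t ∈ PP S t s ∧ s * r * t * (s * r * t) = z) := by
  have ss := h.rs.1
  have si : s⁻¹ = s := inv_eq_of_mul_eq_one_right ss
  obtain ⟨xS, xt⟩ := mem_RR.1 ((h.split r rS).resolve_left hn)
  have sx : s * (s * r) * s⁻¹ = (s * r)⁻¹ := by
    rw [← mul_assoc, ss, one_mul, mul_inv_rev, inv_eq_of_mul_eq_one_right rr]
  generalize s * r = x at xS xt sx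
  have fixs : ∀ u : G, s * u * s⁻¹ = u⁻¹ → u * u = 1 → u * s = s * u := fun u h1 h2 => by
    rw [inv_eq_of_mul_eq_one_right h2] at h1
    exact (mul_inv_eq_iff_eq_mul.1 h1).symm
  have sp : ∀ n : ℕ, s * x ^ n * s⁻¹ = (x ^ n)⁻¹ := fun n => by rw [← conj_pow, sx, inv_pow]
  have h4 : x ^ 4 = 1 := by
    by_contra h4
    obtain ⟨k, hk⟩ := Tech.isPGroup_iff_mem.1 S.2 x xS
    obtain ⟨j, h1, h2⟩ := big1_pow hk h4
    have yt : Commute (x ^ j) t := Commute.pow_left xt j
    have y4 : (x ^ j) ^ 4 = z := (h.big1_inv (yt.pow_left 4)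
      (fixs _ (by rw [← pow_mul]; exact sp _) h2) h2).resolve_left h1
    have sy := sp j
    generalize x ^ j = y at yt y4 sy
    obtain ⟨b, hb, c, hc, e, yb, bb⟩ := h.big1_dec big yt y4
    have sb : s * b * s = c⁻¹ := (h.dec_uniq h.rt ((h.swap h.rt ss h.st).2 hc)
      ((h.swap h.rt ss h.st).1 hb) (inv_mem hb) (inv_mem hc) (by
        calc s * c * s * (s * b * s) = s * c * (s * s) * b * s := by group
          _ = s * (y * y) * s⁻¹ := by rw [ss, mul_one, e, h.comm h.rt hb hc, si]; group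
          _ = s * y * s⁻¹ * (s * y * s⁻¹) := by group
          _ = (y * y)⁻¹ := by rw [sy]; group
          _ = b⁻¹ * c⁻¹ := by rw [e, h.comm h.rt hb hc]; group)).2
    refine h.no8 big (y := y * b⁻¹) (yt.mul_left (Commute.inv_left (h.le h.rt hb))) ?_
      (by rw [big1_pow4 yb bb h.rt.1, y4])
    refine (mul_inv_eq_iff_eq_mul.1 ?_).symm
    calc s * (y * b⁻¹) * s⁻¹ = s * y * s⁻¹ * (s * b * s⁻¹)⁻¹ := by group
      _ = y⁻¹ * (c * b) * b⁻¹ := by rw [sy, si, sb]; group
      _ = y * b⁻¹ := by rw [← h.comm h.rt hb hc, ← e]; group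
  have x4 : x * x * (x * x) = 1 := by rw [← h4, big1_four]
  rcases h.big1_inv (Commute.mul_left xt xt) (fixs _ (by simpa [pow_two] using sp 2) x4) x4 with e | e
  · exact Or.inl ⟨mem_PP.2 ⟨xS, xt, fixs x sx e⟩, e⟩
  · refine Or.inr ⟨mem_PP.2 ⟨mul_mem xS h.tS, by rw [← mul_assoc, ← xt], ?_⟩, ?_⟩
    · refine (mul_inv_eq_iff_eq_mul.1 ?_).symm
      calc s * (x * t) * s⁻¹ = s * x * s⁻¹ * (s * t) * s⁻¹ := by group
        _ = x⁻¹ * (x * x) * t := by rw [sx, h.st, e]; group
        _ = x * t := by group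
    · calc x * t * (x * t) = x * (t * x) * t := by group
        _ = x * x * (t * t) := by rw [← xt]; group
        _ = z := by rw [e, h.rt.1, mul_one]

theorem LS.big1_p8 (h : LS z B S t s) (big : ∃ k ∈ B t, k * k = t) : Nat.card (PP S t s) ≤ 8 := by
  have hP : IsPGroup 2 (PP S t s) := S.2.to_le fun x hx => (mem_PP.1 hx).1
  have h4 : ∀ x : PP S t s, x ^ 4 = 1 := fun x => Subtype.ext (by
    show (x : G) ^ 4 = 1
    rcases h.big1_sq big x.2 with e | e | e
    · rw [e, one_pow]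
    · rw [e, big1_four, h.zz, one_mul]
    · rw [big1_four, e, h.zz])
  have hz : ∀ x : PP S t s, orderOf x = 2 → (x : G) = z := fun x hx => by
    obtain ⟨-, xt, xs⟩ := mem_PP.1 x.2
    refine (h.big1_inv xt xs ?_).resolve_left fun e => ?_
    · have := pow_orderOf_eq_one x
      rw [hx, pow_two] at this
      exact congrArg Subtype.val this
    · rw [show x = 1 from Subtype.ext e, orderOf_one] at hx
      omega
  rcases Frob.exists_gens_of_forall_mem_zpowers hP (fun x y hx hy => by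
    rw [show y = x from Subtype.ext ((hz y hy).trans (hz x hx).symm)]
    exact mem_zpowers x) with hc | ⟨-, a, -, -, hi, -⟩
  · rw [← IsCyclic.exponent_eq_card]
    exact (Nat.le_of_dvd (by norm_num) (Monoid.exponent_dvd_of_forall_pow_eq_one h4)).trans
      (by norm_num)
  · rw [← (zpowers a).card_mul_index, hi, Nat.card_zpowers]
    have := Nat.le_of_dvd (by norm_num) (orderOf_dvd_of_pow_eq_one (h4 a))
    omega

theorem LS.big1_rp (h : LS z B S t s) (big : ∃ k ∈ B t, k * k = t) :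
    Nat.card (RR S t) ≤ Nat.card (PP S t s) ^ 2 := by
  have key : ∀ x : RR S t, ∃ p : PP S t s, ((p : G) = s * (x * s * x⁻¹) ∧ (p : G) * p = 1) ∨
      ((p : G) = s * (x * s * x⁻¹) * t ∧ (p : G) * p = z) := fun x => by
    have xS := (mem_RR.1 x.2).1
    rcases h.big1_out big (mul_mem (mul_mem xS h.sS) (inv_mem xS)) (h.rf_cj h.rs x).1
      (fun hc => h.s_nmem (by
        simpa [mul_assoc] using mul_mem (mul_mem (inv_mem x.2) hc) x.2)) with h1 | h1
    · exact ⟨⟨_, h1.1⟩, Or.inl ⟨rfl, h1.2⟩⟩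
    · exact ⟨⟨_, h1.1⟩, Or.inr ⟨rfl, h1.2⟩⟩
  choose F hF using key
  have h1 : (PP S t s).relIndex (RR S t) ≤ Nat.card (PP S t s) := by
    refine Nat.card_le_card_of_injective
      (fun q : RR S t ⧸ (PP S t s).subgroupOf (RR S t) => F q.out) fun q q' e => ?_
    rw [← q.out_eq', ← q'.out_eq', QuotientGroup.eq, mem_subgroupOf]
    have e' : (F q.out : G) = F q'.out := congrArg Subtype.val e
    have h2 : (q.out : G) * s * (q.out : G)⁻¹ = q'.out * s * (q'.out : G)⁻¹ := by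
      rcases hF q.out with ⟨a1, a2⟩ | ⟨a1, a2⟩ <;> rcases hF q'.out with ⟨b1, b2⟩ | ⟨b1, b2⟩
      · exact mul_left_cancel (a1.symm.trans (e'.trans b1))
      · exact absurd (by rw [← b2, ← e', a2]) h.z1
      · exact absurd (by rw [← a2, e', b2]) h.z1
      · exact mul_left_cancel (mul_right_cancel (a1.symm.trans (e'.trans b1)))
    obtain ⟨m1, m2⟩ := mem_RR.1 (q.out⁻¹ * q'.out).2
    refine mem_PP.2 ⟨m1, m2, ?_⟩
    show (q.out : G)⁻¹ * q'.out * s = s * ((q.out : G)⁻¹ * q'.out)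
    calc (q.out : G)⁻¹ * q'.out * s = (q.out : G)⁻¹ * (q'.out * s * (q'.out : G)⁻¹) * q'.out := by
          group
      _ = _ := by rw [← h2]; group
  rw [← Tech.card_mul_relIndex' (show PP S t s ≤ RR S t from inf_le_left), sq]
  exact Nat.mul_le_mul_left _ h1

theorem LS.bigW (h : LS z B S t s) (big : ∃ k ∈ B t, k * k = t) : ∃ W, BigW z S t s W := by
  have ss := h.rs.1
  have tt := h.rt.1
  have si : s⁻¹ = s := inv_eq_of_mul_eq_one_right ss
  have ti : t⁻¹ = t := inv_eq_of_mul_eq_one_right tt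
  have zP : z ∈ PP S t s := mem_PP.2 ⟨h.zS, (h.zc t).symm, (h.zc s).symm⟩
  have n1 : ∀ w ∈ PP S t s, t * w * t⁻¹ ∈ PP S t s := fun w hw => by
    rw [← (mem_PP.1 hw).2.1, mul_inv_cancel_right]; exact hw
  have q1 : t * t ∈ PP S t s := by rw [tt]; exact one_mem _
  have m1 : ∀ x, x ∈ PP S t s ⊔ zpowers t ↔ x ∈ PP S t s ∨ x * t ∈ PP S t s := fun x => by
    rw [Hom.mem_sup_zpowers n1 q1]
    refine or_congr_right ⟨fun hx => ?_, fun hx => ?_⟩
    · have := n1 _ hx
      rwa [mul_inv_cancel_left, ti] at this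
    · have := n1 _ hx
      rw [← mul_assoc, mul_inv_cancel_right] at this
      rwa [ti]
  have n2 : ∀ w ∈ PP S t s ⊔ zpowers t, s * w * s⁻¹ ∈ PP S t s ⊔ zpowers t := fun w hw => by
    rcases (m1 w).1 hw with hw | hw
    · rw [← (mem_PP.1 hw).2.2, mul_inv_cancel_right]; exact mem_sup_left hw
    · refine (m1 _).2 (Or.inr ?_)
      have e : s * w * s⁻¹ * t = w * t * z := by
        calc s * w * s⁻¹ * t = s * w * (s * t) := by rw [si]; group
          _ = s * (w * t) * s * z := by rw [h.st, ← h.zc]; group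
          _ = w * t * z := by rw [← (mem_PP.1 hw).2.2, mul_assoc (w * t) s s, ss, mul_one]
      rw [e]
      exact mul_mem hw zP
  have q2 : s * s ∈ PP S t s ⊔ zpowers t := by rw [ss]; exact one_mem _
  obtain ⟨W, hW⟩ : ∃ W, W = PP S t s ⊔ zpowers t ⊔ zpowers s := ⟨_, rfl⟩
  have mem : ∀ x, x ∈ W ↔ x ∈ PP S t s ∨ x * t ∈ PP S t s ∨ s * x ∈ PP S t s ∨
      s * x * t ∈ PP S t s := fun x => by
    rw [hW, Hom.mem_sup_zpowers n2 q2, m1, m1, si, or_assoc]
  have rf : ∀ r ∈ (S : Subgroup G), Rf z r → r ∈ W := fun r rS hr => by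
    rw [mem]
    by_cases hn : r ∈ RR S t
    · rcases h.inv_cen h.rt (mem_RR.1 hn).2 hr.1 with e | e | e | e
      · exact absurd e hr.2.1
      · exact absurd e hr.2.2
      · exact Or.inr (Or.inl (by rw [e]; exact q1))
      · exact Or.inr (Or.inl (by rw [e, mul_assoc, tt, mul_one]; exact zP))
    · rcases h.big1_out big rS hr.1 hn with h1 | h1
      exacts [Or.inr (Or.inr (Or.inl h1.1)), Or.inr (Or.inr (Or.inr h1.1))]
  refine ⟨W, mem, fun x hx => h.big1_sq big hx, rf, ?_, h.big1_p8 big, h.big1_rp big⟩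
  have PR : PP S t s ⊔ zpowers t ≤ RR S t :=
    sup_le inf_le_left (zpowers_le.2 (mem_RR.2 ⟨h.tS, rfl⟩))
  have WS : W ≤ (S : Subgroup G) :=
    hW ▸ sup_le (PR.trans inf_le_left) (zpowers_le.2 h.sS)
  have nW : ∀ g ∈ (S : Subgroup G), ∀ w ∈ W, g * w * g⁻¹ ∈ W := fun g hg => by
    have k1 : ∀ r ∈ (S : Subgroup G), Rf z r → r ∈ W.comap (MulAut.conj g).toMonoidHom :=
      fun r rS hr => rf _ (mul_mem (mul_mem hg rS) (inv_mem hg)) (h.rf_cj hr g)
    have k2 : W ≤ W.comap (MulAut.conj g).toMonoidHom := by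
      conv_lhs => rw [hW]
      refine sup_le (sup_le (fun x hx => ?_) (zpowers_le.2 (k1 t h.tS h.rt)))
        (zpowers_le.2 (k1 s h.sS h.rs))
      obtain ⟨xS, xt, xs⟩ := mem_PP.1 hx
      rcases h.big1_sq big hx with e | e | e
      · rw [e]; exact one_mem _
      · show g * x * g⁻¹ ∈ W
        rw [e, h.zc, mul_inv_cancel_right]
        exact (mem z).2 (Or.inl zP)
      · have hr : Rf z (s * (x * t)) := h.big1_rf (by rw [← mul_assoc, ← xt]) (by
          calc s * (x * t) * (s * (x * t)) = s * x * t * (s * x) * t := by group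
            _ = x * (s * t) * x * (s * t) := by rw [← xs]; group
            _ = x * (z * (t * s)) * x * (s * t) := by rw [h.st]
            _ = x * z * t * (s * x) * s * t := by group
            _ = x * z * (t * x) * (s * s) * t := by rw [← xs]; group
            _ = x * (z * x) * (t * t) := by rw [← xt, ss]; group
            _ = 1 := by rw [← h.zc, tt, mul_one, ← mul_assoc, e, h.zz])
        have := mul_mem (mul_mem (k1 s h.sS h.rs)
          (k1 _ (mul_mem h.sS (mul_mem xS h.tS)) hr)) (k1 t h.tS h.rt)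
        rwa [← mul_assoc, ss, one_mul, mul_assoc, tt, mul_one] at this
    exact fun w hw => k2 hw
  have hn : (W.subgroupOf S).Normal := ⟨fun w hw g => nW g g.2 w hw⟩
  have c1 : Nat.card (S : Subgroup G) = 2 * Nat.card (RR S t) := by
    refine Hom.Hy.card ⟨inf_le_left, ⟨s, h.sS, h.s_nmem⟩, fun x hx y hy hx' hy' => ?_⟩
    have := mul_mem (h.sRs _ ((h.split x hx).resolve_left hx')) ((h.split y hy).resolve_left hy')
    rwa [← mul_assoc s s x, ss, one_mul, mul_assoc, ← mul_assoc s s y, ss, one_mul] at this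
  have c2 := (Hom.hy_sup_zpowers n1 q1 fun hc => h.z1 (by
    have := (mem_PP.1 hc).2.2
    rw [h.st] at this
    simpa using this.symm)).card
  have c3 := (Hom.hy_sup_zpowers n2 q2 fun hc => h.s_nmem (PR hc)).card
  rw [← hW, c2] at c3
  have c4 := Tech.card_mul_relIndex' WS
  have c5 : W.relIndex S ≤ 2 ^ 2 := by
    have p8 := h.big1_p8 big
    have rp := h.big1_rp big
    have p0 : 0 < Nat.card (PP S t s) := Nat.card_pos
    rw [c1, c3] at c4
    nlinarith
  have hc := PGroup.isMulCommutative_of_card_le_sq (S.2.to_quotient (W.subgroupOf S)) c5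
  intro u hu v hv
  have h1 : ((⟨u, hu⟩ * ⟨v, hv⟩ * ⟨u, hu⟩⁻¹ * ⟨v, hv⟩⁻¹ : (S : Subgroup G)) :
      (S : Subgroup G) ⧸ W.subgroupOf S) = 1 := by
    simp only [QuotientGroup.mk_mul, QuotientGroup.mk_inv]
    rw [hc.is_comm.comm (QuotientGroup.mk ⟨u, hu⟩)]
    group
  have h2 := (QuotientGroup.eq_one_iff _).1 h1
  exact h2

end CfsgLib.GL2D
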