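import Cfsg.Agent.Lib.GL2D.Defs
import Cfsg.Agent.Lib.Transfer.Thompson

/-! GEN: transfer lemmas and fusion through one isolated element.  See `plans/GL2D.md`. -/

set_option autoImplicit false

namespace CfsgLib.GL2D
open Subgroup

variable {G : Type*} [Group G]

theorem gen_conj_mem [Finite G] (S : Sylow 2 G) {x : G} (x4 : x ^ 4 = 1) :
    ∃ g : G, g * x * g⁻¹ ∈ (S : Subgroup G) := by
  have : Fact (Nat.Prime 2) := ⟨Nat.prime_two⟩
  have hp : IsPGroup 2 (zpowers x) := by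
    rintro ⟨y, n, rfl⟩
    refine ⟨2, Subtype.ext ?_⟩
    show (x ^ n) ^ (2 ^ 2) = 1
    rw [← zpow_natCast, ← zpow_mul, mul_comm, zpow_mul, zpow_natCast]
    norm_num [x4]
  obtain ⟨Q, hQ⟩ := hp.exists_le_sylow
  obtain ⟨g, hg⟩ := MulAction.exists_smul_eq G Q S
  refine ⟨g, ?_⟩
  have hx : x ∈ (Q : Subgroup G) := hQ (mem_zpowers x)
  rw [← hg]
  have := Subgroup.smul_mem_pointwise_smul x (MulAut.conj g) (Q : Subgroup G) hx
  simpa [Sylow.smul_def, Sylow.pointwise_smul_def] using this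

theorem tr4 [Finite G] (hG : _root_.commutator G = ⊤) (S : Sylow 2 G) {Y : Type*} [CommGroup Y]
    (δ : (S : Subgroup G) →* Y) {x : G} (x4 : x ^ 4 = 1) {y : Y}
    (h1 : ∀ g (h : g * x * g⁻¹ ∈ (S : Subgroup G)), δ ⟨_, h⟩ = y)
    (h2 : ∀ g (h : g * (x * x) * g⁻¹ ∈ (S : Subgroup G)), δ ⟨_, h⟩ = 1) : y = 1 := by
  have : Fact (Nat.Prime 2) := ⟨Nat.prime_two⟩
  obtain ⟨g0, hg0⟩ := gen_conj_mem S x4
  have yy : y * y = 1 := by
    have hm : g0 * (x * x) * g0⁻¹ ∈ (S : Subgroup G) := by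
      have := (S : Subgroup G).mul_mem hg0 hg0
      convert this using 1; group
    rw [← h2 g0 hm, ← h1 g0 hg0, ← map_mul]
    congr 1
    apply Subtype.ext
    show g0 * x * g0⁻¹ * (g0 * x * g0⁻¹) = g0 * (x * x) * g0⁻¹
    group
  have htr := CfsgLib.Transfer.transfer_eq_pow_of_forall δ x y (by
    intro k t h hk
    have hk4 : k ∣ 4 := hk.trans (orderOf_dvd_of_pow_eq_one x4)
    have hle : k ≤ 4 := Nat.le_of_dvd (by norm_num) hk4
    interval_cases k
    · omega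
    · have h' : t⁻¹ * x * t⁻¹⁻¹ ∈ (S : Subgroup G) := by simpa using h
      rw [pow_one y, ← h1 t⁻¹ h']
      congr 1
      apply Subtype.ext
      simp
    · have h' : t⁻¹ * (x * x) * t⁻¹⁻¹ ∈ (S : Subgroup G) := by simpa [pow_two] using h
      rw [pow_two y, yy, ← h2 t⁻¹ h']
      congr 1
      apply Subtype.ext
      simp [pow_two]
    · omega
    · have e : y ^ 4 = 1 := by
        rw [show (4 : ℕ) = 2 * 2 from rfl, pow_mul, pow_two y, yy, one_pow]
      rw [e, ← δ.map_one]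
      congr 1
      apply Subtype.ext
      simp [x4])
  have h0 : MonoidHom.transfer δ x = 1 := by
    have := Abelianization.commutator_subset_ker (MonoidHom.transfer δ)
    rw [hG] at this
    exact this (mem_top x)
  rw [h0] at htr
  have hodd : ¬ 2 ∣ (S : Subgroup G).index := S.not_dvd_index
  obtain ⟨m, hm⟩ : Odd (S : Subgroup G).index := Nat.odd_iff.2 (by omega)
  rw [hm, pow_succ, pow_mul, pow_two, yy, one_pow, one_mul] at htr
  exact htr.symm

theorem tr4' [Finite G] (hG : _root_.commutator G = ⊤) (S : Sylow 2 G) {W : Subgroup G}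
    (hc : ∀ u ∈ (S : Subgroup G), ∀ v ∈ (S : Subgroup G), u * v * u⁻¹ * v⁻¹ ∈ W) {x : G}
    (hx : x ∈ (S : Subgroup G)) (x4 : x ^ 4 = 1)
    (h1 : ∀ g, g * x * g⁻¹ ∈ (S : Subgroup G) → g * x * g⁻¹ * x⁻¹ ∈ W)
    (h2 : ∀ g, g * (x * x) * g⁻¹ ∈ (S : Subgroup G) → g * (x * x) * g⁻¹ ∈ W) : x ∈ W := by
  set W' := W.subgroupOf (S : Subgroup G) with hW'
  have hn : W'.Normal := ⟨fun n hn g => by
    rw [hW', mem_subgroupOf] at hn ⊢
    have := W.mul_mem (hc g g.2 n n.2) hn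
    convert this using 1
    simp⟩
  let : CommGroup ((S : Subgroup G) ⧸ W') :=
    { (inferInstance : Group ((S : Subgroup G) ⧸ W')) with
      mul_comm := by
        rintro ⟨a⟩ ⟨b⟩
        show (QuotientGroup.mk (a * b) : (S : Subgroup G) ⧸ W') = QuotientGroup.mk (b * a)
        rw [QuotientGroup.eq, hW', mem_subgroupOf]
        have := hc _ (b⁻¹).2 _ (a⁻¹).2
        convert this using 1
        simp [mul_assoc] }
  have key := tr4 hG S (QuotientGroup.mk' W') x4 (y := QuotientGroup.mk' W' ⟨x, hx⟩) (by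
    intro g h
    rw [QuotientGroup.mk'_apply, QuotientGroup.mk'_apply, QuotientGroup.eq_iff_div_mem, hW', mem_subgroupOf]
    have := h1 g h
    convert this using 1
    simp [div_eq_mul_inv]) (by
    intro g h
    rw [QuotientGroup.mk'_apply, QuotientGroup.eq_one_iff, hW', mem_subgroupOf]
    exact h2 g h)
  rw [QuotientGroup.mk'_apply, QuotientGroup.eq_one_iff, hW', mem_subgroupOf] at key
  exact key

/-- Extending a homomorphism from a subgroup of index two. -/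
theorem ext2 {S R : Subgroup G} {s : G} (hs : s ∈ S) (hsR : s ∉ R) (ss : s * s = 1) (hRS : R ≤ S)
    (idx : ∀ x ∈ S, x ∈ R ∨ s * x ∈ R) {Y : Type*} [CommGroup Y] (f : G → Y)
    (fm : ∀ x ∈ R, ∀ y ∈ R, f (x * y) = f x * f y) (fs : ∀ x ∈ R, f (s * x * s) = f x) {y : Y} (yy : y * y = 1) :
    ∃ δ : S →* Y, (∀ x (h : x ∈ S), x ∈ R → δ ⟨x, h⟩ = f x) ∧ δ ⟨s, hs⟩ = y := by
  classical
  have ss' : ∀ a : G, s * (s * a) = a := fun a => by rw [← mul_assoc, ss, one_mul]
  have f1 : f 1 = 1 := by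
    have := fm 1 R.one_mem 1 R.one_mem
    rw [one_mul] at this
    exact left_eq_mul.1 this
  have sRs : ∀ x ∈ R, s * x * s ∈ R := by
    intro x hx
    rcases idx (x * s) (S.mul_mem (hRS hx) hs) with h | h
    · exact absurd (by simpa using R.mul_mem (R.inv_mem hx) h) hsR
    · rwa [mul_assoc]
  have out : ∀ x ∈ S, x ∉ R → s * x ∈ R := fun x hx hn => (idx x hx).resolve_left hn
  refine ⟨MonoidHom.mk' (fun x => if (x : G) ∈ R then f x else y * f (s * x)) ?_, ?_, ?_⟩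
  · intro a b
    simp only [Subgroup.coe_mul]
    by_cases ha : (a : G) ∈ R <;> by_cases hb : (b : G) ∈ R
    · rw [if_pos ha, if_pos hb, if_pos (R.mul_mem ha hb), fm _ ha _ hb]
    · have hab : (a : G) * b ∉ R := fun h => hb (by simpa using R.mul_mem (R.inv_mem ha) h)
      rw [if_pos ha, if_neg hb, if_neg hab]
      have e : s * ((a : G) * b) = s * a * s * (s * b) := by
        rw [mul_assoc (s * a), ss', mul_assoc]
      rw [e, fm _ (sRs _ ha) _ (out _ b.2 hb), fs _ ha, mul_left_comm]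
    · have hab : (a : G) * b ∉ R := fun h => ha (by simpa using R.mul_mem h (R.inv_mem hb))
      rw [if_neg ha, if_pos hb, if_neg hab, ← mul_assoc s, fm _ (out _ a.2 ha) _ hb, mul_assoc]
    · have ha' := out _ a.2 ha
      have hb' := out _ b.2 hb
      have e : (a : G) * b = s * (s * a) * s * (s * b) := by
        rw [ss', mul_assoc, ss']
      have hab : (a : G) * b ∈ R := by
        rw [e]; exact R.mul_mem (sRs _ ha') hb'
      rw [if_neg ha, if_neg hb, if_pos hab, e, fm _ (sRs _ ha') _ hb', fs _ ha', mul_mul_mul_comm, yy, one_mul]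
  · intro x h hx
    simp [hx]
  · simp [hsR, ss, f1]

/-- If `t` is the only conjugate of `t` centralising `t` and `w`, then `C(t)` controls the fusion of `w`. -/
theorem lemU0 [Finite G] {t w : G} (tt : t * t = 1) (hw : w * t = t * w)
    (hU : ∀ g, g * t * g⁻¹ * t = t * (g * t * g⁻¹) → w * (g * t * g⁻¹) = g * t * g⁻¹ * w → g * t * g⁻¹ = t)
    (g : G) (hg : g * w * g⁻¹ * t = t * (g * w * g⁻¹)) : ∃ n, n * t = t * n ∧ n * w * n⁻¹ = g * w * g⁻¹ := by
  obtain ⟨t', ht'⟩ : ∃ t', t' = g⁻¹ * t * g := ⟨_, rfl⟩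
  have tt' : t' * t' = 1 := by
    rw [ht']
    calc g⁻¹ * t * g * (g⁻¹ * t * g) = g⁻¹ * (t * t) * g := by group
      _ = 1 := by rw [tt]; group
  have hw' : Commute w t' := by
    show w * t' = t' * w
    rw [ht']
    calc w * (g⁻¹ * t * g) = g⁻¹ * (g * w * g⁻¹ * t) * g := by group
      _ = g⁻¹ * t * g * w := by rw [hg]; group
  have hwt : Commute w t := hw
  obtain ⟨d, hd⟩ : ∃ d, d = t * t' := ⟨_, rfl⟩
  have hwd : Commute w d := hd ▸ hwt.mul_right hw'
  have ti : t⁻¹ = t := inv_eq_of_mul_eq_one_right tt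
  have ti' : t'⁻¹ = t' := inv_eq_of_mul_eq_one_right tt'
  have td : t * d = t' := by rw [hd, ← mul_assoc, tt, one_mul]
  have dt : t * d * t⁻¹ = d⁻¹ := by rw [td, hd, mul_inv_rev, ti', ti]
  have dk : ∀ k : ℕ, d ^ k * t = t * (d ^ k)⁻¹ := by
    intro k
    have : t * d ^ k * t⁻¹ = (d ^ k)⁻¹ := by rw [← conj_pow, dt, inv_pow]
    rw [← this, ti, ← mul_assoc, ← mul_assoc, tt, one_mul]
  have dk' : ∀ k : ℕ, (d ^ k)⁻¹ * t = t * d ^ k := by
    intro k
    have := congrArg (·⁻¹) (dk k)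
    simp only [mul_inv_rev, inv_inv, ti] at this
    calc (d ^ k)⁻¹ * t = t * (t * (d ^ k)⁻¹) * t := by rw [← mul_assoc t t, tt, one_mul]
      _ = t * d ^ k := by rw [this, mul_assoc, mul_assoc, tt, mul_one]
  rcases Nat.even_or_odd' (orderOf d) with ⟨m, hm | hm⟩
  · exfalso
    have hpos : 0 < orderOf d := orderOf_pos d
    have u1 : d ^ m ≠ 1 := pow_ne_one_of_lt_orderOf (by omega) (by omega)
    have uu : (d ^ m)⁻¹ = d ^ m := by
      apply inv_eq_of_mul_eq_one_right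
      rw [← pow_add, ← two_mul, ← hm, pow_orderOf_eq_one]
    have ut : d ^ m * t = t * d ^ m := by rw [dk, uu]
    obtain ⟨h, hh⟩ : ∃ h : G, h * t * h⁻¹ = t * d ^ m := by
      rcases Nat.even_or_odd' m with ⟨k, hk | hk⟩
      · refine ⟨(d ^ k)⁻¹, ?_⟩
        rw [dk', inv_inv, mul_assoc, ← pow_add, hk, two_mul]
      · refine ⟨(d ^ k)⁻¹ * g⁻¹, ?_⟩
        calc (d ^ k)⁻¹ * g⁻¹ * t * ((d ^ k)⁻¹ * g⁻¹)⁻¹ = (d ^ k)⁻¹ * (g⁻¹ * t * g) * d ^ k := by group
          _ = t * d ^ m := by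
            rw [← ht', ← td, ← mul_assoc, dk', hk]
            group
    have := hU h (by rw [hh, mul_assoc, ut]) (by rw [hh]; exact (hwt.mul_right (hwd.pow_right m)).eq)
    rw [hh] at this
    exact u1 (mul_eq_left.1 this)
  · have hc : d ^ (m + 1) * t' * (d ^ (m + 1))⁻¹ = t := by
      have e : d ^ (2 * m + 1) = 1 := by rw [← hm, pow_orderOf_eq_one]
      rw [← td, ← mul_assoc, dk]
      calc t * (d ^ (m + 1))⁻¹ * d * (d ^ (m + 1))⁻¹ = t * (d ^ (2 * m + 1))⁻¹ := by group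
        _ = t := by rw [e]; simp
    refine ⟨g * (d ^ (m + 1))⁻¹, ?_, ?_⟩
    · calc g * (d ^ (m + 1))⁻¹ * t = g * (d ^ (m + 1))⁻¹ * (d ^ (m + 1) * t' * (d ^ (m + 1))⁻¹) := by rw [hc]
        _ = g * t' * (d ^ (m + 1))⁻¹ := by simp [mul_assoc]
        _ = t * (g * (d ^ (m + 1))⁻¹) := by rw [ht']; simp [mul_assoc]
    · have := (hwd.pow_right (m + 1)).eq
      calc g * (d ^ (m + 1))⁻¹ * w * (g * (d ^ (m + 1))⁻¹)⁻¹
          = g * (d ^ (m + 1))⁻¹ * (w * d ^ (m + 1)) * g⁻¹ := by simp [mul_assoc]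
        _ = g * w * g⁻¹ := by rw [this]; simp [mul_assoc]

/-- The same modulo a central involution `z`. -/
theorem lemU [Finite G] {z t w : G} (zz : z * z = 1) (zc : ∀ g, g * z = z * g) (tt : t * t = 1) (hw : Nm z t w)
    (hU : ∀ g, Nm z t (g * t * g⁻¹) → Nm z (g * t * g⁻¹) w → g * t * g⁻¹ = t ∨ g * t * g⁻¹ = z * t)
    (g : G) (hg : Nm z t (g * w * g⁻¹)) :
    ∃ n, Nm z t n ∧ (n * w * n⁻¹ = g * w * g⁻¹ ∨ n * w * n⁻¹ = z * (g * w * g⁻¹)) := by
  have hmem : ∀ a, a ∈ zpowers z ↔ a = 1 ∨ a = z := by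
    intro a
    constructor
    · rintro ⟨n, rfl⟩
      have z2 : z ^ (2 : ℤ) = 1 := by rw [zpow_two, zz]
      rcases Int.even_or_odd' n with ⟨k, hk | hk⟩
      · left; show z ^ n = 1; rw [hk, zpow_mul, z2, one_zpow]
      · right; show z ^ n = z; rw [hk, zpow_add, zpow_mul, z2, one_zpow, one_mul, zpow_one]
    · rintro (rfl | rfl)
      · exact one_mem _
      · exact mem_zpowers _
  have hn : (zpowers z).Normal := ⟨fun a ha h => by
    rcases (hmem a).1 ha with rfl | rfl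
    · simp
    · rw [zc, mul_assoc, mul_inv_cancel, mul_one]; exact mem_zpowers _⟩
  let π := QuotientGroup.mk' (zpowers z)
  have heq : ∀ a b, π a = π b ↔ a = b ∨ a = z * b := by
    intro a b
    show (QuotientGroup.mk a : G ⧸ zpowers z) = QuotientGroup.mk b ↔ _
    rw [QuotientGroup.eq_iff_div_mem, hmem, div_eq_one, div_eq_iff_eq_mul]
  have hnm : ∀ a b, Nm z a b ↔ π b * π a = π a * π b := by
    intro a b
    unfold Nm
    rw [← heq, map_mul, map_mul, map_inv, mul_inv_eq_iff_eq_mul]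
  obtain ⟨n, h1, h2⟩ := lemU0 (G := G ⧸ zpowers z) (t := π t) (w := π w) (by rw [← map_mul, tt, map_one])
    ((hnm _ _).1 hw) (by
      intro h
      obtain ⟨h, rfl⟩ := QuotientGroup.mk'_surjective (zpowers z) h
      intro e1 e2
      have e : π h * π t * (π h)⁻¹ = π (h * t * h⁻¹) := by rw [map_mul, map_mul, map_inv]
      change π h * π t * (π h)⁻¹ * π t = π t * (π h * π t * (π h)⁻¹) at e1
      change π w * (π h * π t * (π h)⁻¹) = π h * π t * (π h)⁻¹ * π w at e2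
      change π h * π t * (π h)⁻¹ = π t
      rw [e] at e1 e2 ⊢
      exact (heq _ _).2 (hU h ((hnm _ _).2 e1) ((hnm _ _).2 e2))) (π g) (by
      have := (hnm _ _).1 hg
      rwa [map_mul, map_mul, map_inv] at this)
  obtain ⟨n, rfl⟩ := QuotientGroup.mk'_surjective (zpowers z) n
  refine ⟨n, (hnm _ _).2 h1, (heq _ _).1 ?_⟩
  rw [map_mul, map_mul, map_inv, map_mul, map_mul, map_inv]
  exact h2

end CfsgLib.GL2D
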