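import Cfsg.Agent.Lib.GL2D.Bas
import Cfsg.Agent.Lib.GL2D.Gen

/-! BIG2: `B t` is quaternion of order eight.  See `plans/GL2D.md`. -/

set_option autoImplicit false

namespace CfsgLib.GL2D
open Subgroup

variable {G : Type*} [Group G] [Finite G] {z t s : G} {B : G → Subgroup G} {S : Sylow 2 G}

omit [Finite G] in
theorem big2_inv {k t : G} (tt : t * t = 1) (kk : k * k = t) : k⁻¹ = t * k := by
  apply inv_eq_of_mul_eq_one_left
  rw [mul_assoc, kk, tt]

omit [Finite G] in
theorem LS.big2_sts (h : LS z B S t s) : s * t * s = z * t := by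
  rw [h.st, mul_assoc, mul_assoc, h.rs.1, mul_one]

omit [Finite G] in
/-- elements of `B t` commuting with `s` are trivial -/
theorem LS.big2_fix (h : LS z B S t s) {b : G} (hb : b ∈ B t) (bs : b * s = s * b) : b = 1 := by
  have := (h.toRG.swap (b := b) h.rt h.rs.1 h.st).1 hb
  rw [← bs, mul_assoc, h.rs.1, mul_one] at this
  exact h.dis h.rt hb this

theorem LS.big2_two (h : LS z B S t s) {W : Subgroup G} (hW : BigW z S t s W) {k : G} (kB : k ∈ B t)
    (kk : k * k = t) : ∃ j ∈ B t, j * j = t ∧ j ≠ k ∧ j ≠ t * k := by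
  by_contra hne
  have only : ∀ j ∈ B t, j * j = t → j = k ∨ j = t * k := by
    intro j hj jj
    by_contra hc
    push Not at hc
    exact hne ⟨j, hj, jj, hc.1, hc.2⟩
  have tt := h.rt.1
  have ss := h.rs.1
  have si : s⁻¹ = s := inv_eq_of_mul_eq_one_right ss
  have kR : k ∈ RR S t := h.B_le.1 kB
  have kS : k ∈ (S : Subgroup G) := (mem_RR.1 kR).1
  have tW : t ∈ W := hW.rf t h.tS h.rt
  have tB : t ∈ B t := h.self h.rt
  have tR : t ∈ RR S t := h.B_le.1 tB
  have kW : k ∈ W := by
    refine tr4' h.perf S hW.com kS ?_ ?_ ?_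
    · rw [show (4 : ℕ) = 2 * 2 from rfl, pow_mul, pow_two k, kk, pow_two, tt]
    · intro g hg
      obtain ⟨x, hx⟩ : ∃ x, x = g * k * g⁻¹ := ⟨_, rfl⟩
      have xx : x * x = g * t * g⁻¹ := by rw [hx, ← kk]; group
      have xB : x ∈ B (x * x) := by rw [xx, hx]; exact h.cj g h.rt kB
      have xr : Rf z (x * x) := by rw [xx]; exact h.toRG.rf_cj h.rt g
      rw [← hx] at hg ⊢
      have xt : x * x * t = t * (x * x) := by
        rcases h.nm x hg with e | e
        · rw [mul_inv_eq_iff_eq_mul] at e
          rw [mul_assoc, e, ← mul_assoc, e, mul_assoc]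
        · rw [mul_inv_eq_iff_eq_mul] at e
          calc x * x * t = x * (x * t) := mul_assoc _ _ _
            _ = (x * z) * t * x := by rw [e]; group
            _ = z * (x * t) * x := by rw [h.zc]; group
            _ = (z * z) * (t * (x * x)) := by rw [e]; group
            _ = t * (x * x) := by rw [h.zz, one_mul]
      rcases h.toRG.inv_cen h.rt xt xr.1 with e | e | e | e
      · exact absurd e xr.2.1
      · exact absurd e xr.2.2
      · rw [e] at xB
        rcases only x xB e with e' | e'
        · rw [e', mul_inv_cancel]; exact W.one_mem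
        · rw [e', mul_inv_cancel_right]; exact tW
      · rw [e] at xB
        have yB := (h.toRG.swap (b := x) h.rt ss h.st).2 xB
        have yy : s * x * s * (s * x * s) = t := by
          calc s * x * s * (s * x * s) = s * x * (s * s) * x * s := by group
            _ = s * (x * x) * s := by rw [ss]; group
            _ = (s * z) * t * s := by rw [e]; group
            _ = z * (s * t * s) := by rw [h.zc]; group
            _ = t := by rw [h.big2_sts, ← mul_assoc, h.zz, one_mul]
        have xe : x = s * (s * x * s) * s := by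
          calc x = (s * s) * x * (s * s) := by rw [ss]; group
            _ = _ := by group
        rcases only _ yB yy with e' | e'
        · rw [xe, e']
          have := hW.com s h.sS k kS
          rwa [si] at this
        · rw [xe, e', ← big2_inv tt kk]
          have := W.mul_mem (hW.com s h.sS k⁻¹ (inv_mem kS)) (W.inv_mem tW)
          rw [si, ← kk] at this
          convert this using 1
          group
    · intro g hg
      rw [kk] at hg ⊢
      exact hW.rf _ hg (h.toRG.rf_cj h.rt g)
  have PR : ∀ x, x ∈ PP S t s → x ∈ RR S t := fun x hx => hx.1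
  rcases (hW.mem k).1 kW with e | e | e | e
  · have := h.big2_fix kB (mem_PP.1 e).2.2
    rw [this, mul_one] at kk
    exact h.rt.2.1 kk.symm
  · have := h.big2_fix ((B t).mul_mem kB tB) (mem_PP.1 e).2.2
    rw [← tt, mul_left_inj] at this
    rw [this, tt] at kk
    exact h.rt.2.1 kk.symm
  · exact h.s_nmem (by simpa using (RR S t).mul_mem (PR _ e) ((RR S t).inv_mem kR))
  · exact h.s_nmem (by
      simpa using (RR S t).mul_mem ((RR S t).mul_mem (PR _ e) ((RR S t).inv_mem tR)) ((RR S t).inv_mem kR))

theorem LS.big2_diag (h : LS z B S t s) {b : G} (hb : b ∈ B t) : b * (s * b * s) ∈ PP S t s := by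
  have ss := h.rs.1
  have hc := (h.toRG.swap (b := b) h.rt ss h.st).1 hb
  have hR : b * (s * b * s) ∈ RR S t := (RR S t).mul_mem (h.B_le.1 hb) (h.B_le.2 hc)
  refine mem_PP.2 ⟨(mem_RR.1 hR).1, (mem_RR.1 hR).2, ?_⟩
  calc b * (s * b * s) * s = b * s * b * (s * s) := by group
    _ = (s * s) * b * s * b := by rw [ss]; group
    _ = s * ((s * b * s) * b) := by group
    _ = s * (b * (s * b * s)) := by rw [h.toRG.comm h.rt hb hc]

theorem LS.big2_sq (h : LS z B S t s) {W : Subgroup G} (hW : BigW z S t s W) {b : G} (hb : b ∈ B t) :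
    b = 1 ∨ b = t ∨ b * b = t := by
  have ss := h.rs.1
  have hc := (h.toRG.swap (b := b) h.rt ss h.st).1 hb
  have e : b * (s * b * s) * (b * (s * b * s)) = (b * b) * ((s * b * s) * (s * b * s)) := by
    calc b * (s * b * s) * (b * (s * b * s)) = b * ((s * b * s) * b) * (s * b * s) := by group
      _ = _ := by rw [← h.toRG.comm h.rt hb hc]; group
  have one : b * (s * b * s) * (b * (s * b * s)) = 1 → b = 1 ∨ b = t ∨ b * b = t := by
    intro e1
    rw [e, ← mul_one 1] at e1
    have := (h.toRG.dec_uniq h.rt ((B t).mul_mem hb hb) ((B _).mul_mem hc hc) (B t).one_mem (B _).one_mem e1).1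
    rcases h.toRG.inv_B h.rt hb this with e2 | e2
    · exact Or.inl e2
    · exact Or.inr (Or.inl e2)
  rcases hW.sq _ (h.big2_diag hb) with e1 | e1 | e1
  · exact one (by rw [e1, one_mul])
  · exact one (by rw [e1, h.zz])
  · have ez : z = t * (z * t) := by rw [← mul_assoc, h.zc, mul_assoc, h.rt.1, mul_one]
    rw [e] at e1
    exact Or.inr (Or.inr (h.toRG.dec_uniq h.rt ((B t).mul_mem hb hb) ((B _).mul_mem hc hc) (h.self h.rt)
      (h.self (h.toRG.rf_z h.rt)) (e1.trans ez)).1)

theorem LS.big2_anti (h : LS z B S t s) {W : Subgroup G} (hW : BigW z S t s W) {i j : G} (iB : i ∈ B t)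
    (jB : j ∈ B t) (ii : i * i = t) (jj : j * j = t) (n1 : j ≠ i) (n2 : j ≠ t * i) :
    j * i = t * (i * j) ∧ i * j * (i * j) = t := by
  have tt := h.rt.1
  rcases h.big2_sq hW ((B t).mul_mem iB jB) with e | e | e
  · exact absurd (by rw [← big2_inv tt ii]; exact (inv_eq_of_mul_eq_one_right e).symm) n2
  · exact absurd (by rw [← ii] at e; exact mul_left_cancel e) n1
  · refine ⟨?_, e⟩
    have e1 : j * i * j = i := by
      apply mul_left_cancel (a := i)
      rw [ii, ← e]; group
    calc j * i = i * j⁻¹ := by rw [eq_mul_inv_iff_mul_eq, e1]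
      _ = (i * t) * j := by rw [big2_inv tt jj, mul_assoc]
      _ = t * (i * j) := by rw [h.le h.rt iB, mul_assoc]

theorem LS.q8c (h : LS z B S t s) (big : ∃ k ∈ B t, k * k = t) {W : Subgroup G} (hW : BigW z S t s W) :
    ∃ i j, Q8c z B S t s i j := by
  obtain ⟨i, iB, ii⟩ := big
  obtain ⟨j, jB, jj, n1, n2⟩ := h.big2_two hW iB ii
  obtain ⟨ji, ijij⟩ := h.big2_anti hW iB jB ii jj n1 n2
  have tt := h.rt.1
  have ss := h.rs.1
  have tB : t ∈ B t := h.self h.rt
  have c8 : 8 ≤ Nat.card (B t) := by
    have o4 : orderOf i = 4 := by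
      have : Fact (Nat.Prime 2) := ⟨Nat.prime_two⟩
      refine orderOf_eq_prime_pow (p := 2) (n := 1) ?_ ?_
      · rw [pow_one, pow_two, ii]; exact h.rt.2.1
      · rw [show 2 ^ (1 + 1) = 2 * 2 from rfl, pow_mul, pow_two i, ii, pow_two, tt]
    have hle : zpowers i ≤ B t := zpowers_le.2 iB
    have hd := Subgroup.card_dvd_of_le hle
    rw [Nat.card_zpowers, o4] at hd
    have hne : Nat.card (B t) ≠ 4 := by
      intro e
      have := Subgroup.eq_of_le_of_card_ge hle (by rw [Nat.card_zpowers, o4, e])
      rw [← this] at jB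
      obtain ⟨n, hn⟩ := jB
      have hc : j * i = i * j := by rw [← hn]; exact (Commute.refl i).zpow_left n
      rw [hc] at ji
      exact h.rt.2.1 (right_eq_mul.1 ji)
    have hpos : 0 < Nat.card (B t) := Nat.card_pos
    omega
  have dec : ∀ x ∈ RR S t, ∃ b ∈ B t, ∃ c ∈ B (z * t), x = b * c := by
    let F : B t × B t → RR S t := fun p => ⟨p.1 * (s * p.2 * s), (RR S t).mul_mem (h.B_le.1 p.1.2)
      (h.B_le.2 ((h.toRG.swap h.rt ss h.st).1 p.2.2))⟩
    have Fi : Function.Injective F := by
      rintro ⟨a, b⟩ ⟨a', b'⟩ e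
      have e' : (a : G) * (s * b * s) = a' * (s * b' * s) := congrArg Subtype.val e
      obtain ⟨e1, e2⟩ := h.toRG.dec_uniq h.rt a.2 ((h.toRG.swap h.rt ss h.st).1 b.2) a'.2
        ((h.toRG.swap h.rt ss h.st).1 b'.2) e'
      exact Prod.ext (Subtype.ext e1) (Subtype.ext (mul_left_cancel (mul_right_cancel e2)))
    have Fb := Fi.bijective_of_nat_card_le (by
      rw [Nat.card_prod]
      have := hW.rp
      have := Nat.pow_le_pow_left hW.p8 2
      nlinarith)
    intro x hx
    obtain ⟨⟨a, b⟩, e⟩ := Fb.2 ⟨x, hx⟩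
    exact ⟨a, a.2, _, (h.toRG.swap h.rt ss h.st).1 b.2, (congrArg Subtype.val e).symm⟩
  refine ⟨i, j, iB, jB, ii, jj, ji, ?_, dec, ?_⟩
  · intro b hb
    rcases h.big2_sq hW hb with e | e | e
    · exact ⟨1, Or.inl rfl, Or.inl e⟩
    · exact ⟨1, Or.inl rfl, Or.inr (by rw [e, mul_one])⟩
    by_cases b1 : b = i
    · exact ⟨i, by simp, Or.inl b1⟩
    by_cases b2 : b = t * i
    · exact ⟨i, by simp, Or.inr b2⟩
    by_cases b3 : b = j
    · exact ⟨j, by simp, Or.inl b3⟩
    by_cases b4 : b = t * j
    · exact ⟨j, by simp, Or.inr b4⟩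
    refine ⟨i * j, by simp, ?_⟩
    have a1 := (h.big2_anti hW iB hb ii e b1 b2).1
    have a2 := (h.big2_anti hW jB hb jj e b3 b4).1
    have it := h.le h.rt iB
    have hc : b * (i * j) = i * j * b := by
      calc b * (i * j) = (b * i) * j := by group
        _ = t * i * (b * j) := by rw [a1]; group
        _ = t * (i * t) * j * b := by rw [a2]; group
        _ = (t * t) * (i * j * b) := by rw [it]; group
        _ = i * j * b := by rw [tt, one_mul]
    have sq : b * (i * j) * (b * (i * j)) = 1 := by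
      calc b * (i * j) * (b * (i * j)) = b * (i * j * b) * (i * j) := by group
        _ = (b * b) * (i * j * (i * j)) := by rw [← hc]; group
        _ = 1 := by rw [e, ijij, tt]
    rcases h.toRG.inv_B h.rt ((B t).mul_mem hb ((B t).mul_mem iB jB)) sq with e1 | e1
    · right
      rw [← big2_inv tt ijij]
      exact eq_inv_of_mul_eq_one_left e1
    · left
      rw [← ijij] at e1
      exact mul_right_cancel e1
  · intro x
    constructor
    · intro hx
      obtain ⟨b, hb, c, hc, e⟩ := dec x hx.1
      have xs := (mem_PP.1 hx).2.2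
      have hb' := (h.toRG.swap (b := b) h.rt ss h.st).1 hb
      have hc' := (h.toRG.swap (b := c) h.rt ss h.st).2 hc
      have e2 : s * c * s * (s * b * s) = b * c := by
        rw [h.toRG.comm h.rt hc' hb']
        calc s * b * s * (s * c * s) = s * b * (s * s) * c * s := by group
          _ = s * (x * s) := by rw [ss, e]; group
          _ = b * c := by rw [xs, ← mul_assoc, ss, one_mul, e]
      refine ⟨b, hb, ?_⟩
      rw [(h.toRG.dec_uniq h.rt hc' hb' hb hc e2).2, e]
    · rintro ⟨b, hb, rfl⟩
      exact h.big2_diag hb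

end CfsgLib.GL2D
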