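import Cfsg.Agent.Lib.GL2D.Bas

/-! BIG3: an element of `C(t)` acting as the same `3`-cycle on both factors.  See `plans/GL2D.md`. -/

set_option autoImplicit false
set_option linter.unusedSectionVars false

namespace CfsgLib.GL2D
open Subgroup

variable {G : Type*} [Group G] [Finite G] {z t s : G} {B : G → Subgroup G} {S : Sylow 2 G}

/-- the diagonal element of `b` -/
private def dg (s b : G) : G := b * (s * b * s)

section
variable (h : RG z B) (rt : Rf z t) (rs : Rf z s) (st : s * t = z * (t * s))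
include h rt rs st

private theorem b3_ts : t * s = z * (s * t) := by
  rw [st, ← mul_assoc, h.zz, one_mul]

private theorem b3_sts : s * t * s = z * t := by
  rw [st, mul_assoc, mul_assoc, rs.1, mul_one]

private theorem b3_sw {b : G} (hb : b ∈ B t) : s * b * s ∈ B (z * t) := (h.swap rt rs.1 st).1 hb

private theorem b3_mul {b c : G} (hc : c ∈ B t) (hb : b ∈ B t) : dg s (b * c) = dg s b * dg s c := by
  have h1 := h.comm rt hc (b3_sw h rt rs st hb)
  unfold dg
  calc b * c * (s * (b * c) * s) = b * (c * (s * b * s)) * (s * c * s) := by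
        have : s * (b * c) * s = s * b * (s * s) * c * s := by rw [rs.1]; group
        rw [this]; group
    _ = _ := by rw [h1]; group

private theorem b3_t : dg s t = z := by
  unfold dg
  rw [b3_sts h rt rs st, ← mul_assoc, h.zc, mul_assoc, rt.1, mul_one]

private theorem b3_inj {b c : G} (hb : b ∈ B t) (hc : c ∈ B t) (e : dg s b = dg s c) : b = c :=
  (h.dec_uniq rt hb (b3_sw h rt rs st hb) hc (b3_sw h rt rs st hc) e).1

private theorem b3_cs {b : G} (hb : b ∈ B t) : dg s b * s = s * dg s b := by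
  have h1 := h.comm rt hb (b3_sw h rt rs st hb)
  unfold dg
  calc b * (s * b * s) * s = b * s * b * (s * s) := by group
    _ = s * s * b * s * b := by rw [rs.1]; group
    _ = s * (s * b * s * b) := by group
    _ = _ := by rw [← h1]

private theorem b3_ct {b : G} (hb : b ∈ B t) : dg s b * t = t * dg s b := by
  have h1 := h.comm rt (h.self rt) (b3_sw h rt rs st hb)
  unfold dg
  rw [mul_assoc, ← h1, ← mul_assoc, h.le rt hb, mul_assoc]

private theorem b3_c1 {i : G} (hi : i ∈ B t) (ii : i * i = t) : i * s * i⁻¹ = s * t * dg s i := by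
  have h1 := h.comm rt (mul_mem (h.self rt) hi) (b3_sw h rt rs st hi)
  have h2 : i⁻¹ = t * i := by
    rw [inv_eq_iff_mul_eq_one, ← mul_assoc, h.le rt hi, mul_assoc, ii, rt.1]
  unfold dg
  calc i * s * i⁻¹ = s * s * i * s * (t * i) := by rw [rs.1, h2, one_mul]
    _ = s * (s * i * s * (t * i)) := by group
    _ = _ := by rw [← h1]; group

private theorem b3_c2 {i j u : G} (hi : i ∈ B t) (hj : j ∈ B t) (e : i * j = u * (j * i)) :
    i * dg s j * i⁻¹ = u * dg s j := by
  have h1 := h.comm rt hi (b3_sw h rt rs st hj)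
  unfold dg
  calc i * (j * (s * j * s)) * i⁻¹ = i * j * (s * j * s) * i⁻¹ := by group
    _ = u * j * (i * (s * j * s)) * i⁻¹ := by rw [e]; group
    _ = _ := by rw [h1]; group

end

private theorem LS.b3_onto (h : LS z B S t s) {i j : G} (hq : Q8c z B S t s i j) {b : G} (hb : b ∈ B t) :
    ∃ a ∈ B s, dg t a = dg s b := by
  have hr := h.toTop.toRG
  have ts := b3_ts hr h.rt h.rs h.st
  have hn : ((RR S t).subgroupOf (centralizer {t})).Normal := by
    refine (normal_subgroupOf_iff_le_normalizer inf_le_right).2 fun x hx => ?_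
    have key : ∀ x : G, x * t = t * x → ∀ r ∈ RR S t, x * r * x⁻¹ ∈ RR S t := fun x hx r hr' => by
      obtain ⟨b, hb, c, hc, rfl⟩ := hq.dec r hr'
      rw [← conj_mul]
      exact mul_mem (h.B_le.1 (hr.nrm h.rt hx hb)) (h.B_le.2 (hr.nrm (hr.rf_z h.rt)
        (by rw [← mul_assoc, hr.zc, mul_assoc, hx, mul_assoc]) hc))
    have hx' := mem_centralizer_singleton_iff.1 hx
    refine mem_normalizer_iff.2 fun r => ⟨key x hx' r, fun h1 => ?_⟩
    have h2 := key x⁻¹ (mem_centralizer_singleton_iff.1 (inv_mem hx)) _ h1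
    have e : x⁻¹ * (x * r * x⁻¹) * x⁻¹⁻¹ = r := by group
    rwa [e] at h2
  have mem : ∀ c ∈ B s, dg t c ∈ PP S t s := fun c hc => by
    have h1 := b3_cs hr h.rs h.rt ts hc
    have h2 : dg t c ^ (RR S t).relIndex (centralizer {t}) ∈ RR S t :=
      pow_index_mem ((RR S t).subgroupOf (centralizer {t})) ⟨_, mem_centralizer_singleton_iff.2 h1⟩
    obtain ⟨k, hk⟩ := h.two h.rs ⟨c, hc⟩
    have hk' : c ^ 2 ^ k = 1 := congrArg Subtype.val hk
    have h3 : dg t c ^ 2 ^ k = 1 := by
      have cm : Commute c (t * c * t) := hr.comm h.rs hc (b3_sw hr h.rs h.rt ts hc)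
      have e : t * c * t = t * c * t⁻¹ := by rw [inv_eq_of_mul_eq_one_right h.rt.1]
      unfold dg
      rw [cm.mul_pow, e, conj_pow, hk']; group
    have h4 : ((RR S t).relIndex (centralizer {t})).Coprime (orderOf (dg t c)) :=
      Nat.Coprime.coprime_dvd_right (orderOf_dvd_of_pow_eq_one h3)
        (Nat.Coprime.pow_right k ((Nat.prime_two.coprime_iff_not_dvd.2 h.odd).symm))
    obtain ⟨m, hm⟩ := exists_pow_eq_self_of_coprime h4
    exact ⟨hm ▸ pow_mem h2 m, mem_centralizer_singleton_iff.2 (b3_ct hr h.rs h.rt ts hc)⟩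
  obtain ⟨g, hg⟩ := h.fus h.rs
  have c1 : Nat.card (B t) ≤ Nat.card (B s) :=
    Nat.card_le_card_of_injective (fun b => (⟨g * b * g⁻¹, hg ▸ hr.cj g h.rt b.2⟩ : B s)) fun x y e =>
      Subtype.ext (by simpa using e)
  have c2 : Nat.card (PP S t s) ≤ Nat.card (B t) :=
    Nat.card_le_card_of_surjective (fun b => (⟨dg s b, (hq.diag _).2 ⟨b, b.2, rfl⟩⟩ : PP S t s)) fun x => by
      obtain ⟨b, hb, e⟩ := (hq.diag _).1 x.2
      exact ⟨⟨b, hb⟩, Subtype.ext e.symm⟩
  have inj : Function.Injective (fun c : B s => (⟨dg t c, mem c c.2⟩ : PP S t s)) := fun x y e =>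
    Subtype.ext (b3_inj hr h.rs h.rt ts x.2 y.2 (congrArg Subtype.val e))
  obtain ⟨a, ha⟩ := (inj.bijective_of_nat_card_le (c2.trans c1)).2 ⟨dg s b, (hq.diag _).2 ⟨b, hb, rfl⟩⟩
  exact ⟨a, a.2, congrArg Subtype.val ha⟩

theorem LS.hstar (h : LS z B S t s) {i j : G} (hq : Q8c z B S t s i j) :
    ∃ x, x * t = t * x ∧ (x * i * x⁻¹ = j ∨ x * i * x⁻¹ = t * j) ∧
      (s * x * s * i * (s * x * s)⁻¹ = j ∨ s * x * s * i * (s * x * s)⁻¹ = t * j) := by
  have hr := h.toTop.toRG
  have rt := h.rt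
  have rs := h.rs
  have st := h.st
  have ts := b3_ts hr rt rs st
  have hi := hq.iB
  have hj := hq.jB
  obtain ⟨a, ha, ea⟩ := h.b3_onto hq hi
  obtain ⟨b, hb, eb⟩ := h.b3_onto hq hj
  have II : dg s i * dg s i = z := by rw [← b3_mul hr rt rs st hi hi, hq.ii, b3_t hr rt rs st]
  have JJ : dg s j * dg s j = z := by rw [← b3_mul hr rt rs st hj hj, hq.jj, b3_t hr rt rs st]
  have JI : dg s j * dg s i = z * (dg s i * dg s j) := by
    rw [← b3_mul hr rt rs st hi hj, hq.ji, b3_mul hr rt rs st (mul_mem hi hj) (hr.self rt), b3_t hr rt rs st,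
      b3_mul hr rt rs st hj hi]
  have aa : a * a = s := b3_inj hr rs rt ts (mul_mem ha ha) (hr.self rs) (by
    rw [b3_mul hr rs rt ts ha ha, ea, II, b3_t hr rs rt ts])
  have bb : b * b = s := b3_inj hr rs rt ts (mul_mem hb hb) (hr.self rs) (by
    rw [b3_mul hr rs rt ts hb hb, eb, JJ, b3_t hr rs rt ts])
  have ba : b * a = s * (a * b) := b3_inj hr rs rt ts (mul_mem hb ha) (mul_mem (hr.self rs) (mul_mem ha hb)) (by
    rw [b3_mul hr rs rt ts ha hb, b3_mul hr rs rt ts (mul_mem ha hb) (hr.self rs), b3_mul hr rs rt ts hb ha, ea, eb,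
      JI, b3_t hr rs rt ts])
  have ij : i * j = t * (j * i) := by rw [hq.ji, ← mul_assoc t, rt.1, one_mul]
  have ab : a * b = s * (b * a) := by rw [ba, ← mul_assoc s, rs.1, one_mul]
  have i_s := b3_c1 hr rt rs st hi hq.ii
  have j_s := b3_c1 hr rt rs st hj hq.jj
  have a_t := b3_c1 hr rs rt ts ha aa
  have b_t := b3_c1 hr rs rt ts hb bb
  have iJ := b3_c2 hr rt rs st hi hj ij
  have jI := b3_c2 hr rt rs st hj hi hq.ji
  have aJ := b3_c2 hr rs rt ts ha hb ab
  have bI := b3_c2 hr rs rt ts hb ha ba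
  have iI := b3_c2 hr rt rs st hi hi (one_mul _).symm
  have jJ := b3_c2 hr rt rs st hj hj (one_mul _).symm
  have aI := b3_c2 hr rs rt ts ha ha (one_mul _).symm
  have It := b3_ct hr rt rs st hi
  have Jt := b3_ct hr rt rs st hj
  have jt : j * t * j⁻¹ = t := by rw [hr.le rt hj, mul_inv_cancel_right]
  have a_s : a * s * a⁻¹ = s := by rw [hr.le rs ha, mul_inv_cancel_right]
  rw [ea] at a_t bI aI
  rw [eb] at b_t aJ
  rw [one_mul] at iI jJ aI
  have sts := b3_sts hr rt rs st
  have tst := b3_sts hr rs rt ts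
  have e1 : a * i * j * b * t * (a * i * j * b)⁻¹ = t := by
    have s1 : j * (t * s * dg s j) * j⁻¹ = s := by
      rw [← conj_mul, ← conj_mul, jt, j_s, jJ]
      calc t * (s * t * dg s j) * dg s j = t * s * t * (dg s j * dg s j) := by group
        _ = s := by rw [tst, JJ, hr.zc, ← mul_assoc, hr.zz, one_mul]
    have s2 : a * (s * t * dg s i) * a⁻¹ = t := by
      rw [← conj_mul, ← conj_mul, a_s, a_t, aI]
      calc s * (t * s * dg s i) * dg s i = s * t * s * (dg s i * dg s i) := by group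
        _ = t := by rw [sts, II, hr.zc, ← mul_assoc, hr.zz, one_mul]
    calc _ = a * (i * (j * (b * t * b⁻¹) * j⁻¹) * i⁻¹) * a⁻¹ := by group
      _ = t := by rw [b_t, s1, i_s, s2]
  have e2 : a * i * j * b * dg s i * (a * i * j * b)⁻¹ = dg s j := by
    have s1 : j * (s * dg s i) * j⁻¹ = s * dg s j * dg s i := by
      rw [← conj_mul, j_s, jI]
      calc s * t * dg s j * (t * dg s i) = s * t * (dg s j * t) * dg s i := by group
        _ = s * (t * t) * dg s j * dg s i := by rw [Jt]; group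
        _ = _ := by rw [rt.1, mul_one]
    have s2 : i * (s * dg s j * dg s i) * i⁻¹ = s * dg s j := by
      rw [← conj_mul, ← conj_mul, i_s, iJ, iI]
      calc s * t * dg s i * (t * dg s j) * dg s i = s * t * (dg s i * t) * (dg s j * dg s i) := by group
        _ = s * (t * t) * (dg s i * z) * dg s i * dg s j := by rw [It, JI]; group
        _ = s * (z * (dg s i * dg s i)) * dg s j := by rw [rt.1, hr.zc]; group
        _ = _ := by rw [II, hr.zz, mul_one]
    have s3 : a * (s * dg s j) * a⁻¹ = dg s j := by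
      rw [← conj_mul, a_s, aJ, ← mul_assoc, rs.1, one_mul]
    calc _ = a * (i * (j * (b * dg s i * b⁻¹) * j⁻¹) * i⁻¹) * a⁻¹ := by group
      _ = _ := by rw [bI, s1, s2, s3]
  generalize a * i * j * b = x at e1 e2
  have xt : x * t = t * x := by rw [mul_inv_eq_iff_eq_mul] at e1; exact e1
  unfold dg at e2
  rw [← conj_mul] at e2
  obtain ⟨f1, f2⟩ := hr.dec_uniq rt (hr.nrm rt xt hi) (hr.nrm (hr.rf_z rt)
    (by rw [← mul_assoc, hr.zc, mul_assoc, xt, mul_assoc]) (b3_sw hr rt rs st hi)) hj (b3_sw hr rt rs st hj) e2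
  refine ⟨x, xt, Or.inl f1, Or.inl ?_⟩
  have si : s⁻¹ = s := inv_eq_of_mul_eq_one_right rs.1
  calc s * x * s * i * (s * x * s)⁻¹ = s * (x * (s * i * s⁻¹) * x⁻¹) * s⁻¹ := by group
    _ = s * s * j * (s * s) := by rw [si, f2]; group
    _ = j := by rw [rs.1, one_mul, mul_one]

end CfsgLib.GL2D
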