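import Cfsg.Agent.Lib.GL2D.Big3

/-! BIG4: `C(t)` acts diagonally on the two factors.  See `plans/GL2D.md`. -/

set_option autoImplicit false
set_option linter.unusedSectionVars false

namespace CfsgLib.GL2D
open Subgroup

variable {G : Type*} [Group G] [Finite G] {z t s : G} {B : G → Subgroup G} {S : Sylow 2 G}

/-- generators of a normal four-group whose automiser has odd order -/
structure Kl4 {K : Type*} [Group K] (V : Subgroup K) (a b : K) : Prop where
  all : ∀ v, v ∈ V ↔ v = 1 ∨ v = a ∨ v = b ∨ v = a * b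
  aa : a * a = 1
  bb : b * b = 1
  ab : a * b = b * a
  nrm : V.Normal
  odd : ∀ x : K, ∃ m, Odd m ∧ x ^ m ∈ centralizer (V : Set K)

namespace Kl4

variable {K : Type*} [Group K] {V : Subgroup K} {a b : K}

theorem swap (h : Kl4 V a b) : Kl4 V b a :=
  ⟨fun v => by rw [h.all, h.ab]; tauto, h.bb, h.aa, h.ab.symm, h.nrm, h.odd⟩

theorem rot (h : Kl4 V a b) : Kl4 V a (a * b) :=
  ⟨fun v => by rw [h.all, ← mul_assoc, h.aa, one_mul]; tauto, h.aa,
    by rw [mul_assoc, ← mul_assoc b, ← h.ab, mul_assoc, h.bb, mul_one, h.aa],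
    by rw [← mul_assoc, h.aa, one_mul, mul_assoc, ← h.ab, ← mul_assoc, h.aa, one_mul], h.nrm, h.odd⟩

theorem cen (h : Kl4 V a b) {w : K} (ha : Commute a w) (hb : Commute b w) : w ∈ centralizer (V : Set K) :=
  mem_centralizer_iff.2 fun v hv => by
    rcases (h.all v).1 hv with rfl | rfl | rfl | rfl
    exacts [Commute.one_left w, ha, hb, ha.mul_left hb]

theorem fix (h : Kl4 V a b) {w : K} (ha : w * a * w⁻¹ = a) : w ∈ centralizer (V : Set K) := by
  have ca : Commute a w := (mul_inv_eq_iff_eq_mul.1 ha).symm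
  have cb : Commute b (w ^ 2) := by
    rcases (h.all _).1 (h.nrm.conj_mem b ((h.all b).2 (by tauto)) w) with e | e | e | e
    · rw [conj_eq_one_iff.1 e]; exact Commute.one_left _
    · rw [mul_left_cancel (mul_right_cancel (e.trans ha.symm))]; exact ca.pow_right 2
    · exact (show Commute b w from (mul_inv_eq_iff_eq_mul.1 e).symm).pow_right 2
    · refine (mul_inv_eq_iff_eq_mul.1 ?_).symm
      rw [show w ^ 2 * b * (w ^ 2)⁻¹ = w * (w * b * w⁻¹) * w⁻¹ by simp [pow_succ, mul_assoc], e, ← conj_mul, ha, e, ← mul_assoc, h.aa,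
        one_mul]
  obtain ⟨m, ⟨k, rfl⟩, hm⟩ := h.odd w
  rwa [pow_succ, pow_mul, mul_mem_cancel_left (pow_mem (h.cen (ca.pow_right 2) cb) k)] at hm

theorem cube' (h : Kl4 V a b) {x : K} (e : x * a * x⁻¹ = b) : x ^ 3 ∈ centralizer (V : Set K) := by
  rcases (h.all _).1 (h.nrm.conj_mem b ((h.all b).2 (by tauto)) x) with k | k | k | k
  · exact pow_mem (h.swap.fix (by rw [conj_eq_one_iff.1 k, mul_one, mul_inv_cancel])) 3
  · exact pow_mem (h.rot.swap.fix (by rw [← conj_mul, e, k, h.ab])) 3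
  · exact pow_mem (h.swap.fix k) 3
  · refine h.fix ?_
    rw [show x ^ 3 * a * (x ^ 3)⁻¹ = x * (x * (x * a * x⁻¹) * x⁻¹) * x⁻¹ by simp [pow_succ, mul_assoc], e, k, ← conj_mul, e, k,
      ← mul_assoc, ← h.ab, mul_assoc, h.bb, mul_one]

theorem cube (h : Kl4 V a b) (x : K) : x ^ 3 ∈ centralizer (V : Set K) := by
  rcases (h.all _).1 (h.nrm.conj_mem a ((h.all a).2 (by tauto)) x) with k | k | k | k
  · exact pow_mem (h.fix (by rw [conj_eq_one_iff.1 k, mul_one, mul_inv_cancel])) 3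
  · exact pow_mem (h.fix k) 3
  · exact h.cube' k
  · exact h.rot.cube' k

end Kl4

theorem big4_cyc {H Q : Type*} [Group H] [Finite H] [Group Q] (α β : H →* Q) (ha : ∀ x, α x ^ 3 = 1)
    (hb : ∀ x, β x ^ 3 = 1) (hc : ∀ P : Sylow 3 H, IsCyclic P) {y : H} (e : α y = β y) (n : α y ≠ 1) (x : H) :
    α x = β x := by
  have : Fact (Nat.Prime 3) := ⟨Nat.prime_three⟩
  obtain ⟨P⟩ : Nonempty (Sylow 3 H) := inferInstance
  obtain ⟨g, hg⟩ := (hc P).exists_zpow_surjective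
  have p3 : IsPGroup 3 (⊤ : Subgroup (α.prod β).range) := by
    rintro ⟨⟨_, w, rfl⟩, -⟩
    exact ⟨1, Subtype.ext (Subtype.ext (Prod.ext (ha w) (hb w)))⟩
  have top := (P.mapSurjective (α.prod β).rangeRestrict_surjective).is_maximal' p3 le_top
  have key : ∀ x, ∃ m : ℤ, α x = α g ^ m ∧ β x = β g ^ m := fun x => by
    obtain ⟨p, hp, e⟩ : (α.prod β).rangeRestrict x ∈ (P : Subgroup H).map (α.prod β).rangeRestrict :=
      top.le (mem_top _)
    obtain ⟨m, hm⟩ := hg ⟨p, hp⟩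
    obtain rfl : (g : H) ^ m = p := congrArg Subtype.val hm
    have e' := Prod.ext_iff.1 (congrArg Subtype.val e)
    exact ⟨m, by rw [← map_zpow]; exact e'.1.symm, by rw [← map_zpow]; exact e'.2.symm⟩
  obtain ⟨m, m1, m2⟩ := key y
  have c3 : ∀ (u : Q) (k : ℤ), u ^ 3 = 1 → u ^ (3 * k) = 1 := fun u k hu => by
    rw [zpow_mul, show u ^ (3 : ℤ) = u ^ 3 from zpow_natCast u 3, hu, one_zpow]
  have : α g = β g := by
    obtain ⟨k, rfl | rfl | rfl⟩ : ∃ k, m = 3 * k ∨ m = 3 * k + 1 ∨ m = 3 * k - 1 := by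
      rcases (by omega : m % 3 = 0 ∨ m % 3 = 1 ∨ m % 3 = 2) with r | r | r
      exacts [⟨m / 3, by omega⟩, ⟨m / 3, by omega⟩, ⟨m / 3 + 1, by omega⟩]
    · exact absurd (m1.trans (c3 _ k (ha g))) n
    · rwa [m1, m2, zpow_add_one, zpow_add_one, c3 _ k (ha g), c3 _ k (hb g), one_mul, one_mul] at e
    · rwa [m1, m2, zpow_sub_one, zpow_sub_one, c3 _ k (ha g), c3 _ k (hb g), one_mul, one_mul, inv_inj] at e
  obtain ⟨k, k1, k2⟩ := key x
  rw [k1, k2, this]

theorem LS.diag (h : LS z B S t s) {i j : G} (hq : Q8c z B S t s i j) {x : G} (xt : x * t = t * x) :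
    ∀ b ∈ B t, s * x * s * b * (s * x * s)⁻¹ = x * b * x⁻¹ ∨ s * x * s * b * (s * x * s)⁻¹ = t * (x * b * x⁻¹) := by
  have tt := h.rt.1
  have ss := h.rs.1
  have sts : s * t * s = z * t := by rw [h.st, mul_assoc, mul_assoc, ss, mul_one]
  have mH : ∀ {y}, y ∈ centralizer {t} ↔ y * t = t * y := mem_centralizer_singleton_iff
  have BH : ∀ {b}, b ∈ B t → b ∈ centralizer {t} := fun hb => mH.2 (h.le h.rt hb)
  let T : Subgroup (centralizer {t}) := zpowers ⟨t, mH.2 rfl⟩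
  have Tc : T ≤ center _ := zpowers_le.2 (mem_center_iff.2 fun g => Subtype.ext (mH.1 g.2))
  have : T.Normal := ⟨fun n hn g => by rwa [mem_center_iff.1 (Tc hn) g, mul_inv_cancel_right]⟩
  let π := QuotientGroup.mk' T
  have πt : π ⟨t, mH.2 rfl⟩ = 1 := (QuotientGroup.eq_one_iff _).2 (mem_zpowers _)
  have hπ : ∀ x y : centralizer {t}, π x = π y ↔ (x : G) = y ∨ (x : G) = t * y := fun x y => ⟨fun e => by
      obtain ⟨n, hn⟩ := QuotientGroup.eq.1 e.symm
      have e1 : t ^ n = (y : G)⁻¹ * x := congrArg Subtype.val hn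
      have t2 : t ^ (2 : ℤ) = 1 := by rw [zpow_two, tt]
      rcases Int.even_or_odd' n with ⟨m, rfl | rfl⟩
      · rw [zpow_mul, t2, one_zpow, eq_inv_mul_iff_mul_eq, mul_one] at e1
        exact Or.inl e1.symm
      · rw [zpow_add_one, zpow_mul, t2, one_zpow, one_mul, eq_inv_mul_iff_mul_eq, mH.1 y.2] at e1
        exact Or.inr e1.symm,
    fun e => e.elim (fun e => congrArg π (Subtype.ext e)) fun e => by
      rw [show x = ⟨t, mH.2 rfl⟩ * y from Subtype.ext e, map_mul, πt, one_mul]⟩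
  have nB : ((B t).subgroupOf (centralizer {t})).Normal := ⟨fun n hn g => h.nrm h.rt (mH.1 g.2) hn⟩
  have nR : ((RR S t).subgroupOf (centralizer {t})).Normal := ⟨fun n hn g => by
    obtain ⟨b, hb, c, hc, e⟩ := hq.dec _ hn
    show (g : G) * n * (g : G)⁻¹ ∈ RR S t
    rw [show (n : G) = b * c from e, ← conj_mul]
    exact mul_mem (h.B_le.1 (h.nrm h.rt (mH.1 g.2) hb)) (h.B_le.2 (h.nrm (h.rf_z h.rt)
      (by rw [← mul_assoc, h.zc, mul_assoc, mH.1 g.2, mul_assoc]) hc))⟩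
  have all : ∀ v, v ∈ ((B t).subgroupOf (centralizer {t})).map π ↔ v = 1 ∨ v = π ⟨i, BH hq.iB⟩ ∨
      v = π ⟨j, BH hq.jB⟩ ∨ v = π ⟨i, BH hq.iB⟩ * π ⟨j, BH hq.jB⟩ := fun v => ⟨by
      rintro ⟨b, hb, rfl⟩
      obtain ⟨c, rfl | rfl | rfl | rfl, e⟩ := hq.all _ hb
      · exact Or.inl ((hπ b 1).2 e)
      · exact Or.inr (Or.inl ((hπ b _).2 e))
      · exact Or.inr (Or.inr (Or.inl ((hπ b _).2 e)))
      · refine Or.inr (Or.inr (Or.inr ?_))
        rw [← map_mul]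
        exact (hπ b _).2 e, by
      rintro (rfl | rfl | rfl | rfl)
      exacts [one_mem _, ⟨_, hq.iB, rfl⟩, ⟨_, hq.jB, rfl⟩, mul_mem ⟨_, hq.iB, rfl⟩ ⟨_, hq.jB, rfl⟩]⟩
  have ab : π ⟨i, BH hq.iB⟩ * π ⟨j, BH hq.jB⟩ = π ⟨j, BH hq.jB⟩ * π ⟨i, BH hq.iB⟩ := by
    rw [← map_mul, ← map_mul]
    exact ((hπ _ _).2 (Or.inr hq.ji)).symm
  have kl : Kl4 (((B t).subgroupOf (centralizer {t})).map π) (π ⟨i, BH hq.iB⟩) (π ⟨j, BH hq.jB⟩) := by
    refine ⟨all, by rw [← map_mul, ← πt]; exact congrArg π (Subtype.ext hq.ii),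
      by rw [← map_mul, ← πt]; exact congrArg π (Subtype.ext hq.jj), ab,
      nB.map π (QuotientGroup.mk'_surjective T), fun y => ?_⟩
    obtain ⟨y, rfl⟩ := QuotientGroup.mk'_surjective T y
    refine ⟨_, Nat.not_even_iff_odd.1 fun e => h.odd e.two_dvd, ?_⟩
    obtain ⟨b, hb, c, hc, e⟩ := hq.dec _ (pow_index_mem y (H := (RR S t).subgroupOf (centralizer {t})))
    have cH : c ∈ centralizer {t} := (h.B_le.2 hc).2
    rw [← map_pow, show y ^ (RR S t).relIndex (centralizer {t}) = ⟨b, BH hb⟩ * ⟨c, cH⟩ from Subtype.ext e, map_mul]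
    refine mul_mem (mem_centralizer_iff.2 fun v hv => ?_) (mem_centralizer_iff.2 ?_)
    · have ca : Commute (π ⟨i, BH hq.iB⟩) (π ⟨j, BH hq.jB⟩) := ab
      rcases (all v).1 hv with rfl | rfl | rfl | rfl <;>
        rcases (all (π ⟨b, BH hb⟩)).1 ⟨_, hb, rfl⟩ with e | e | e | e <;> rw [e]
      exacts [Commute.one_left _, Commute.one_left _, Commute.one_left _,
        Commute.one_right _, ca, (Commute.refl _).mul_right ca,
        Commute.one_right _, ca.symm, ca.symm.mul_right (Commute.refl _),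
        Commute.one_right _, (Commute.refl _).mul_left ca.symm, ca.mul_left (Commute.refl _)]
    · rintro _ ⟨v, hv, rfl⟩
      rw [← map_mul, ← map_mul]
      exact congrArg π (Subtype.ext (h.comm h.rt hv hc))
  have := kl.nrm
  have sH : ∀ y ∈ centralizer {t}, s * y * s ∈ centralizer {t} := fun y hy => mH.2 (by
    have e : s * t = z * t * s := by rw [← sts, mul_assoc, ss, mul_one]
    have e' : t * s = s * (z * t) := by rw [← sts, ← mul_assoc, ← mul_assoc, ss, one_mul]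
    rw [← mul_assoc t, ← mul_assoc t, e', mul_assoc (s * y), e, ← mul_assoc, mul_assoc s y, ← mul_assoc y, h.zc y,
      mul_assoc z y, mH.1 hy, ← mul_assoc z t, ← mul_assoc s])
  let σ : centralizer {t} →* centralizer ({t} : Set G) := MonoidHom.mk' (fun y => ⟨s * y * s, sH _ y.2⟩) fun a b =>
    Subtype.ext (show s * (a * b) * s = s * a * s * (s * b * s) by
      simp only [mul_assoc]; rw [← mul_assoc s s, ss, one_mul])
  let α := (QuotientGroup.mk' (centralizer (((B t).subgroupOf (centralizer {t})).map π : Set _))).comp π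
  have c3 : ∀ y, α y ^ 3 = 1 := fun y => (QuotientGroup.eq_one_iff (π y ^ 3)).2 (kl.cube _)
  obtain ⟨y, yt, y1, y2⟩ := h.hstar hq
  have z1 : π ⟨y, mH.2 yt⟩ * π ⟨i, BH hq.iB⟩ * (π ⟨y, mH.2 yt⟩)⁻¹ = π ⟨j, BH hq.jB⟩ := by
    rw [← map_inv, ← map_mul, ← map_mul]; exact (hπ _ _).2 y1
  have z2 : π (σ ⟨y, mH.2 yt⟩) * π ⟨i, BH hq.iB⟩ * (π (σ ⟨y, mH.2 yt⟩))⁻¹ = π ⟨j, BH hq.jB⟩ := by
    rw [← map_inv, ← map_mul, ← map_mul]; exact (hπ _ _).2 y2
  have key := big4_cyc α (α.comp σ) c3 (fun y => c3 _) (fun P => ?_) (y := ⟨y, mH.2 yt⟩)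
    (QuotientGroup.eq.2 (kl.fix (by
      rw [mul_inv_rev, inv_inv, mul_assoc, mul_assoc, ← mul_assoc (π ⟨i, _⟩), ← mul_assoc (π (σ _)),
        ← mul_assoc (π (σ _)), z2, ← z1]
      group))) (fun e => ?_) ⟨x, mH.2 xt⟩
  · intro b hb
    have e := mem_centralizer_iff.1 (QuotientGroup.eq.1 key) _ ⟨⟨b, BH hb⟩, hb, rfl⟩
    refine (hπ (σ ⟨x, mH.2 xt⟩ * ⟨b, BH hb⟩ * (σ ⟨x, mH.2 xt⟩)⁻¹) (⟨x, mH.2 xt⟩ * ⟨b, BH hb⟩ * ⟨x, mH.2 xt⟩⁻¹)).1 ?_
    simp only [map_mul, map_inv]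
    rw [mul_inv_eq_iff_eq_mul, mul_assoc, mul_assoc, e, mul_assoc, mul_inv_cancel_left]
  · have := h.cyc h.rt Nat.prime_three (by norm_num) (map_subtype_le (P : Subgroup (centralizer {t})))
      (P.isPGroup'.map _) (disjoint_iff.1 (IsPGroup.disjoint_of_ne 3 2 (by norm_num) _ _ (P.isPGroup'.map _)
        (h.two h.rt)))
    exact isCyclic_of_surjective _ ((P : Subgroup (centralizer {t})).equivMapOfInjective _
      (centralizer {t}).subtype_injective).symm.surjective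
  · have e1 := mem_centralizer_iff.1 ((QuotientGroup.eq_one_iff (π _)).1 e) _ ((all _).2 (Or.inr (Or.inl rfl)))
    rw [← e1, mul_inv_cancel_right] at z1
    have ji := hq.ji
    have it : i * t = t * i := h.le h.rt hq.iB
    rcases (hπ _ _).1 z1.symm with k | k
    · rw [show j = i from k, right_eq_mul] at ji
      exact h.rt.2.1 ji
    · rw [show j = t * i from k, ← mul_assoc i, it, mul_assoc, mul_right_inj, right_eq_mul] at ji
      exact h.rt.2.1 ji

end CfsgLib.GL2D
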