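import Cfsg.Agent.Lib.GL2D.Defs
import Cfsg.Agent.Lib.FrobCompl.Zassenhaus

/-! COR: corners, averages, rank, abelian subgroups.  See `plans/GL2D.md`. -/

set_option autoImplicit false
set_option linter.unusedSectionVars false

namespace CfsgLib.GL2D
open Subgroup

variable {G : Type*} [Group G] [Finite G] {A : Type*} [Ring A] [Algebra ℚ A] {ρ : G →* A}

/-- The average of a subgroup. -/
theorem Rp.av (h : Rp ρ) (L : Subgroup G) : ∃ e : A, e * e = e ∧ (∀ g ∈ L, ρ g * e = e ∧ e * ρ g = e) ∧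
    (∀ f : A, (∀ g ∈ L, ρ g * f = f) → e * f = f) ∧ (∀ f : A, (∀ g ∈ L, ρ g * f = f * ρ g) → e * f = f * e) ∧
    (∀ x : G, (∀ g ∈ L, x * g * x⁻¹ ∈ L) → ρ x * e = e * ρ x) ∧ (L ≠ ⊥ → e ≠ 1) ∧
    e ∈ Submodule.span ℚ (ρ '' L) := by
  classical
  have := Fintype.ofFinite L
  have hc : (Fintype.card L : ℚ) ≠ 0 := by exact_mod_cast Fintype.card_ne_zero
  set e : A := (Fintype.card L : ℚ)⁻¹ • ∑ g : L, ρ g with he
  have hl : ∀ g ∈ L, ρ g * e = e := fun g hg => by
    rw [he, mul_smul_comm, Finset.mul_sum]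
    congr 1
    exact Fintype.sum_equiv (Equiv.mulLeft (⟨g, hg⟩ : L)) _ _ fun x => by simp
  have hr : ∀ g ∈ L, e * ρ g = e := fun g hg => by
    rw [he, smul_mul_assoc, Finset.sum_mul]
    congr 1
    exact Fintype.sum_equiv (Equiv.mulRight (⟨g, hg⟩ : L)) _ _ fun x => by simp
  have hf : ∀ f : A, (∀ g ∈ L, ρ g * f = f) → e * f = f := fun f hf => by
    rw [he, smul_mul_assoc, Finset.sum_mul, Finset.sum_congr rfl fun (g : L) _ => hf g g.2, Finset.sum_const,
      Finset.card_univ, ← Nat.cast_smul_eq_nsmul ℚ, smul_smul, inv_mul_cancel₀ hc, one_smul]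
  refine ⟨e, hf e hl, fun g hg => ⟨hl g hg, hr g hg⟩, hf, fun f hf => ?_, fun x hx => ?_, fun hL e1 => hL ?_, ?_⟩
  · rw [he, smul_mul_assoc, mul_smul_comm, Finset.sum_mul, Finset.mul_sum,
      Finset.sum_congr rfl fun (g : L) _ => hf g g.2]
  · rw [he, smul_mul_assoc, mul_smul_comm, Finset.sum_mul, Finset.mul_sum]
    congr 1
    refine Fintype.sum_bijective (fun g : L => (⟨x * g * x⁻¹, hx g g.2⟩ : L))
      (Finite.injective_iff_bijective.1 fun a b hab => ?_) _ _ fun g => ?_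
    · simpa using congrArg Subtype.val hab
    · simp only [← map_mul]
      congr 1
      group
  · refine (eq_bot_iff_forall L).2 fun g hg => h.inj ?_
    have := hl g hg
    rwa [e1, mul_one, ← map_one ρ] at this
  · exact Submodule.smul_mem _ _ (Submodule.sum_mem _ fun g _ => Submodule.subset_span ⟨g, g.2, rfl⟩)

theorem Rp.fx_inf (h : Rp ρ) (f : A) : fx ρ f ⊓ fx ρ (1 - f) = ⊥ := by
  refine (eq_bot_iff_forall _).2 fun g hg => h.inj ?_
  have h1 := mem_fx.1 hg.1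
  have h2 := mem_fx.1 hg.2
  rw [mul_sub, h1, mul_one, sub_left_inj] at h2
  rw [h2, map_one]

omit [Finite G] [Algebra ℚ A] in
theorem fx_normal {f : A} {Y : Subgroup G} (hY : ∀ y ∈ Y, ρ y * f = f * ρ y) : ((fx ρ f).subgroupOf Y).Normal := by
  refine ⟨fun n hn g => mem_subgroupOf.2 (mem_fx.2 ?_)⟩
  have hn := mem_fx.1 (mem_subgroupOf.1 hn)
  have hi := hY _ (Y.inv_mem g.2)
  simp only [coe_mul, coe_inv, map_mul]
  rw [mul_assoc, hi, mul_assoc, ← mul_assoc (ρ n), hn, ← hi, ← mul_assoc, ← map_mul, mul_inv_cancel, map_one,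
    one_mul]

/-- A group acting on a line is a Frobenius complement modulo the kernel. -/
theorem Rp.free (h : Rp ρ) {f : A} (ff : f * f = f) (f0 : f ≠ 0) (f1 : f ≠ 1) {Y : Subgroup G}
    (hY : ∀ y ∈ Y, ρ y * f = f * ρ y) [((fx ρ f).subgroupOf Y).Normal] :
    FrobCompl.HasFree ℂ (Y ⧸ (fx ρ f).subgroupOf Y) := by
  let V : Submodule ℚ A := LinearMap.eqLocus (LinearMap.mulLeft ℚ f) LinearMap.id
  have hV : ∀ v : A, v ∈ V ↔ f * v = v := fun v => Iff.rfl
  have : Nontrivial V := ⟨⟨⟨f, (hV f).2 ff⟩, 0, fun e => f0 (congrArg Subtype.val e)⟩⟩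
  have st : ∀ (y : Y) (v : V), ρ y * v ∈ V := fun y v => by
    rw [hV, ← mul_assoc, ← hY _ y.2, mul_assoc, (hV _).1 v.2]
  let σ : Y →* AddMonoid.End V :=
    { toFun := fun y => AddMonoidHom.mk' (fun v => ⟨ρ y * v, st y v⟩) fun a b => Subtype.ext (by simp [mul_add])
      map_one' := AddMonoidHom.ext fun v => Subtype.ext (by change ρ (1 : Y) * v = v; simp)
      map_mul' := fun a b => AddMonoidHom.ext fun v => Subtype.ext (by
        change ρ (a * b : Y) * v = ρ a * (ρ b * v); simp [mul_assoc]) }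
  have hσ : ∀ (y : Y) (v : V), ((σ y v : V) : A) = ρ y * v := fun _ _ => rfl
  refine FrobCompl.hasFree_of_module ℚ (QuotientGroup.lift _ σ fun y hy => ?_) fun g hg v hv => ?_
  · refine AddMonoidHom.ext fun v => Subtype.ext ?_
    change ((σ y v : V) : A) = v
    rw [hσ, ← (hV _).1 v.2, ← mul_assoc, mem_fx.1 (mem_subgroupOf.1 hy)]
  · obtain ⟨y, rfl⟩ := QuotientGroup.mk_surjective g
    have hv' : ρ y * v = v := (hσ y v).symm.trans (congrArg Subtype.val hv)
    have hy : (ρ y - 1) * f ≠ 0 := fun e => hg ((QuotientGroup.eq_one_iff _).2 (mem_subgroupOf.2 (mem_fx.2 (by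
      rwa [sub_mul, one_mul, sub_eq_zero] at e))))
    obtain ⟨w, hw⟩ := h.two.lf f _ ff f1 (by rw [mul_assoc, ff]) hy
    refine Subtype.ext ?_
    change (v : A) = 0
    rw [← (hV _).1 v.2, ← hw, mul_assoc, mul_assoc, (hV _).1 v.2, sub_mul, hv', one_mul, sub_self, mul_zero]

theorem Rp.free_sub (h : Rp ρ) {f : A} (ff : f * f = f) (f0 : f ≠ 0) (f1 : f ≠ 1) {Y : Subgroup G}
    (hY : ∀ y ∈ Y, ρ y * f = f * ρ y) (hb : Y ⊓ fx ρ f = ⊥) : FrobCompl.HasFree ℂ Y := by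
  have := fx_normal hY
  refine (h.free ff f0 f1 hY).of_injective (QuotientGroup.mk' _) ((injective_iff_map_eq_one _).2 fun y hy => ?_)
  have : (y : G) ∈ Y ⊓ fx ρ f := ⟨y.2, mem_subgroupOf.1 ((QuotientGroup.eq_one_iff _).1 hy)⟩
  rw [hb] at this
  exact Subtype.ext (mem_bot.1 this)

/-- If no non-trivial element of `Y` has a fixed vector, `Y` is a Frobenius complement. -/
theorem Rp.free_or (h : Rp ρ) (Y : Subgroup G) : FrobCompl.HasFree ℂ Y ∨
    ∃ y ∈ Y, y ≠ 1 ∧ ∃ f : A, f * f = f ∧ f ≠ 0 ∧ ρ y * f = f := by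
  by_contra hn
  push Not at hn
  have : Nontrivial A := ⟨⟨1, 0, h.two.nt⟩⟩
  refine hn.1 (FrobCompl.hasFree_of_module ℚ (V := A)
    { toFun := fun y : Y => AddMonoidHom.mulLeft (ρ y)
      map_one' := AddMonoidHom.ext fun v => by change ρ (1 : Y) * v = v; simp
      map_mul' := fun a b => AddMonoidHom.ext fun v => by
        change ρ (a * b : Y) * v = ρ a * (ρ b * v); simp [mul_assoc] } fun g hg v hv => ?_)
  have hv : ρ g * v = v := hv
  obtain ⟨e, ee, hl, hf, -⟩ := h.av (zpowers (g : G))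
  have ev : e * v = v := hf v fun x hx => (zpowers_le.2 (mem_fx.2 hv) : _ ≤ fx ρ v) hx
  by_contra v0
  exact hn.2 g g.2 (fun e => hg (Subtype.ext e)) e ee (fun e0 => v0 (by rw [← ev, e0, zero_mul]))
    (hl _ (mem_zpowers _)).1

end CfsgLib.GL2D
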