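import Mathlib
import Cfsg.Prelude.Def_CaseTheorems

/-! # Finite subgroups of `GL₂(D)`: the data.  See `plans/GL2D.md`. -/

set_option autoImplicit false

namespace CfsgLib.GL2D
open Subgroup

/-- A non-zero ring in which every idempotent `f ≠ 1` generates a minimal (or zero) left and right ideal,
e.g. `M₂(D)`. -/
structure Two (A : Type*) [Ring A] : Prop where
  nt : (1 : A) ≠ 0
  lf : ∀ f x : A, f * f = f → f ≠ 1 → x * f = x → x ≠ 0 → ∃ w, w * x = f
  rt : ∀ f x : A, f * f = f → f ≠ 1 → f * x = x → x ≠ 0 → ∃ w, x * w = f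

section
variable {G : Type*} [Group G] {A : Type*} [Ring A]

/-- A faithful representation in a ring of "rank two". -/
structure Rp (ρ : G →* A) : Prop where
  inj : Function.Injective ρ
  two : Two A

/-- No proper idempotent commutes with the image. -/
def Irr (ρ : G →* A) : Prop := ∀ f : A, f * f = f → (∀ g, ρ g * f = f * ρ g) → f = 0 ∨ f = 1

/-- The elements acting trivially on `f A`. -/
def fx (ρ : G →* A) (f : A) : Subgroup G where
  carrier := {g | ρ g * f = f}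
  one_mem' := by simp
  mul_mem' := fun {a b} ha hb => by
    simp only [Set.mem_ofPred_eq] at *
    rw [map_mul, mul_assoc, hb, ha]
  inv_mem' := fun {a} ha => by
    simp only [Set.mem_ofPred_eq] at *
    calc ρ a⁻¹ * f = ρ a⁻¹ * (ρ a * f) := by rw [ha]
      _ = f := by rw [← mul_assoc, ← map_mul, inv_mul_cancel, map_one, one_mul]

theorem mem_fx {ρ : G →* A} {f : A} {g : G} : g ∈ fx ρ f ↔ ρ g * f = f := Iff.rfl

theorem Rp.comp {ρ : G →* A} (h : Rp ρ) {H : Type*} [Group H] (φ : H →* G) (hφ : Function.Injective φ) :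
    Rp (ρ.comp φ) := ⟨h.inj.comp hφ, h.two⟩

theorem Irr.comp {ρ : G →* A} (h : Irr ρ) {H : Type*} [Group H] (φ : H →* G) (hφ : Function.Surjective φ) :
    Irr (ρ.comp φ) := fun f ff hf => h f ff fun g => by
  obtain ⟨x, rfl⟩ := hφ g
  exact hf x

/-- The sum of `τ` over a subset of a finite group. -/
noncomputable def sm [Finite G] (τ : G → ℚ) (X : Set G) : ℚ := ∑ g ∈ (Set.toFinite X).toFinset, τ g

omit [Group G] in
theorem sm_eq [Finite G] (τ : G → ℚ) {X : Set G} {s : Finset G} (h : ∀ g, g ∈ s ↔ g ∈ X) :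
    sm τ X = ∑ g ∈ s, τ g := by
  unfold sm
  congr 1
  ext g
  simp [h]

/-- The normalised trace of an irreducible `Rp`. -/
structure Tr [Finite G] (τ : G → ℚ) : Prop where
  one : τ 1 = 2
  cj : ∀ g x, τ (g * x * g⁻¹) = τ x
  inv : ∀ g, τ g⁻¹ = τ g
  sub : ∀ L : Subgroup G, L ≠ ⊥ → sm τ L = 0 ∨ sm τ L = Nat.card L
  neg : ∀ z, z * z = 1 → z ≠ 1 → (∀ g, g * z = z * g) → ∀ g, τ (z * g) = -τ g
  norm : ∀ (u y : G) (p a m : ℕ), p.Prime → orderOf u = p → y * u * y⁻¹ = u ^ a →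
    (∀ i < m, ∀ j < m, a ^ i ≡ a ^ j [MOD p] → i = j) →
    (((p - 1) * m : ℕ) : ℚ) * sm (fun g => τ g ^ 2) Set.univ ≤ 4 * Nat.card G

/-- `N` has no proper supplement. -/
def Fr (N : Subgroup G) : Prop := ∀ M : Subgroup G, M ⊔ N = ⊤ → M = ⊤

/-- The conclusion for the simple quotient. -/
def Concl (K : Type*) [Group K] : Prop :=
  ∃ (F : Type) (_ : Field F) (_ : Fintype F), (Fintype.card F = 5 ∨ Fintype.card F = 9) ∧
    Nonempty (K ≃* Matrix.ProjectiveSpecialLinearGroup (Fin 2) F)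

/-- The reduced situation: `G ⧸ N` is non-abelian simple and `N` has no proper supplement. -/
structure Red (N : Subgroup G) [N.Normal] : Prop where
  simp : IsSimpleGroup (G ⧸ N)
  na : ¬ IsMulCommutative (G ⧸ N)
  fr : Fr N

/-- A reflection: an involution other than `z`. -/
def Rf (z r : G) : Prop := r * r = 1 ∧ r ≠ 1 ∧ r ≠ z

/-- `x` normalises `⟨t, z⟩`. -/
def Nm (z t x : G) : Prop := x * t * x⁻¹ = t ∨ x * t * x⁻¹ = z * t

/-- `z = -1`; `B r` = elements fixing the `+1`-eigenspace of the reflection `r`. -/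
structure RG (z : G) (B : G → Subgroup G) : Prop where
  zz : z * z = 1
  z1 : z ≠ 1
  zc : ∀ g, g * z = z * g
  self : ∀ {r}, Rf z r → r ∈ B r
  le : ∀ {r b}, Rf z r → b ∈ B r → b * r = r * b
  cj : ∀ {r b} (g : G), Rf z r → b ∈ B r → g * b * g⁻¹ ∈ B (g * r * g⁻¹)
  dis : ∀ {r b}, Rf z r → b ∈ B r → b ∈ B (z * r) → b = 1
  uniq : ∀ {r x}, Rf z r → x * r = r * x → x * x ∈ B r → x ∈ B r ∨ z * x ∈ B r
  cyc : ∀ {r : G} {p : ℕ} {P : Subgroup G}, Rf z r → p.Prime → p ≠ 2 → P ≤ centralizer {r} → IsPGroup p P →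
    P ⊓ B r = ⊥ → IsCyclic P
  int1 : ∀ {r s y b c}, Rf z r → Rf z s → s * r = z * (r * s) → y * r = r * y → y * s = s * y →
    b ∈ B r → y * b⁻¹ ∈ B (z * r) → c ∈ B s → y * c⁻¹ ∈ B (z * s) → (orderOf y).Prime → orderOf y = 2
  int2 : ∀ {r s y b c}, Rf z r → Rf z s → (r * s) ^ 4 = z → y * r = r * y → y * s = s * y → y * y = z →
    b ∈ B r → y * b⁻¹ ∈ B (z * r) → c ∈ B s → y * c⁻¹ ∈ B (z * s) → False

/-- `G` is quasisimple with centre a `2`-group containing no reflection. -/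
structure Top (z : G) (B : G → Subgroup G) : Prop extends RG z B where
  perf : _root_.commutator G = ⊤
  simp : IsSimpleGroup (G ⧸ center G)
  cen2 : IsPGroup 2 (center G)
  nc : ∀ {r}, Rf z r → r ∉ center G

/-- The local setting: `S` normalises `⟨t, z⟩`, and `s ∈ S` swaps `t` and `z t`. -/
structure LS (z : G) (B : G → Subgroup G) (S : Sylow 2 G) (t s : G) : Prop extends Top z B where
  tS : t ∈ (S : Subgroup G)
  sS : s ∈ (S : Subgroup G)
  rt : Rf z t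
  rs : Rf z s
  st : s * t = z * (t * s)
  nm : ∀ x ∈ (S : Subgroup G), Nm z t x
  fus : ∀ {r}, Rf z r → ∃ g, g * t * g⁻¹ = r
  two : ∀ {r}, Rf z r → IsPGroup 2 (B r)

/-- `R = C_S(t)`. -/
def RR (S : Sylow 2 G) (t : G) : Subgroup G := (S : Subgroup G) ⊓ centralizer {t}

/-- `P = C_S(t, s)`. -/
def PP (S : Sylow 2 G) (t s : G) : Subgroup G := RR S t ⊓ centralizer {s}

theorem mem_RR {S : Sylow 2 G} {t x : G} : x ∈ RR S t ↔ x ∈ (S : Subgroup G) ∧ x * t = t * x := by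
  simp [RR, mem_centralizer_iff, eq_comm]

theorem mem_PP {S : Sylow 2 G} {t s x : G} :
    x ∈ PP S t s ↔ x ∈ (S : Subgroup G) ∧ x * t = t * x ∧ x * s = s * x := by
  simp [PP, mem_RR, mem_centralizer_iff, eq_comm, and_assoc]

/-- Output of the case `|B t| ≥ 4`: the subgroup `W = P ⟨t, s⟩`. -/
structure BigW (z : G) (S : Sylow 2 G) (t s : G) (W : Subgroup G) : Prop where
  mem : ∀ x, x ∈ W ↔ x ∈ PP S t s ∨ x * t ∈ PP S t s ∨ s * x ∈ PP S t s ∨ s * x * t ∈ PP S t s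
  sq : ∀ x ∈ PP S t s, x = 1 ∨ x = z ∨ x * x = z
  rf : ∀ r ∈ (S : Subgroup G), Rf z r → r ∈ W
  com : ∀ u ∈ (S : Subgroup G), ∀ v ∈ (S : Subgroup G), u * v * u⁻¹ * v⁻¹ ∈ W
  p8 : Nat.card (PP S t s) ≤ 8
  rp : Nat.card (RR S t) ≤ Nat.card (PP S t s) ^ 2

/-- The case `B t = Q₈`, `S = Q₈ ≀ 2`. -/
structure Q8c (z : G) (B : G → Subgroup G) (S : Sylow 2 G) (t s i j : G) : Prop where
  iB : i ∈ B t
  jB : j ∈ B t
  ii : i * i = t
  jj : j * j = t
  ji : j * i = t * (i * j)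
  all : ∀ b ∈ B t, ∃ c, (c = 1 ∨ c = i ∨ c = j ∨ c = i * j) ∧ (b = c ∨ b = t * c)
  dec : ∀ x ∈ RR S t, ∃ b ∈ B t, ∃ c ∈ B (z * t), x = b * c
  diag : ∀ x, x ∈ PP S t s ↔ ∃ b ∈ B t, x = b * (s * b * s)

/-- Output of the case `|B t| = 2`: an `s`-invariant complement `D` of `⟨t⟩` in `R`. -/
structure SmD (z : G) (S : Sylow 2 G) (t s : G) (D : Subgroup G) : Prop where
  le : D ≤ RR S t
  tD : t ∉ D
  zD : z ∈ D
  cov : ∀ x ∈ RR S t, x ∈ D ∨ x * t ∈ D
  sD : ∀ x ∈ D, s * x * s ∈ D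

/-- Generators of a generalised quaternion subgroup. -/
structure QG (D : Subgroup G) (z c j : G) : Prop where
  cD : c ∈ D
  jD : j ∈ D
  all : ∀ x ∈ D, ∃ n : ℤ, x = c ^ n ∨ x = c ^ n * j
  jj : j * j = z
  jc : j * c * j⁻¹ = c⁻¹
  zc : z ∈ zpowers c
  jn : j ∉ zpowers c
  cc : c * c ≠ 1

end

end CfsgLib.GL2D
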