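import Cfsg.Agent.Lib.GL2D.Defs
import Cfsg.Agent.Lib.Tech.SylowIn

/-! FR: no Frobenius subgroup `p : r` with `r` odd.  See `plans/GL2D.md`. -/

set_option autoImplicit false

namespace CfsgLib.GL2D
open Subgroup

variable {G : Type*} [Group G] [Finite G] {τ : G → ℚ}

private theorem fr_mem {x a : G} (hx : (orderOf x).Prime) (ha : a ∈ zpowers x) (h1 : a ≠ 1) :
    x ∈ zpowers a := by
  have hle : zpowers a ≤ zpowers x := zpowers_le.2 ha
  have hd : Nat.card (zpowers a) ∣ Nat.card (zpowers x) := card_dvd_of_le hle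
  rw [Nat.card_zpowers, Nat.card_zpowers] at hd
  rcases (Nat.dvd_prime hx).1 hd with h | h
  · exact absurd (orderOf_eq_one_iff.1 h) h1
  · have : zpowers a = zpowers x := eq_of_le_of_card_ge hle (by rw [Nat.card_zpowers, Nat.card_zpowers, h])
    rw [this]; exact mem_zpowers x

theorem Tr.no_frob (h : Tr τ) {u y : G} (hu : (orderOf u).Prime) (hy : (orderOf y).Prime) (h2 : orderOf y ≠ 2)
    (hn : y * u * y⁻¹ ∈ zpowers u) : y * u = u * y := by
  classical
  by_contra hc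
  have K1 : ∀ b ∈ zpowers y, b ≠ 1 → ∀ a ∈ zpowers u, b * a = a * b → a = 1 := by
    intro b hb b1 a ha e
    by_contra a1
    obtain ⟨m, hm⟩ := mem_zpowers_iff.1 (fr_mem hy hb b1)
    obtain ⟨k, hk⟩ := mem_zpowers_iff.1 (fr_mem hu ha a1)
    apply hc
    rw [← hm, ← hk]
    exact (Commute.zpow_zpow (show Commute b a from e) m k).eq
  have hyN : y ∈ normalizer (zpowers u : Set G) := by
    apply Tech.mem_normalizer_of_forall
    intro x hx
    obtain ⟨k, rfl⟩ := mem_zpowers_iff.1 hx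
    rw [← conj_zpow]
    exact zpow_mem hn k
  have hYN : zpowers y ≤ normalizer (zpowers u : Set G) := zpowers_le.2 hyN
  have K2 : ∀ b ∈ zpowers y, b ≠ 1 → ∀ a ∈ zpowers u, τ (a * b) = τ b := by
    intro b hb b1 a ha
    let φ : zpowers u → zpowers u := fun x =>
      ⟨x * (b * (x : G)⁻¹ * b⁻¹), mul_mem x.2 (Tech.conj_mem_of_mem_normalizer (hYN hb) (inv_mem x.2))⟩
    have inj : Function.Injective φ := by
      intro x x' e
      have e' : (x : G) * (b * (x : G)⁻¹ * b⁻¹) = x' * (b * (x' : G)⁻¹ * b⁻¹) := congrArg Subtype.val e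
      have := K1 b hb b1 ((x' : G)⁻¹ * x) (mul_mem (inv_mem x'.2) x.2) (by
        calc b * ((x' : G)⁻¹ * x) = (x' : G)⁻¹ * (x' * (b * (x' : G)⁻¹ * b⁻¹)) * b * x := by group
          _ = (x' : G)⁻¹ * (x * (b * (x : G)⁻¹ * b⁻¹)) * b * x := by rw [e']
          _ = (x' : G)⁻¹ * x * b := by group)
      exact Subtype.ext (inv_mul_eq_one.1 this).symm
    obtain ⟨x, hx⟩ := Finite.injective_iff_surjective.1 inj ⟨a, ha⟩
    have e' : (x : G) * (b * (x : G)⁻¹ * b⁻¹) = a := congrArg Subtype.val hx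
    rw [← e', ← h.cj x b]
    congr 1
    group
  set sU := (Set.toFinite (zpowers u : Set G)).toFinset with hsU
  set sY := (Set.toFinite (zpowers y : Set G)).toFinset with hsY
  have mU : ∀ g, g ∈ sU ↔ g ∈ zpowers u := fun g => by simp [hsU]
  have mY : ∀ g, g ∈ sY ↔ g ∈ zpowers y := fun g => by simp [hsY]
  have cU : sU.card = orderOf u := by
    rw [← Nat.card_zpowers, hsU, ← Set.ncard_eq_toFinset_card, ← Nat.card_coe_set_eq]; rfl
  have cY : sY.card = orderOf y := by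
    rw [← Nat.card_zpowers, hsY, ← Set.ncard_eq_toFinset_card, ← Nat.card_coe_set_eq]; rfl
  have inj : Set.InjOn (fun p : G × G => p.1 * p.2) (sU ×ˢ sY : Finset (G × G)) := by
    rintro ⟨a, b⟩ hp ⟨a', b'⟩ hq e
    simp only [Finset.coe_product, Set.mem_prod, Finset.mem_coe, mU, mY] at hp hq e
    have e1 : a'⁻¹ * a = b' * b⁻¹ := by
      calc a'⁻¹ * a = a'⁻¹ * (a * b) * b⁻¹ := by group
        _ = b' * b⁻¹ := by rw [e]; group
    have hbb : b' * b⁻¹ = 1 := by
      by_contra hne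
      have := K1 _ (mul_mem hq.2 (inv_mem hp.2)) hne _ (mul_mem (inv_mem hq.1) hp.1) (by rw [e1])
      exact hne (e1 ▸ this)
    have h1 : b' = b := mul_inv_eq_one.1 hbb
    have h3 : a' = a := inv_mul_eq_one.1 (e1.trans hbb)
    rw [h1, h3]
  set L := zpowers u ⊔ zpowers y with hL
  have mL : ∀ g, g ∈ (sU ×ˢ sY).image (fun p : G × G => p.1 * p.2) ↔ g ∈ (L : Set G) := by
    intro g
    rw [hL, coe_mul_of_right_le_normalizer_left _ _ hYN, Set.mem_mul]
    simp only [Finset.mem_image, Finset.mem_product, mU, mY, Prod.exists, SetLike.mem_coe]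
    constructor
    · rintro ⟨a, b, ⟨ha, hb⟩, e⟩; exact ⟨a, ha, b, hb, e⟩
    · rintro ⟨a, ha, b, hb, e⟩; exact ⟨a, b, ⟨ha, hb⟩, e⟩
  have cL : Nat.card L = orderOf u * orderOf y := by
    have : (L : Set G) = ((sU ×ˢ sY).image (fun p : G × G => p.1 * p.2) : Finset G) := by
      ext g; rw [Finset.mem_coe, mL]
    rw [← cU, ← cY, ← Finset.card_product, ← Finset.card_image_of_injOn inj, ← Set.ncard_coe_finset, ← this,
      ← Nat.card_coe_set_eq]; rfl
  have oY : (1 : G) ∈ sY := (mY 1).2 (one_mem _)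
  have sL : sm τ L = sm τ (zpowers u) + orderOf u * (sm τ (zpowers y) - 2) := by
    rw [sm_eq τ mL, Finset.sum_image inj, Finset.sum_product_right, ← Finset.add_sum_erase _ _ oY]
    have e1 : sm τ (zpowers y) = 2 + ∑ b ∈ sY.erase 1, τ b := by
      rw [sm_eq τ mY, ← Finset.add_sum_erase _ _ oY, h.one]
    rw [e1, sm_eq τ mU, add_sub_cancel_left, Finset.mul_sum]
    simp only [mul_one]
    congr 1
    refine Finset.sum_congr rfl fun b hb => ?_
    rw [Finset.mem_erase, mY] at hb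
    rw [Finset.sum_congr rfl fun a ha => K2 b hb.2 hb.1 a ((mU a).1 ha), Finset.sum_const, cU, nsmul_eq_mul]
  have u1 : zpowers u ≠ ⊥ := by
    rw [Ne, zpowers_eq_bot]; rintro rfl; simp [Nat.not_prime_one] at hu
  have y1 : zpowers y ≠ ⊥ := by
    rw [Ne, zpowers_eq_bot]; rintro rfl; simp [Nat.not_prime_one] at hy
  have L1 : L ≠ ⊥ := fun e => u1 (le_bot_iff.1 (e ▸ le_sup_left))
  have hU := h.sub _ u1
  have hY := h.sub _ y1
  have hLL := h.sub _ L1
  rw [Nat.card_zpowers] at hU hY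
  rw [cL, sL] at hLL
  have r3 : (3 : ℚ) ≤ orderOf y := by
    have := hy.two_le
    exact_mod_cast (by omega : 3 ≤ orderOf y)
  have p2 : (2 : ℚ) ≤ orderOf u := by exact_mod_cast hu.two_le
  rw [Nat.cast_mul] at hLL
  generalize (orderOf u : ℚ) = p at *
  generalize (orderOf y : ℚ) = r at *
  rcases hU with hU | hU <;> rcases hY with hY | hY <;> rw [hU, hY] at hLL <;> rcases hLL with e | e <;> nlinarith

/-- No `7 : 3` above a normal `2`-subgroup. -/
theorem Tr.no73 (h : Tr τ) {N : Subgroup G} [N.Normal] (hN : IsPGroup 2 N) {K : Type*} [Group K]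
    (e : (G ⧸ N) ≃* K) {u y : K} (hu : orderOf u = 7) (hy : orderOf y = 3) (hn : y * u * y⁻¹ = u ^ 2) : False := by
  have : Fact (Nat.Prime 7) := ⟨by norm_num⟩
  have : Fact (Nat.Prime 3) := ⟨by norm_num⟩
  let π : G →* K := e.toMonoidHom.comp (QuotientGroup.mk' N)
  have πs : Function.Surjective π := e.surjective.comp (QuotientGroup.mk'_surjective N)
  have πk : ∀ x, π x = 1 → ∃ a, x ^ 2 ^ a = 1 := by
    intro x hx
    have : x ∈ N := by
      rw [← QuotientGroup.eq_one_iff]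
      exact e.injective (by rw [map_one]; exact hx)
    exact Tech.isPGroup_iff_mem.1 hN x this
  -- lifting elements of order `7` and `3`
  have lift : ∀ (p m : ℕ) (x : G), (π x) ^ p = 1 → 2 * m ≡ 1 [MOD p] →
      ∃ k : ℕ, (x ^ k) ^ p = 1 ∧ π (x ^ k) = π x := by
    intro p m x hx hm
    obtain ⟨a, ha⟩ := πk (x ^ p) (by rw [map_pow, hx])
    refine ⟨(2 * m) ^ a, ?_, ?_⟩
    · rw [← pow_mul, mul_comm, pow_mul, mul_pow, pow_mul, ha, one_pow]
    · rw [map_pow]
      have h1 : (2 * m) ^ a ≡ 1 [MOD p] := by simpa using hm.pow a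
      have h2 : (2 * m) ^ a ≡ 1 [MOD orderOf (π x)] := h1.of_dvd (orderOf_dvd_of_pow_eq_one hx)
      rw [pow_eq_pow_iff_modEq.2 h2, pow_one]
  have u7 : u ^ 7 = 1 := hu ▸ pow_orderOf_eq_one u
  have y3 : y ^ 3 = 1 := hy ▸ pow_orderOf_eq_one y
  have u1 : u ≠ 1 := by rintro rfl; simp at hu
  obtain ⟨u0, hu0⟩ := πs u
  obtain ⟨k, hk7, hkπ⟩ := lift 7 4 u0 (by rw [hu0, u7]) (by decide)
  rw [hu0] at hkπ
  generalize u0 ^ k = u' at hk7 hkπ
  obtain ⟨y0, hy0⟩ := πs y
  set M := (zpowers u).comap π with hM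
  have u'M : zpowers u' ≤ M := zpowers_le.2 (by rw [hM, mem_comap, hkπ]; exact mem_zpowers u)
  obtain ⟨T, hT, uT⟩ := Tech.exists_isSylowIn_ge (p := 7)
    (Tech.isPGroup_zpowers_of_pow (k := 1) (by simpa using hk7)) u'M
  have Tu : ∀ x ∈ T, x ∈ zpowers u' := by
    intro x hx
    obtain ⟨i, hi⟩ := mem_zpowers_iff.1 (mem_comap.1 (hT.le hx))
    have hT' : x * (u' ^ i)⁻¹ ∈ T := mul_mem hx (inv_mem (uT (zpow_mem (mem_zpowers u') i)))
    obtain ⟨a, ha⟩ := πk (x * (u' ^ i)⁻¹) (by rw [map_mul, map_inv, map_zpow, hkπ, hi, mul_inv_cancel])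
    obtain ⟨b, hb⟩ := Tech.isPGroup_iff_mem.1 hT.pgroup _ hT'
    have h1 : orderOf (x * (u' ^ i)⁻¹) = 1 :=
      Nat.eq_one_of_dvd_coprimes (Nat.Coprime.pow a b (by norm_num : Nat.Coprime 2 7))
        (orderOf_dvd_of_pow_eq_one ha) (orderOf_dvd_of_pow_eq_one hb)
    rw [mul_inv_eq_one.1 (orderOf_eq_one_iff.1 h1)]
    exact zpow_mem (mem_zpowers u') i
  have cj : ∀ v ∈ zpowers u, y * v * y⁻¹ = v ^ 2 := by
    intro v hv
    obtain ⟨i, rfl⟩ := mem_zpowers_iff.1 hv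
    rw [← conj_zpow, hn, ← zpow_natCast, ← zpow_natCast, ← zpow_mul, ← zpow_mul, mul_comm]
  have y0N : y0 ∈ normalizer (M : Set G) := by
    apply Tech.mem_normalizer_of_forall
    intro x hx
    rw [hM, mem_comap] at hx ⊢
    rw [map_mul, map_mul, map_inv, hy0, cj _ hx]
    exact pow_mem hx 2
  obtain ⟨n, hnM, hn'⟩ := hT.frattini y0N
  have hv : π n ∈ zpowers u := mem_comap.1 hnM
  have v7 : (π n) ^ 7 = 1 := by
    obtain ⟨i, hi⟩ := mem_zpowers_iff.1 hv
    rw [← hi, ← zpow_natCast, ← zpow_mul, mul_comm, zpow_mul, zpow_natCast, u7, one_zpow]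
  have vy3 : (π (n * y0)) ^ 3 = 1 := by
    rw [map_mul, hy0]
    have e1 := cj _ hv
    have e2 := cj _ (pow_mem hv 2)
    generalize π n = v at *
    calc (v * y) ^ 3 = v * (y * v * y⁻¹) * (y * (y * v * y⁻¹) * y⁻¹) * y ^ 3 := by
          simp only [pow_succ, pow_zero]; group
      _ = 1 := by rw [e1, e2, y3, mul_one, ← v7]; group
  obtain ⟨l, hl3, hlπ⟩ := lift 3 2 (n * y0) vy3 (by decide)
  have y'N : (n * y0) ^ l ∈ normalizer (T : Set G) := pow_mem hn' l
  rw [map_mul π n, hy0] at hlπ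
  generalize (n * y0) ^ l = y' at hl3 hlπ y'N
  have nc : π n * y * u ≠ u * (π n * y) := by
    intro e1
    obtain ⟨i, hi⟩ := mem_zpowers_iff.1 hv
    have c1 : u * π n = π n * u := by rw [← hi]; exact (Commute.self_zpow u i).eq
    have e2 : y * u * y⁻¹ = u := by
      calc y * u * y⁻¹ = (π n)⁻¹ * (π n * y * u) * y⁻¹ := by group
        _ = (π n)⁻¹ * (u * π n) := by rw [e1]; group
        _ = u := by rw [c1]; group
    rw [hn, pow_two] at e2
    exact u1 (mul_eq_left.1 e2)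
  have ou : orderOf u' = 7 := orderOf_eq_prime hk7 (by rintro rfl; exact u1 (by rw [← hkπ, map_one]))
  have oy : orderOf y' = 3 := orderOf_eq_prime hl3 (by
    rintro rfl
    apply nc
    rw [← hlπ, map_one, one_mul, mul_one])
  have := h.no_frob (u := u') (y := y') (by rw [ou]; norm_num) (by rw [oy]; norm_num) (by rw [oy]; norm_num)
    (Tu _ (Tech.conj_mem_of_mem_normalizer y'N (uT (mem_zpowers u'))))
  apply nc
  rw [← hlπ, ← hkπ, ← map_mul, this, map_mul]

private theorem fr_alt {n : ℕ} (u y : Equiv.Perm (Fin n)) (u7 : u ^ 7 = 1) (u1 : u ≠ 1) (y3 : y ^ 3 = 1)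
    (y1 : y ≠ 1) (e : y * u = u ^ 2 * y) :
    ∃ u y : alternatingGroup (Fin n), orderOf u = 7 ∧ orderOf y = 3 ∧ y * u * y⁻¹ = u ^ 2 := by
  have : Fact (Nat.Prime 7) := ⟨by norm_num⟩
  have : Fact (Nat.Prime 3) := ⟨by norm_num⟩
  have sq : ∀ v : Equiv.Perm (Fin n), v * v ∈ alternatingGroup (Fin n) := fun v => by
    rw [Equiv.Perm.mem_alternatingGroup, map_mul, Int.units_mul_self]
  have hu : u ∈ alternatingGroup (Fin n) := by
    have : u = u ^ 4 * u ^ 4 := by rw [← pow_add, show 4 + 4 = 7 + 1 from rfl, pow_succ, u7, one_mul]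
    rw [this]; exact sq _
  have hy : y ∈ alternatingGroup (Fin n) := by
    have : y = y ^ 2 * y ^ 2 := by rw [← pow_add, show 2 + 2 = 3 + 1 from rfl, pow_succ, y3, one_mul]
    rw [this]; exact sq _
  refine ⟨⟨u, hu⟩, ⟨y, hy⟩, orderOf_eq_prime (Subtype.ext u7) (fun h => u1 (congrArg Subtype.val h)),
    orderOf_eq_prime (Subtype.ext y3) (fun h => y1 (congrArg Subtype.val h)), Subtype.ext ?_⟩
  show y * u * y⁻¹ = u ^ 2
  rw [e, mul_inv_cancel_right]

theorem alt73 {n : ℕ} (h : n = 7 ∨ n = 8) :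
    ∃ u y : alternatingGroup (Fin n), orderOf u = 7 ∧ orderOf y = 3 ∧ y * u * y⁻¹ = u ^ 2 := by
  rcases h with rfl | rfl
  · exact fr_alt ⟨![1, 2, 3, 4, 5, 6, 0], ![6, 0, 1, 2, 3, 4, 5], by decide, by decide⟩
      ⟨![0, 2, 4, 6, 1, 3, 5], ![0, 4, 1, 5, 2, 6, 3], by decide, by decide⟩
      (by decide) (by decide) (by decide) (by decide) (by decide)
  · exact fr_alt ⟨![1, 2, 3, 4, 5, 6, 0, 7], ![6, 0, 1, 2, 3, 4, 5, 7], by decide, by decide⟩
      ⟨![0, 2, 4, 6, 1, 3, 5, 7], ![0, 4, 1, 5, 2, 6, 3, 7], by decide, by decide⟩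
      (by decide) (by decide) (by decide) (by decide) (by decide)

private theorem fr_sl : ∃ u y : Matrix.SpecialLinearGroup (Fin 3) (ZMod 2),
    u ^ 7 = 1 ∧ y ^ 3 = 1 ∧ y * u = u ^ 2 * y ∧ u 0 0 = 0 :=
  ⟨⟨!![0, 0, 1; 1, 0, 1; 0, 1, 0], by decide⟩, ⟨!![1, 0, 0; 0, 0, 1; 0, 1, 1], by decide⟩,
    by decide, by decide, by decide, by decide⟩

theorem psl73 {F : Type*} [Field F] [Fintype F] (h : Fintype.card F = 2) :
    ∃ u y : Matrix.ProjectiveSpecialLinearGroup (Fin 3) F, orderOf u = 7 ∧ orderOf y = 3 ∧ y * u * y⁻¹ = u ^ 2 := by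
  have : Fact (Nat.Prime 7) := ⟨by norm_num⟩
  have : Fact (Nat.Prime 3) := ⟨by norm_num⟩
  let f : ZMod 2 →+* F := (ZMod.ringEquivOfPrime F Nat.prime_two h).toRingHom
  obtain ⟨u, y, u7, y3, e, u0⟩ := fr_sl
  let m : Matrix.SpecialLinearGroup (Fin 3) (ZMod 2) →* Matrix.SpecialLinearGroup (Fin 3) F :=
    Matrix.SpecialLinearGroup.map f
  let π := (QuotientGroup.mk' (center (Matrix.SpecialLinearGroup (Fin 3) F))).comp m
  have mu : m u ≠ 1 := by
    intro e1
    have : (m u) 0 0 = (1 : Matrix.SpecialLinearGroup (Fin 3) F) 0 0 := by rw [e1]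
    have e2 : (m u) 0 0 = f (u 0 0) := rfl
    rw [e2, u0, map_zero] at this
    simp at this
  have e' : ∀ {K : Type _} [Group K] (φ : Matrix.SpecialLinearGroup (Fin 3) (ZMod 2) →* K),
      φ y * φ u = φ u * φ y → φ u = 1 := by
    intro K _ φ c
    have := congrArg φ e
    rw [map_mul, map_mul, map_pow, c, pow_two] at this
    exact mul_eq_left.1 (mul_right_cancel this).symm
  have πu : π u ≠ 1 := by
    intro e1
    have : m u ∈ center (Matrix.SpecialLinearGroup (Fin 3) F) := (QuotientGroup.eq_one_iff _).1 e1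
    exact mu (e' m (mem_center_iff.1 this _))
  have πy : π y ≠ 1 := fun e1 => πu (e' π (by rw [e1, one_mul, mul_one]))
  refine ⟨π u, π y, orderOf_eq_prime (by rw [← map_pow, u7, map_one]) πu,
    orderOf_eq_prime (by rw [← map_pow, y3, map_one]) πy, ?_⟩
  have := congrArg π e
  rw [map_mul, map_mul, map_pow] at this
  exact (congrArg (· * (π y)⁻¹) this).trans (mul_inv_cancel_right _ _)

end CfsgLib.GL2D
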