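import Cfsg.Agent.Lib.GL2D.Cor

/-! INT: the homology groups and the integrality of traces.  See `plans/GL2D.md`. -/

set_option autoImplicit false

namespace CfsgLib.GL2D
open Subgroup

variable {G : Type*} [Group G] [Finite G] {A : Type*} [Ring A] [Algebra ℚ A] {ρ : G →* A}

/-- The projection on the `+1`-eigenspace of `r`. -/
noncomputable def intF (ρ : G →* A) (r : G) : A := (1 / 2 : ℚ) • (1 + ρ r)

omit [Finite G] in
theorem intF_two (r : G) : ρ r = intF ρ r + intF ρ r - 1 := by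
  rw [intF, ← add_smul]; norm_num

omit [Finite G] in
theorem intF_comm {r x : G} (h : x * r = r * x) : ρ x * intF ρ r = intF ρ r * ρ x := by
  rw [intF, mul_smul_comm, smul_mul_assoc, mul_add, add_mul, ← map_mul, ← map_mul, h, mul_one, one_mul]

omit [Finite G] in
theorem intF_self {r : G} (h : r * r = 1) : ρ r * intF ρ r = intF ρ r := by
  rw [intF, mul_smul_comm, mul_add, ← map_mul, h, map_one, mul_one, add_comm]

omit [Finite G] in
theorem intF_idem {r : G} (h : r * r = 1) : intF ρ r * intF ρ r = intF ρ r := by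
  have e : (1 + ρ r) * intF ρ r = intF ρ r + intF ρ r := by rw [add_mul, one_mul, intF_self h]
  conv_lhs => enter [1]; rw [intF]
  rw [smul_mul_assoc, e, ← two_smul ℚ, smul_smul]; norm_num

omit [Finite G] in
theorem intF_neg {z : G} (hz : ρ z = -1) (r : G) : intF ρ (z * r) = 1 - intF ρ r := by
  rw [eq_sub_iff_add_eq, intF, intF, ← smul_add, map_mul, hz]
  have : (1 : A) + -1 * ρ r + (1 + ρ r) = (2 : ℚ) • 1 := by rw [two_smul]; noncomm_ring
  rw [this, smul_smul]; norm_num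

omit [Finite G] in
theorem intF_cj (g r : G) : intF ρ (g * r * g⁻¹) = ρ g * intF ρ r * ρ g⁻¹ := by
  rw [intF, intF, mul_smul_comm, smul_mul_assoc, mul_add, add_mul, mul_one, ← map_mul ρ g g⁻¹, mul_inv_cancel,
    map_one, map_mul, map_mul]

omit [Finite G] in
theorem Rp.intF_ne_one (h : Rp ρ) {r : G} (h1 : r ≠ 1) : intF ρ r ≠ 1 := fun e =>
  h1 (h.inj (by rw [intF_two, e, map_one]; noncomm_ring))

omit [Finite G] in
theorem Rp.intF_ne_zero (h : Rp ρ) {z r : G} (hz : ρ z = -1) (h1 : r ≠ z) : intF ρ r ≠ 0 := fun e =>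
  h1 (h.inj (by rw [intF_two r, e, hz]; noncomm_ring))

theorem Rp.int_le (h : Rp ρ) {r b : G} (hr : r * r = 1) (h1 : r ≠ 1) (hb : b ∈ fx ρ (intF ρ r)) :
    b * r = r * b := by
  obtain ⟨e, -, he, hf, -⟩ := h.av (fx ρ (intF ρ r))
  have h2 := hf (intF ρ r) fun g hg => hg
  have h3 := (he r (intF_self hr)).2
  have h4 : e * intF ρ r = e := by
    rw [intF, mul_smul_comm, mul_add, mul_one, h3, ← two_smul ℚ, smul_smul]; norm_num
  have h5 : e = intF ρ r := h4.symm.trans h2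
  have h6 := he b hb
  rw [h5] at h6
  apply h.inj
  rw [map_mul, map_mul, intF_two r]
  have e1 : ρ b * (intF ρ r + intF ρ r - 1) = ρ b * intF ρ r + ρ b * intF ρ r - ρ b := by noncomm_ring
  have e2 : (intF ρ r + intF ρ r - 1) * ρ b = intF ρ r * ρ b + intF ρ r * ρ b - ρ b := by noncomm_ring
  rw [e1, e2, h6.1, h6.2]

/-- The ring generated by the image. -/
noncomputable def intM (ρ : G →* A) : Subalgebra ℤ A := Algebra.adjoin ℤ (Set.range ρ)

omit [Finite G] [Algebra ℚ A] in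
theorem mem_intM (g : G) : ρ g ∈ intM ρ := Algebra.subset_adjoin ⟨g, rfl⟩

omit [Algebra ℚ A] in
theorem intM_int {x : A} (hx : x ∈ intM ρ) : IsIntegral ℤ x := by
  refine IsIntegral.of_mem_of_fg (intM ρ) ?_ x hx
  rw [intM, Algebra.adjoin_eq_span]
  have : (Submonoid.closure (Set.range ρ) : Set A) = Set.range ρ := by
    rw [← MonoidHom.coe_mrange, Submonoid.closure_eq]
  rw [this]
  exact Submodule.fg_span (Set.finite_range ρ)

theorem int_rat {q : ℚ} {ε : A} (he : ε * ε = ε) (h0 : ε ≠ 0) (hx : q • ε ∈ intM ρ) : ∃ n : ℤ, (n : ℚ) = q := by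
  obtain ⟨P, hP, hP0⟩ := intM_int hx
  have key : ∀ Q : Polynomial ℤ, Polynomial.aeval (q • ε) Q * ε = (Polynomial.aeval q Q) • ε := by
    intro Q
    induction Q using Polynomial.induction_on' with
    | add p r hp hr => rw [map_add, map_add, add_mul, add_smul, hp, hr]
    | monomial n a =>
      have : ∀ n : ℕ, (q • ε) ^ n * ε = q ^ n • ε := by
        intro n
        induction n with
        | zero => simp
        | succ n ih => rw [pow_succ', mul_assoc, ih, smul_mul_assoc, mul_smul_comm, he, smul_smul, pow_succ']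
      rw [Polynomial.aeval_monomial, Polynomial.aeval_monomial, mul_assoc, this, mul_smul]
      rw [← Algebra.smul_def, algebraMap_smul]
  have h1 := key P
  rw [Polynomial.aeval_def, hP0, zero_mul] at h1
  have h2 : Polynomial.aeval q P = 0 := by
    by_contra hne
    apply h0
    calc ε = (Polynomial.aeval q P)⁻¹ • (Polynomial.aeval q P • ε) := by rw [smul_smul, inv_mul_cancel₀ hne, one_smul]
      _ = 0 := by rw [← h1, smul_zero]
  have hi : IsIntegral ℤ q := ⟨P, hP, by rw [← Polynomial.aeval_def]; exact h2⟩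
  obtain ⟨n, hn⟩ := IsIntegrallyClosed.isIntegral_iff.1 hi
  exact ⟨n, by simpa using hn⟩

theorem Rp.int_dec (h : Rp ρ) {z r y b : G} (hz : ρ z = -1) (hr : r * r = 1) (h1 : r ≠ 1)
    (hb : b ∈ fx ρ (intF ρ r)) (hb' : y * b⁻¹ ∈ fx ρ (intF ρ (z * r))) :
    ρ b = 1 + (ρ y - 1) * (1 - intF ρ r) ∧ ρ (y * b⁻¹) = 1 + (ρ y - 1) * intF ρ r := by
  have hc := intF_comm (ρ := ρ) (h.int_le hr h1 hb)
  have hi : ρ b⁻¹ * intF ρ r = intF ρ r := (fx ρ (intF ρ r)).inv_mem hb
  rw [mem_fx, intF_neg hz] at hb'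
  rw [mem_fx] at hb
  have e0 : ρ y = ρ (y * b⁻¹) * ρ b := by rw [← map_mul, inv_mul_cancel_right]
  have e1 : ρ y * (1 - intF ρ r) = ρ b * (1 - intF ρ r) := by
    have : ρ b * (1 - intF ρ r) = (1 - intF ρ r) * ρ b := by rw [mul_sub, sub_mul, hc, mul_one, one_mul]
    rw [e0, mul_assoc, this, ← mul_assoc, hb']
  have e2 : ρ (y * b⁻¹) * intF ρ r = ρ y * intF ρ r := by rw [map_mul, mul_assoc, hi]
  constructor
  · calc ρ b = ρ b * intF ρ r + ρ b * (1 - intF ρ r) := by noncomm_ring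
      _ = _ := by rw [hb, ← e1]; noncomm_ring
  · calc ρ (y * b⁻¹) = ρ (y * b⁻¹) * intF ρ r + ρ (y * b⁻¹) * (1 - intF ρ r) := by noncomm_ring
      _ = _ := by rw [hb', e2]; noncomm_ring

theorem Rp.int_key (h : Rp ρ) {z r s y b c : G} (hz : ρ z = -1) (hr : Rf z r) (hs : Rf z s)
    (yr : y * r = r * y) (ys : y * s = s * y)
    (hb : b ∈ fx ρ (intF ρ r)) (hb' : y * b⁻¹ ∈ fx ρ (intF ρ (z * r)))
    (hc : c ∈ fx ρ (intF ρ s)) (hc' : y * c⁻¹ ∈ fx ρ (intF ρ (z * s))) :
    (1 / 4 : ℚ) • ((ρ y - 1) * (ρ y - 1) * (2 + ρ r * ρ s + ρ s * ρ r)) ∈ intM ρ := by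
  obtain ⟨b1, b2⟩ := h.int_dec hz hr.1 hr.2.1 hb hb'
  obtain ⟨c1, c2⟩ := h.int_dec hz hs.1 hs.2.1 hc hc'
  have cr := intF_comm (ρ := ρ) yr
  have cs := intF_comm (ρ := ρ) ys
  have hm : ρ b * ρ c + ρ (y * c⁻¹) * ρ (y * b⁻¹) - (2 + 2 * (ρ y - 1)) ∈ intM ρ := by
    refine sub_mem (add_mem (mul_mem (mem_intM _) (mem_intM _)) (mul_mem (mem_intM _) (mem_intM _))) ?_
    have h2 : (2 : A) ∈ intM ρ := by
      rw [← one_add_one_eq_two]; exact add_mem (one_mem _) (one_mem _)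
    exact add_mem h2 (mul_mem h2 (sub_mem (mem_intM _) (one_mem _)))
  rw [b1, b2, c1, c2] at hm
  rw [intF_two r, intF_two s]
  generalize intF ρ r = f at *
  generalize intF ρ s = g at *
  have ur : f * (ρ y - 1) = (ρ y - 1) * f := by rw [mul_sub, sub_mul, cr, mul_one, one_mul]
  have us : g * (ρ y - 1) = (ρ y - 1) * g := by rw [mul_sub, sub_mul, cs, mul_one, one_mul]
  generalize ρ y - 1 = u at *
  have e1 : (1 + u * (1 - f)) * (1 + u * (1 - g)) + (1 + u * g) * (1 + u * f) - (2 + 2 * u) =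
      u * u * (1 - g) - u * (f * u) * (1 - g) + u * (g * u) * f := by
    rw [← one_add_one_eq_two]; noncomm_ring
  have e2 : u * u * (2 + (f + f - 1) * (g + g - 1) + (g + g - 1) * (f + f - 1)) =
      (4 : ℚ) • (u * u * (1 - g) - u * (u * f) * (1 - g) + u * (u * g) * f) := by
    rw [show (4 : ℚ) = 1 + 1 + 1 + 1 by norm_num, add_smul, add_smul, add_smul, one_smul, ← one_add_one_eq_two]
    noncomm_ring
  rw [e1, ur, us] at hm
  rw [e2, smul_smul]
  norm_num
  exact hm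

theorem Rp.int_one (h : Rp ρ) {y : G} (hp : (orderOf y).Prime)
    (hm : (1 / 2 : ℚ) • ((ρ y - 1) * (ρ y - 1)) ∈ intM ρ) : orderOf y = 2 := by
  set p := orderOf y with hpd
  set n : A := ∑ i ∈ Finset.range p, ρ y ^ i with hn
  set v : A := ∑ i ∈ Finset.range p, ∑ j ∈ Finset.range i, ρ y ^ j with hv
  have hyp : ρ y ^ p = 1 := by rw [← map_pow, pow_orderOf_eq_one, map_one]
  have p0 : (p : ℚ) ≠ 0 := by exact_mod_cast hp.ne_zero
  have hvM : v ∈ intM ρ := sum_mem fun i _ => sum_mem fun j _ => pow_mem (mem_intM y) j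
  have e1 : (ρ y - 1) * v = n - (p : ℚ) • 1 := by
    rw [hv, Finset.mul_sum, hn]
    simp_rw [mul_geom_sum]
    rw [Finset.sum_sub_distrib, Finset.sum_const, Finset.card_range, Nat.cast_smul_eq_nsmul]
  have cv : v * (ρ y - 1) = (ρ y - 1) * v := by
    have : Commute v (ρ y) := Commute.sum_left _ _ _ fun i _ => Commute.sum_left _ _ _ fun j _ =>
      (Commute.refl (ρ y)).pow_left j
    exact (this.sub_right (Commute.one_right v)).eq
  have yn : ρ y * n = n := by
    have := mul_geom_sum (ρ y) p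
    rw [hyp, sub_self, sub_mul, one_mul, sub_eq_zero] at this
    exact this
  have nn : n * n = (p : ℚ) • n := by
    have : ∀ i : ℕ, ρ y ^ i * n = n := fun i => by
      induction i with
      | zero => simp
      | succ i ih => rw [pow_succ, mul_assoc, yn, ih]
    conv_lhs => enter [1]; rw [hn]
    rw [Finset.sum_mul]
    simp_rw [this]
    rw [Finset.sum_const, Finset.card_range, Nat.cast_smul_eq_nsmul]
  set ε : A := 1 - (p : ℚ)⁻¹ • n with hε
  have ee : ε * ε = ε := by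
    have : ((p : ℚ)⁻¹ • n) * ((p : ℚ)⁻¹ • n) = (p : ℚ)⁻¹ • n := by
      rw [smul_mul_assoc, mul_smul_comm, nn, smul_smul, smul_smul]
      congr 1; field_simp
    rw [hε, sub_mul, mul_sub, mul_sub, this]; noncomm_ring
  have e0 : ε ≠ 0 := fun e => by
    have e' : (p : ℚ)⁻¹ • n = 1 := (sub_eq_zero.1 e).symm
    have : ρ y = 1 := by
      calc ρ y = ρ y * ((p : ℚ)⁻¹ • n) := by rw [e', mul_one]
        _ = 1 := by rw [mul_smul_comm, yn, e']
    have y1 : y = 1 := h.inj (by rw [this, map_one])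
    rw [hpd, y1, orderOf_one] at hp
    exact Nat.not_prime_one hp
  have e2 : n - (p : ℚ) • 1 = (-(p : ℚ)) • ε := by
    rw [hε, smul_sub, smul_smul, neg_mul, mul_inv_cancel₀ p0, neg_smul, neg_smul, one_smul]; abel
  have hm' := mul_mem (mul_mem hm hvM) hvM
  have e3 : (1 / 2 : ℚ) • ((ρ y - 1) * (ρ y - 1)) * v * v = ((p : ℚ) * p / 2) • ε := by
    rw [smul_mul_assoc, smul_mul_assoc]
    have : (ρ y - 1) * (ρ y - 1) * v * v = ((ρ y - 1) * v) * ((ρ y - 1) * v) := by
      rw [mul_assoc (ρ y - 1) (ρ y - 1) v, mul_assoc (ρ y - 1) v, ← mul_assoc v, cv, mul_assoc (ρ y - 1)]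
    rw [this, e1, e2, smul_mul_assoc, mul_smul_comm, ee, smul_smul, smul_smul]
    congr 1; ring
  rw [e3] at hm'
  obtain ⟨k, hk⟩ := int_rat ee e0 hm'
  have hk' : (p : ℤ) * p = 2 * k := by
    have : ((p : ℤ) * p : ℚ) = 2 * k := by rw [hk]; push_cast; ring
    exact_mod_cast this
  have h2 : 2 ∣ p * p := by
    have : (2 : ℤ) ∣ ((p * p : ℕ) : ℤ) := ⟨k, by push_cast; exact hk'⟩
    exact_mod_cast this
  have h3 : 2 ∣ p := (Nat.prime_two.dvd_mul.1 h2).elim id id
  exact ((Nat.prime_dvd_prime_iff_eq Nat.prime_two hp).1 h3).symm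

theorem Rp.exists_rg (h : Rp ρ) {z : G} (hz : ρ z = -1) : ∃ B : G → Subgroup G, RG z B := by
  have half : ∀ x : A, (1 / 4 : ℚ) • (x * 2) = (1 / 2 : ℚ) • x := fun x => by
    rw [mul_two, ← two_smul ℚ, smul_smul]; norm_num
  refine ⟨fun r => fx ρ (intF ρ r), ?_, ?_, ?_, ?_, ?_, ?_, ?_, ?_, ?_, ?_, ?_⟩
  · exact h.inj (by rw [map_mul, hz, map_one]; noncomm_ring)
  · intro e
    rw [e, map_one] at hz
    apply h.two.nt
    have h2 : (2 : ℚ) • (1 : A) = 0 := by rw [two_smul]; nth_rewrite 1 [hz]; exact neg_add_cancel 1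
    calc (1 : A) = (1 / 2 : ℚ) • ((2 : ℚ) • (1 : A)) := by rw [smul_smul]; norm_num
      _ = 0 := by rw [h2, smul_zero]
  · intro g
    exact h.inj (by rw [map_mul, map_mul, hz]; noncomm_ring)
  · intro r hr
    exact intF_self hr.1
  · intro r b hr hb
    exact h.int_le hr.1 hr.2.1 hb
  · intro r b g _ hb
    rw [mem_fx] at hb ⊢
    rw [intF_cj, map_mul, map_mul]
    have : ρ g⁻¹ * ρ g = 1 := by rw [← map_mul, inv_mul_cancel, map_one]
    calc ρ g * ρ b * ρ g⁻¹ * (ρ g * intF ρ r * ρ g⁻¹) = ρ g * (ρ b * ((ρ g⁻¹ * ρ g) * intF ρ r)) * ρ g⁻¹ := by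
          simp only [mul_assoc]
      _ = _ := by rw [this, one_mul, hb]
  · intro r b _ hb hb'
    rw [intF_neg hz] at hb'
    have : b ∈ fx ρ (intF ρ r) ⊓ fx ρ (1 - intF ρ r) := ⟨hb, hb'⟩
    rwa [h.fx_inf, mem_bot] at this
  · intro r x hr hx hxx
    have ff := intF_idem (ρ := ρ) hr.1
    have cx := intF_comm (ρ := ρ) hx
    rw [mem_fx, map_mul] at hxx
    by_cases h0 : (ρ x - 1) * intF ρ r = 0
    · left
      rw [mem_fx, ← sub_eq_zero, ← h0]; noncomm_ring
    · right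
      obtain ⟨w, hw⟩ := h.two.lf (intF ρ r) _ ff (h.intF_ne_one hr.2.1) (by rw [mul_assoc, ff]) h0
      rw [mem_fx, map_mul, hz]
      generalize intF ρ r = f at *
      have e1 : f * ((ρ x + 1) * f) = ρ x * f + f := by
        rw [add_mul, one_mul, mul_add, ff, ← mul_assoc, ← cx, mul_assoc, ff]
      have e2 : (ρ x - 1) * f * ((ρ x + 1) * f) = 0 := by
        rw [mul_assoc, e1]
        have : (ρ x - 1) * (ρ x * f + f) = ρ x * ρ x * f - f := by noncomm_ring
        rw [this, hxx, sub_self]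
      have e3 : ρ x * f + f = 0 := by
        rw [← e1]; nth_rewrite 1 [← hw]; rw [mul_assoc, e2, mul_zero]
      rw [← sub_eq_zero, ← neg_eq_zero, ← e3]; noncomm_ring
  · intro r p P hr hp hp2 hP hPp hb
    haveI := Fact.mk hp
    refine (h.free_sub (intF_idem hr.1) (h.intF_ne_zero hz hr.2.2) (h.intF_ne_one hr.2.1)
      (fun y hy => intF_comm ?_) hb).pqCond.isCyclic_of_odd hPp hp2
    exact (mem_centralizer_iff.1 (hP hy) r rfl).symm
  · intro r s y b c hr hs hsr yr ys hb hb' hc hc' hp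
    have k := h.int_key hz hr hs yr ys hb hb' hc hc'
    have e : ρ s * ρ r = -(ρ r * ρ s) := by rw [← map_mul, hsr, map_mul, map_mul, hz]; noncomm_ring
    rw [e, add_neg_cancel_right, half] at k
    exact h.int_one hp k
  · intro r s y b c hr hs h4 yr ys yy hb hb' hc hc'
    have k := h.int_key hz hr hs yr ys hb hb' hc hc'
    have y2 : ρ y * ρ y = -1 := by rw [← map_mul, yy, hz]
    have rr : ρ r * ρ r = 1 := by rw [← map_mul, hr.1, map_one]
    have ss : ρ s * ρ s = 1 := by rw [← map_mul, hs.1, map_one]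
    have s4 : (ρ r * ρ s) ^ 4 = -1 := by rw [← map_mul, ← map_pow, h4, hz]
    set σ := ρ r * ρ s with hσ
    set τ := ρ s * ρ r with hτ
    have st : σ * τ = 1 := by rw [hσ, hτ, mul_assoc, ← mul_assoc (ρ s), ss, one_mul, rr]
    have ts : τ * σ = 1 := by rw [hσ, hτ, mul_assoc, ← mul_assoc (ρ r), rr, one_mul, ss]
    have t2 : τ * τ = -(σ * σ) := by
      have : τ * τ * σ ^ 4 = σ * σ := by
        calc τ * τ * σ ^ 4 = τ * (τ * σ) * σ * (σ * σ) := by noncomm_ring
          _ = _ := by rw [ts, mul_one, ts, one_mul]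
      rw [s4] at this
      rw [← this]; noncomm_ring
    have k2 := mul_mem (mem_intM (ρ := ρ) y) k
    have e1 : ρ y * ((ρ y - 1) * (ρ y - 1) * (2 + σ + τ)) = (2 + σ + τ) * 2 := by
      have : ρ y * ((ρ y - 1) * (ρ y - 1)) = 2 := by
        have : ρ y * ((ρ y - 1) * (ρ y - 1)) = ρ y * (ρ y * ρ y) - 2 * (ρ y * ρ y) + ρ y := by noncomm_ring
        rw [this, y2, ← one_add_one_eq_two]; noncomm_ring
      rw [← mul_assoc, this]; noncomm_ring
    rw [mul_smul_comm, e1, half] at k2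
    have k3 : (1 / 2 : ℚ) • (σ + τ) ∈ intM ρ := by
      have : (1 / 2 : ℚ) • (σ + τ) = (1 / 2 : ℚ) • (2 + σ + τ) - 1 := by
        rw [add_assoc, smul_add _ (2 : A), show (2 : A) = (2 : ℚ) • 1 by rw [two_smul, one_add_one_eq_two], smul_smul]
        norm_num
      rw [this]
      exact sub_mem k2 (one_mem _)
    have k4 := mul_mem k3 k3
    have e2 : (σ + τ) * (σ + τ) = (2 : ℚ) • 1 := by
      have : (σ + τ) * (σ + τ) = σ * σ + σ * τ + τ * σ + τ * τ := by noncomm_ring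
      rw [this, st, ts, t2, two_smul]; abel
    rw [smul_mul_assoc, mul_smul_comm, e2, smul_smul, smul_smul] at k4
    obtain ⟨n, hn⟩ := int_rat (mul_one (1 : A)) h.two.nt k4
    have : (2 * n : ℤ) = 1 := by
      have : (2 * n : ℚ) = 1 := by rw [hn]; norm_num
      exact_mod_cast this
    omega

end CfsgLib.GL2D
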