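import Cfsg.Agent.Lib.GL2D.Defs

/-! MAT: `M₂(D)` has rank two.  See `plans/GL2D.md`. -/

set_option autoImplicit false

namespace CfsgLib.GL2D
open Subgroup

open Matrix in
theorem mat_lf {D : Type*} [DivisionRing D] (f x : Matrix (Fin 2) (Fin 2) D) (ff : f * f = f) (f1 : f ≠ 1)
    (xf : x * f = x) (x0 : x ≠ 0) : ∃ w, w * x = f := by
  have le : LinearMap.range x.vecMulLinear ≤ LinearMap.range f.vecMulLinear := by
    rintro _ ⟨v, rfl⟩
    exact ⟨v ᵥ* x, by simp [xf]⟩
  have h1 := Submodule.finrank_lt (s := LinearMap.range f.vecMulLinear) fun e => f1 (Matrix.ext fun i j => by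
    obtain ⟨v, hv⟩ := LinearMap.range_eq_top.1 e (Pi.single i 1)
    replace hv : v ᵥ* f = Pi.single i 1 := hv
    have : Pi.single i 1 ᵥ* f = Pi.single i 1 := by rw [← hv, vecMul_vecMul, ff]
    simpa [one_apply, Pi.single_apply, eq_comm] using congrFun this j)
  have h2 : Module.finrank D (LinearMap.range x.vecMulLinear) ≠ 0 := fun e => x0 (Matrix.ext fun i j => by
    have := LinearMap.congr_fun (LinearMap.range_eq_bot.1 (Submodule.finrank_eq_zero.1 e)) (Pi.single i 1)
    simpa using congrFun this j)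
  rw [Module.finrank_fin_fun] at h1
  have e := Submodule.eq_of_le_of_finrank_le le (by omega)
  choose w hw using fun i => (e.ge ⟨Pi.single i 1, rfl⟩ : _ ∈ LinearMap.range x.vecMulLinear)
  exact ⟨of w, Matrix.ext fun i j => (congrFun (hw i) j).trans (by simp)⟩

theorem two_matrix (D : Type*) [DivisionRing D] : Two (Matrix (Fin 2) (Fin 2) D) := by
  refine ⟨one_ne_zero, mat_lf, fun f x ff f1 xf x0 => ?_⟩
  let e := RingEquiv.mopMatrix (m := Fin 2) (α := D)
  obtain ⟨w, hw⟩ := mat_lf (e.symm (.op f)) (e.symm (.op x)) (by rw [← map_mul, ← MulOpposite.op_mul, ff])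
    (by simpa using f1) (by rw [← map_mul, ← MulOpposite.op_mul, xf]) (by simpa using x0)
  refine ⟨(e w).unop, MulOpposite.op_injective ?_⟩
  simpa using congrArg e hw

end CfsgLib.GL2D
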