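import Cfsg.Agent.Lib.GL2D.Cor
import Cfsg.Agent.S0253

/-! RED1: the reducible case; the Frattini reduction.  See `plans/GL2D.md`. -/

set_option autoImplicit false
set_option Elab.async false

namespace CfsgLib.GL2D
open Subgroup

variable {G : Type*} [Group G] [Finite G] {A : Type*} [Ring A] [Algebra ℚ A] {ρ : G →* A}

omit [Finite G] in
theorem red1_le_or {N : Subgroup G} [N.Normal] (h : Red N) (M : Subgroup G) [M.Normal] : M = ⊤ ∨ M ≤ N := by
  rcases h.simp.eq_bot_or_eq_top_of_normal _ (Normal.map ‹M.Normal› _ (QuotientGroup.mk'_surjective N)) with e | e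
  · exact .inr (by rwa [Subgroup.map_eq_bot_iff, QuotientGroup.ker_mk'] at e)
  · exact .inl (h.fr M (by rw [← QuotientGroup.ker_mk' N, ← comap_map_eq, e, comap_top]))

omit [Finite G] in
theorem Red.perf {N : Subgroup G} [N.Normal] (h : Red N) : _root_.commutator G = ⊤ := by
  exact (red1_le_or h _).resolve_right fun k => h.na (Normal.quotient_commutative_iff_commutator_le.2 k)

omit [Finite G] in
/-- A normal subgroup is everything or lies in `N`. -/
theorem Red.le_or {N : Subgroup G} [N.Normal] (h : Red N) (M : Subgroup G) [M.Normal] : M = ⊤ ∨ M ≤ N := by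
  exact red1_le_or h M

theorem Red.nilp {N : Subgroup G} [N.Normal] (h : Red N) : Group.IsNilpotent N := by
  have k : N ≤ frattini G := le_iInf₂ fun M hM => by
    by_contra e
    exact hM.1 (h.fr M (hM.2 _ (left_lt_sup.2 e)))
  have := frattini_nilpotent (G := G)
  exact nilpotent_of_mulEquiv (subgroupOfEquivOfLe k)

/-- A minimal supplement. -/
theorem exists_red (N : Subgroup G) [N.Normal] (hS : IsSimpleGroup (G ⧸ N)) (hna : ¬ IsMulCommutative (G ⧸ N)) :
    ∃ M : Subgroup G, Red (N.subgroupOf M) ∧ Nonempty ((M ⧸ N.subgroupOf M) ≃* (G ⧸ N)) := by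
  obtain ⟨M, hM, min⟩ := WellFoundedLT.exists_minimal inferInstance {M : Subgroup G | M ⊔ N = ⊤} ⟨⊤, top_sup_eq _⟩
  have e : (M ⧸ N.subgroupOf M) ≃* (G ⧸ N) := QuotientGroup.liftEquiv (N.subgroupOf M)
    (φ := (QuotientGroup.mk' N).comp M.subtype) (by
      rw [← MonoidHom.range_eq_top, MonoidHom.range_comp, range_subtype, ← comap_injective
        (QuotientGroup.mk'_surjective N) |>.eq_iff, comap_map_eq, QuotientGroup.ker_mk', comap_top]
      exact hM) (by rw [← MonoidHom.comap_ker, QuotientGroup.ker_mk']; rfl)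
  refine ⟨M, ⟨e.isSimpleGroup, fun k => hna ⟨⟨fun a b => e.symm.injective (by
    rw [map_mul, map_mul, k.is_comm.comm])⟩⟩, fun L hL => ?_⟩, ⟨e⟩⟩
  have k := congrArg (map M.subtype) hL
  rw [Subgroup.map_sup, subgroupOf_map_subtype, ← MonoidHom.range_eq_map, range_subtype] at k
  have := min (y := L.map M.subtype) (top_unique (hM.ge.trans (sup_le
    (k.ge.trans (sup_le_sup_left inf_le_left _)) le_sup_right))) (map_subtype_le L)
  exact top_unique fun x _ => (mem_map_iff_mem M.subtype_injective).1 (this x.2)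

omit [Finite G] in
theorem Red.concl {N : Subgroup G} [N.Normal] (h : Red N) {F : Type} [Field F] [Fintype F]
    (hF : Fintype.card F = 5 ∨ Fintype.card F = 9) (ψ : G →* Matrix.SpecialLinearGroup (Fin 2) F)
    (hψ : Function.Surjective ψ) (hN : N ≤ (center _).comap ψ) : Concl (G ⧸ N) ∧ N ≠ ⊥ := by
  have ne : (-1 : Matrix.SpecialLinearGroup (Fin 2) F) ≠ 1 := fun e =>
    Ring.neg_one_ne_one_of_char_ne_two (R := F) (fun k => by
      have := FiniteField.even_card_of_char_two k
      omega) (by simpa using congrArg (fun x => x.1 0 0) e)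
  have e : N = (center _).comap ψ := hN.antisymm ((h.le_or _).resolve_left fun k => ne ?_)
  · refine ⟨⟨F, _, _, hF, ⟨QuotientGroup.liftEquiv N (φ := (QuotientGroup.mk' _).comp ψ)
      ((QuotientGroup.mk'_surjective _).comp hψ) (by rw [← MonoidHom.comap_ker, QuotientGroup.ker_mk', e])⟩⟩,
      fun k => ne ?_⟩
    obtain ⟨g, hg⟩ := hψ (-1)
    have : g ∈ N := by rw [e, mem_comap, hg, mem_center_iff]; simp
    rw [← hg, show g = 1 from mem_bot.1 (k ▸ this), map_one]
  · have := @Group.IsPerfect.ofSurjective _ _ _ _ _ ⟨h.perf⟩ hψ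
    have : IsMulCommutative (Matrix.SpecialLinearGroup (Fin 2) F) := ⟨⟨fun a b => by
      obtain ⟨g, rfl⟩ := hψ b
      exact mem_center_iff.1 (mem_comap.1 (k ▸ mem_top g)) a⟩⟩
    exact Subsingleton.elim _ _

theorem Rp.red1 (h : Rp ρ) {N : Subgroup G} [N.Normal] (hN : Red N) (hi : ¬ Irr ρ) : Concl (G ⧸ N) ∧ N ≠ ⊥ := by
  simp only [Irr, not_forall, not_or] at hi
  obtain ⟨f, ff, c, f0, f1⟩ := hi
  have := hN.simp
  wlog hB : fx ρ f ≠ ⊤ generalizing f
  · refine this (1 - f) (by simp [mul_sub, sub_mul, ff]) (fun g => by rw [mul_sub, sub_mul, c]; simp)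
      (sub_ne_zero.2 (Ne.symm f1)) (by simpa using f0) fun k => ?_
    have e := h.fx_inf f
    rw [not_not.1 hB, k, inf_idem] at e
    have := (QuotientGroup.mk'_surjective N).nontrivial
    exact top_ne_bot e
  have := fx_normal (ρ := ρ) (Y := ⊤) fun y _ => c y
  let π := (QuotientGroup.mk' ((fx ρ f).subgroupOf ⊤)).comp (topEquiv (G := G)).symm.toMonoidHom
  have sπ : Function.Surjective π := (QuotientGroup.mk'_surjective _).comp topEquiv.symm.surjective
  have kπ : π.ker = fx ρ f := by ext; simp [π, mem_subgroupOf]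
  have := QuotientGroup.nontrivial_iff.2 fun k => hB (top_unique (subgroupOf_eq_top.1 k))
  obtain ⟨e⟩ := (h.free ff f0 f1 (Y := ⊤) fun y _ => c y).equiv_SL25_of_perfect
    (@Group.IsPerfect.ofSurjective _ _ _ _ _ ⟨hN.perf⟩ sπ).1
  have s := e.surjective.comp sπ
  have := Normal.map ‹N.Normal› (e.toMonoidHom.comp π) s
  refine hN.concl (.inl (ZMod.card 5)) (e.toMonoidHom.comp π) s (map_le_iff_le_comap.1
    ((FrobCompl.normal_SL25 _).resolve_right fun k => ?_))
  have k' := congrArg (comap (e.toMonoidHom.comp π)) k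
  rw [comap_map_eq, comap_top, MonoidHom.ker_comp_of_injective _ _ e.injective, kπ] at k'
  have : (fx ρ f).Normal := kπ ▸ π.normal_ker
  exact QuotientGroup.nontrivial_iff.1 inferInstance
    ((sup_eq_left.2 ((hN.le_or _).resolve_left hB)).symm.trans k')

end CfsgLib.GL2D
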