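import Cfsg.Agent.Lib.GL2D.Fr
import Cfsg.Agent.Lib.SL2.Normalizer
import Cfsg.Agent.Lib.SL2.Unip

/-! SL2: `SL₂(q)` occurs only for `q = 5, 9`.  See `plans/GL2D.md`. -/

set_option autoImplicit false
set_option linter.unusedSectionVars false

namespace CfsgLib.GL2D
open Subgroup

open SL2 Matrix
open scoped MatrixGroups

section
variable {G : Type*} [Group G] [Finite G] {τ : G → ℚ}

theorem Tr.of_isConj (h : Tr τ) {a b : G} (e : IsConj a b) : τ b = τ a := by
  obtain ⟨c, rfl⟩ := isConj_iff.1 e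
  exact h.cj c a

theorem Tr.cyc (h : Tr τ) {v : G} {n : ℕ} (hv : orderOf v = n) (h1 : 1 < n) :
    ∑ i ∈ Finset.range n, τ (v ^ i) = 0 ∨ ∑ i ∈ Finset.range n, τ (v ^ i) = n := by
  classical
  have := h.sub (zpowers v) fun e => by
    rw [zpowers_eq_bot.1 e, orderOf_one] at hv
    omega
  rwa [sm_eq τ (s := (Finset.range n).image (v ^ ·)) fun g => hv ▸ mem_zpowers_iff_mem_range_orderOf.symm,
    Finset.sum_image fun s hs t ht e => pow_injOn_Iio_orderOf (by simpa [hv] using hs) (by simpa [hv] using ht) e,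
    Nat.card_zpowers, hv] at this

theorem Tr.pow_add (h : Tr τ) {v : G} {n : ℕ} (hv : orderOf v = n) {i j : ℕ} (e : i + j = n) : τ (v ^ i) = τ (v ^ j) := by
  rw [← h.inv (v ^ j), ← eq_inv_of_mul_eq_one_left (by rw [← _root_.pow_add, e, ← hv, pow_orderOf_eq_one])]

theorem Tr.three (h : Tr τ) {w : G} (hw : orderOf w = 3) : τ w = -1 ∨ τ w = 1 / 2 := by
  have := h.cyc hw (by omega)
  simp only [Finset.sum_range_succ, Finset.sum_range_zero, pow_zero, h.one, h.pow_add hw (i := 2) (j := 1) rfl,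
    pow_one] at this
  exact this.imp (fun e => by linarith) fun e => by push_cast at e; linarith

theorem Tr.nine (h : Tr τ) {v : G} (hv : orderOf v = 9) :
    ∃ v' : G, orderOf v' = 9 ∧ 3 / 4 ≤ 2 * τ (v ^ 3) ^ 2 + τ v' ^ 2 := by
  have o : ∀ k, Nat.Coprime 9 k → orderOf (v ^ k) = 9 := fun k hk => by
    rw [Nat.Coprime.orderOf_pow (by rwa [hv]), hv]
  rcases h.three (w := v ^ 3) (by rw [orderOf_pow, hv]; rfl) with e | e
  · exact ⟨v, hv, by rw [e]; nlinarith [sq_nonneg (τ v)]⟩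
  have := h.cyc hv (by omega)
  simp only [Finset.sum_range_succ, Finset.sum_range_zero, pow_zero, h.one, h.pow_add hv (i := 8) (j := 1) rfl,
    h.pow_add hv (i := 7) (j := 2) rfl, h.pow_add hv (i := 6) (j := 3) rfl, h.pow_add hv (i := 5) (j := 4) rfl, e]
    at this
  by_contra! hn
  have a1 := hn _ (o 1 (by norm_num))
  have a2 := hn _ (o 2 (by norm_num))
  have a4 := hn _ (o 4 (by norm_num))
  rw [e] at a1 a2 a4
  have b : ∀ x : ℚ, 2 * (1 / 2) ^ 2 + x ^ 2 < 3 / 4 → -(1 / 2) < x ∧ x < 1 / 2 := fun x hx =>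
    abs_lt.1 (abs_lt_of_sq_lt_sq (by linarith) (by norm_num))
  have := b _ a1
  have := b _ a2
  have := b _ a4
  rcases ‹_ ∨ _› with c | c
  · linarith
  · push_cast at c
    linarith

end

variable {F : Type*} [Field F] [Fintype F] {τ : SL(2, F) → ℚ}

/-- the case `q = p²` -/
theorem Tr.sl2_sq (h : Tr τ) {p : ℕ} [hp : Fact p.Prime] [CharP F p] (h2 : p ≠ 2) (hq : Fintype.card F = p ^ 2) :
    p = 3 := by
  classical
  have hF : ringChar F ≠ 2 := by rwa [ringChar.eq F p]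
  have ln : ∀ x : F, x ≠ 0 → (p - 1) * τ (uu x) = -2 ∨ (p - 1) * τ (uu x) = p - 2 := fun x hx => by
    have a := h.cyc (orderOf_uu p hx) hp.out.one_lt
    obtain ⟨k, rfl⟩ : ∃ k, p = 2 * k + 1 := hp.out.odd_of_ne_two h2
    rw [Finset.sum_range_succ', pow_zero, h.one, Finset.sum_congr rfl (g := fun _ => τ (uu x)) fun i hi => ?_,
      Finset.sum_const, Finset.card_range, nsmul_eq_mul] at a
    · push_cast at a ⊢
      exact a.imp (fun e => by linarith) fun e => by linarith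
    have a1 : ((i + 1 : ℕ) : F) ≠ 0 := fun e => by
      have := Nat.le_of_dvd (by omega) ((CharP.cast_eq_zero_iff F _ _).1 e)
      have := Finset.mem_range.1 hi
      omega
    have a2 : ((i + 1 : ℕ) : F) ^ (2 * k) = 1 := mul_right_cancel₀ a1 (by
      rw [← pow_succ, one_mul, ← frobenius_def, map_natCast])
    obtain ⟨r, hr⟩ := (FiniteField.isSquare_iff hF a1).2 (by
      rw [hq, show (2 * k + 1) ^ 2 / 2 = 2 * k * (k + 1) by
        rw [show (2 * k + 1) ^ 2 = 1 + 2 * (2 * k * (k + 1)) by ring, Nat.add_mul_div_left _ _ two_pos]; simp,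
        pow_mul, a2, one_pow])
    rw [uu_pow]
    exact h.of_isConj ((isConj_uu_iff hx).2 ⟨mul_ne_zero a1 hx, r * x, by rw [hr]; ring⟩)
  obtain ⟨ε, hε⟩ := FiniteField.exists_nonsquare hF
  have e0 : ε ≠ 0 := fun e => hε (e ▸ IsSquare.zero)
  let υ : Multiplicative F →* SL(2, F) := MonoidHom.mk' (fun b => uu b.toAdd) fun a b => uu_add _ _
  have a1 := h.sub υ.range fun e => one_ne_zero (uu_injective
    ((mem_bot.1 (e.le ⟨Multiplicative.ofAdd 1, rfl⟩)).trans uu_zero.symm))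
  have a2 : ∀ x : F, τ (uu x) = (τ (uu 1) + τ (uu ε)) / 2 + (τ (uu 1) - τ (uu ε)) / 2 * (quadraticChar F x : ℤ) +
      if x = 0 then 2 - (τ (uu 1) + τ (uu ε)) / 2 else 0 := fun x => by
    split_ifs with hx
    · rw [hx, uu_zero, h.one, MulChar.map_zero]
      ring
    by_cases c : IsSquare x
    · rw [(quadraticChar_one_iff_isSquare hx).2 c,
        h.of_isConj ((isConj_uu_iff one_ne_zero).2 ⟨hx, by rwa [one_mul]⟩)]
      push_cast
      ring
    · have c1 := quadraticChar_neg_one_iff_not_isSquare.2 c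
      rw [c1, h.of_isConj ((isConj_uu_iff e0).2 ⟨hx, (quadraticChar_one_iff_isSquare (mul_ne_zero e0 hx)).1 (by
        rw [map_mul, c1, quadraticChar_neg_one_iff_not_isSquare.2 hε]; rfl)⟩)]
      push_cast
      ring
  rw [sm_eq τ (s := Finset.univ.image uu) fun g => by
      simp only [Finset.mem_image, Finset.mem_univ, true_and]
      exact ⟨fun ⟨x, e⟩ => ⟨Multiplicative.ofAdd x, e⟩, fun ⟨x, e⟩ => ⟨_, e⟩⟩,
    Finset.sum_image fun _ _ _ _ e => uu_injective e, Finset.sum_congr rfl fun x _ => a2 x,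
    ← Nat.card_congr (MonoidHom.ofInjective (f := υ) fun _ _ e => Multiplicative.toAdd.injective (uu_injective e)).toEquiv,
    Nat.card_eq_fintype_card, Fintype.card_multiplicative, hq] at a1
  simp only [Finset.sum_add_distrib, ← Finset.mul_sum, ← Int.cast_sum, quadraticChar_sum_zero hF, Finset.sum_const,
    Finset.card_univ, hq, Finset.sum_ite_eq', Finset.mem_univ, if_true, nsmul_eq_mul] at a1
  push_cast at a1
  by_contra h3
  have h4 : (4 : ℚ) ≤ p := by
    have := hp.out.two_le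
    exact_mod_cast (by omega : 4 ≤ p)
  have a3 : (p : ℚ) ^ 2 * ((τ (uu 1) + τ (uu ε)) / 2) + (τ (uu 1) - τ (uu ε)) / 2 * 0 +
      (2 - (τ (uu 1) + τ (uu ε)) / 2) = 2 + (p + 1) * ((p - 1) * τ (uu 1) + (p - 1) * τ (uu ε)) / 2 := by ring
  rw [a3] at a1
  rcases ln 1 one_ne_zero with b | b <;> rcases ln ε e0 with c | c <;> rw [b, c] at a1 <;>
    rcases a1 with d | d <;> nlinarith

theorem sl2_ord {d : ℕ} (hd : d ∣ Fintype.card F + 1) : ∃ v : SL(2, F), orderOf v = d := by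
  obtain ⟨g, hg⟩ := exists_noEig (F := F)
  have := hg.isCyclic_centralizer
  obtain ⟨c, hc⟩ := IsCyclic.exists_ofOrder_eq_natCard (α := centralizer ({g} : Set SL(2, F)))
  rw [hg.card_centralizer, ← orderOf_coe] at hc
  exact ⟨_, orderOf_pow_orderOf_div (by omega) (hc ▸ hd)⟩

theorem sl2_dg (a : Fˣ) : dg a * uu 1 * (dg a)⁻¹ = uu ((a : F) ^ 2) := by
  rw [← dg_inv]
  refine ext2 ?_ ?_ ?_ ?_ <;> simp [mul_ap, sq]

open _root_.Classical in
theorem Tr.cls (h : Tr τ) {g : SL(2, F)} (hg : NoEig g) : ∑ k ∈ Finset.univ.filter (tr · = tr g), τ k ^ 2 =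
    Fintype.card F * (Fintype.card F - 1) * τ g ^ 2 := by
  have e : Finset.univ.filter (tr · = tr g) = Finset.univ.filter (IsConj g ·) := Finset.filter_congr fun k _ =>
    ⟨fun e => isConj_of_tr_eq hg.tr_sq_ne e.symm, fun e => (tr_of_isConj e).symm⟩
  have a := (centralizer ({g} : Set SL(2, F))).card_mul_index
  rw [hg.card_centralizer, card_SL2', mul_comm] at a
  rw [e, Finset.sum_congr rfl (g := fun _ => τ g ^ 2) fun k hk => by rw [h.of_isConj (Finset.mem_filter.1 hk).2],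
    Finset.sum_const, Fgs.card_filter_isConj_eq_index, Nat.eq_of_mul_eq_mul_right (by omega) a, nsmul_eq_mul,
    Nat.cast_mul, Nat.cast_pred Fintype.card_pos]

/-- the case `q = p` -/
theorem Tr.sl2_prime (h : Tr τ) {p : ℕ} [hp : Fact p.Prime] [CharP F p] (h3 : 3 < p) (hq : Fintype.card F = p) :
    p = 5 := by
  classical
  by_contra h5
  have nat : ∀ x : F, ∃ a : ℕ, (a : F) = x := fun x => by
    obtain ⟨z, rfl⟩ := (ZMod.ringEquiv F hq).surjective x
    exact ⟨z.val, by rw [← map_natCast (ZMod.ringEquiv F hq), ZMod.natCast_zmod_val]⟩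
  have cu : Nat.card Fˣ = p - 1 := by rw [Nat.card_units, Nat.card_eq_fintype_card, hq]
  have ou := orderOf_uu p (one_ne_zero (α := F))
  have up : ∀ a : ℕ, uu (a : F) = uu 1 ^ a := fun a => by rw [uu_pow, mul_one]
  have two : ∀ {r : ℕ}, r.Prime → r ∣ p - 1 → r = 2 := fun {r} hr hd => by
    have : Fact r.Prime := ⟨hr⟩
    obtain ⟨l, hl⟩ := exists_prime_orderOf_dvd_card' (G := Fˣ) r (cu ▸ hd)
    have o : orderOf (dg l) = r := (orderOf_injective dgHom dg_injective l).trans hl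
    by_contra h2
    obtain ⟨a, ha⟩ := nat ((l : F) ^ 2)
    have e := h.no_frob (u := uu 1) (y := dg l) (ou ▸ hp.out) (o ▸ hr) (o ▸ h2)
      (by rw [sl2_dg, ← ha, up]; exact pow_mem (mem_zpowers _) a)
    rw [← mul_inv_eq_iff_eq_mul, sl2_dg] at e
    have e' : l ^ 2 = 1 := Units.ext (uu_injective e)
    exact h2 ((Nat.prime_dvd_prime_iff_eq hr Nat.prime_two).1 (hl ▸ orderOf_dvd_of_pow_eq_one e'))
  obtain ⟨k, hk⟩ : ∃ k, p - 1 = 2 ^ k := ⟨_, Nat.eq_prime_pow_of_unique_prime_dvd (by omega) two⟩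
  have h17 : p = 17 ∨ 19 ≤ p := by
    have := hp.out
    by_contra! c
    have c2 := c.2
    have c1 := c.1
    have : k < 5 := (Nat.pow_lt_pow_iff_right one_lt_two).1 (by omega)
    interval_cases k <;> interval_cases p <;> first | omega | norm_num at this
  have n3 : ¬ 3 ∣ p - 1 := fun e => absurd (two Nat.prime_three e) (by norm_num)
  have n3' : ¬ 3 ∣ p := fun e => by
    have := (Nat.prime_dvd_prime_iff_eq Nat.prime_three hp.out).1 e
    omega
  have d3 : 3 ∣ p + 1 := by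
    obtain c | c | c : p % 3 = 0 ∨ p % 3 = 1 ∨ p % 3 = 2 := by omega
    all_goals omega
  have h2 : (2 : F) ≠ 0 := two_ne_zero_of_odd (hq ▸ hp.out.odd_of_ne_two (by omega))
  -- the upper bound
  obtain ⟨m, hm⟩ : ∃ m, p = 2 * m + 1 := hp.out.odd_of_ne_two (by omega)
  obtain ⟨ω, hω⟩ := IsCyclic.exists_ofOrder_eq_natCard (α := Fˣ)
  obtain ⟨a, ha⟩ := nat ((ω : F) ^ 2)
  have ub := h.norm (uu 1) (dg ω) p a m hp.out ou (by rw [sl2_dg, ← ha, up]) fun i hi j hj e => by
    have e1 := (CharP.natCast_eq_natCast F p).2 e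
    rw [Nat.cast_pow, Nat.cast_pow, ha, ← pow_mul, ← pow_mul] at e1
    have := pow_injOn_Iio_orderOf (x := ω) (x₁ := 2 * i) (by rw [hω, cu, Set.mem_Iio]; omega) (x₂ := 2 * j)
      (by rw [hω, cu, Set.mem_Iio]; omega) (Units.ext (by simpa using e1))
    omega
  rw [sm_eq _ (s := Finset.univ) (by simp), ← Finset.sum_fiberwise Finset.univ tr, card_SL2', hq] at ub
  have nn : ∀ t : F, 0 ≤ ∑ k ∈ Finset.univ.filter (tr · = t), τ k ^ 2 := fun t =>
    Finset.sum_nonneg fun _ _ => sq_nonneg _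
  have ne : ∀ {g : SL(2, F)} {d : ℕ}, orderOf g = d → (d = 3 ∨ d = 9) → NoEig g := fun {g d} hg hd =>
    noEig_of_orderOf (by rcases hd with rfl | rfl <;> rw [hg] <;> norm_num) (by
      have : Nat.Coprime 3 p := (Nat.Prime.coprime_iff_not_dvd Nat.prime_three).2 n3'
      rw [hg, ringChar.eq F p]
      rcases hd with rfl | rfl
      exacts [this, this.pow_left 2]) fun e => n3 (by
        rw [hg, hq] at e
        rcases hd with rfl | rfl
        exacts [e, dvd_trans (by norm_num) e])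
  have ng : ∀ g : SL(2, F), τ (-g) = -τ g := fun g => by
    rw [← neg_one_mul g]
    exact h.neg (-1) (by simp) (neg_one_ne_one h2) (fun g => by simp) g
  have nE : ∀ {g : SL(2, F)}, NoEig g → NoEig (-g) := fun {g} hg => hg.of_commute
    (fun e => hg.not_isScal (neg_neg g ▸ isScal_neg e)) (by simp)
  have df : ∀ {w : SL(2, F)}, orderOf w = 3 → tr w ≠ tr (-w) := fun {w} hw e => by
    have := h.of_isConj (isConj_of_tr_eq (ne hw (Or.inl rfl)).tr_sq_ne e)
    rw [ng] at this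
    rcases h.three hw with c | c <;> linarith
  have P1 : ((p - 1 : ℕ) : ℚ) = 2 * m := by rw [hm]; simp
  have P2 : (p : ℚ) = 2 * m + 1 := by rw [hm]; simp
  push_cast at ub
  rw [P1] at ub
  rcases h17 with h17 | h19
  · obtain ⟨v, hv⟩ := sl2_ord (F := F) (d := 9) (by rw [hq, h17]; norm_num)
    obtain ⟨v', hv', lb⟩ := h.nine hv
    have hw : orderOf (v ^ 3) = 3 := by rw [orderOf_pow, hv]; rfl
    have w3 : (v ^ 3) ^ 3 = 1 := by rw [← pow_mul, ← pow_orderOf_eq_one v, hv]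
    have d6 : ∀ g : SL(2, F), g ^ 6 = 1 → tr v' ≠ tr g := fun g hg e => by
      have := orderOf_dvd_of_pow_eq_one (pow_eq_one_of_isConj
        (isConj_of_tr_eq (ne hv' (Or.inr rfl)).tr_sq_ne e).symm hg)
      rw [hv'] at this
      norm_num at this
    have w6 : (v ^ 3) ^ 6 = 1 := by rw [show 6 = 3 * 2 from rfl, pow_mul, w3, one_pow]
    have le := Finset.sum_le_sum_of_subset_of_nonneg (Finset.subset_univ {tr v', tr (v ^ 3), tr (-v ^ 3)})
      fun t _ _ => nn t
    rw [Finset.sum_insert (by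
        simp only [Finset.mem_insert, Finset.mem_singleton, not_or]
        exact ⟨d6 _ w6, d6 _ (by rw [Even.neg_pow (by norm_num), w6])⟩), Finset.sum_pair (df hw),
      h.cls (ne hv' (Or.inr rfl)), h.cls (ne hw (Or.inl rfl)), h.cls (nE (ne hw (Or.inl rfl))), ng, hq] at le
    obtain rfl : m = 8 := by omega
    rw [P2] at le ub
    push_cast at le ub
    nlinarith
  · obtain ⟨w, hw⟩ := sl2_ord (F := F) (d := 3) (by rwa [hq])
    have le := Finset.sum_le_sum_of_subset_of_nonneg (Finset.subset_univ {tr w, tr (-w)}) fun t _ _ => nn t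
    rw [Finset.sum_pair (df hw), h.cls (ne hw (Or.inl rfl)), h.cls (nE (ne hw (Or.inl rfl))), ng, hq, P2] at le
    rw [P2] at ub
    have m9 : (9 : ℚ) ≤ m := by exact_mod_cast (by omega : 9 ≤ m)
    have lb : 1 / 4 ≤ τ w ^ 2 := by rcases h.three hw with c | c <;> rw [c] <;> norm_num
    generalize ∑ t : F, ∑ k ∈ Finset.univ.filter (tr · = t), τ k ^ 2 = S at le ub
    have b1 : (2 * m + 1) * m ≤ S := by nlinarith [mul_nonneg (by positivity : (0 : ℚ) ≤ (2 * m + 1) * m) (sub_nonneg.2 lb)]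
    have b2 : 2 * m * m * ((2 * m + 1) * m) ≤ 2 * m * m * S := by gcongr
    have b3 : (2 * m + 1) * m * (2 * m * m) ≤ (2 * m + 1) * m * (16 * (m + 1) : ℚ) := by nlinarith
    have b4 := le_of_mul_le_mul_left b3 (by positivity)
    nlinarith

theorem Tr.sl2 {F : Type*} [Field F] [Fintype F] (ho : Odd (Fintype.card F)) (h3 : 3 < Fintype.card F)
    {τ : Matrix.SpecialLinearGroup (Fin 2) F → ℚ} (h : Tr τ)
    (hr : ∀ p : ℕ, p.Prime → Cfsg.PRankLE p 2 (Matrix.SpecialLinearGroup (Fin 2) F)) :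
    Fintype.card F = 5 ∨ Fintype.card F = 9 := by
  obtain ⟨n, hp, hq⟩ := FiniteField.card F (ringChar F)
  have : Fact (ringChar F).Prime := ⟨hp⟩
  let υ : Multiplicative F →* SL(2, F) := MonoidHom.mk' (fun b => uu b.toAdd) fun a b => uu_add _ _
  have a := hr _ hp υ.range inferInstance (by
    rintro _ ⟨b, rfl⟩
    rw [← map_pow, ← ofAdd_toAdd (b ^ _), toAdd_pow, nsmul_eq_mul, CharP.cast_eq_zero, zero_mul, ofAdd_zero, map_one])
  rw [← Nat.card_congr (MonoidHom.ofInjective (f := υ) fun _ _ e => Multiplicative.toAdd.injective (uu_injective e)).toEquiv,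
    Nat.card_eq_fintype_card, Fintype.card_multiplicative, hq, Nat.pow_le_pow_iff_right hp.one_lt] at a
  have n0 := n.pos
  obtain e | e : (n : ℕ) = 1 ∨ (n : ℕ) = 2 := by omega
  · rw [e, pow_one] at hq
    exact Or.inl (hq.trans (h.sl2_prime (hq ▸ h3) hq))
  · rw [e] at hq
    exact Or.inr (by rw [hq, h.sl2_sq (ringChar_ne_two_of_odd ho) hq]; rfl)

end CfsgLib.GL2D
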