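import Cfsg.Agent.Lib.GL2D.Bas
import Cfsg.Agent.Lib.GL2D.Gen
import Cfsg.Agent.Lib.Frob.Quaternion

/-! SM1: `R` is not abelian; the complement of `⟨t⟩` in `R`.  See `plans/GL2D.md`. -/

set_option autoImplicit false
set_option linter.unusedSectionVars false

namespace CfsgLib.GL2D
open Subgroup

variable {G : Type*} [Group G] [Finite G] {z t s : G} {B : G → Subgroup G} {S : Sylow 2 G}

theorem sm1_inv_uniq {c e w : G} (he : e ∈ zpowers c) (e1 : e ≠ 1) (ee : e * e = 1) (hw : w ∈ zpowers c)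
    (ww : w * w = 1) : w = 1 ∨ w = e := by
  classical
  by_contra k
  push Not at k
  have := Fintype.ofFinite (zpowers c)
  have h := IsCyclic.card_pow_eq_one_le (α := zpowers c) (n := 2) two_pos
  have h3 : ({1, ⟨e, he⟩, ⟨w, hw⟩} : Finset (zpowers c)) ⊆ Finset.univ.filter fun a => a ^ 2 = 1 := by
    intro a ha
    simp only [Finset.mem_insert, Finset.mem_singleton] at ha
    rcases ha with rfl | rfl | rfl <;> simp [pow_two, Subtype.ext_iff, ee, ww]
  have h4 := (Finset.card_le_card h3).trans h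
  rw [Finset.card_eq_three.2 ⟨_, _, _, by simpa [Subtype.ext_iff] using e1.symm,
    by simpa [Subtype.ext_iff] using k.1.symm, by simpa [Subtype.ext_iff] using k.2.symm, rfl⟩] at h4
  omega

theorem LS.sm1_sts (h : LS z B S t s) : s * t * s = z * t := by
  rw [h.st, mul_assoc, mul_assoc, h.rs.1, mul_one]

theorem LS.sm1_zR (h : LS z B S t s) : z ∈ RR S t := mem_RR.2 ⟨h.zS, (h.zc t).symm⟩

theorem LS.not_comm (h : LS z B S t s) : ¬ ∀ x ∈ RR S t, ∀ y ∈ RR S t, x * y = y * x := by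
  intro hc
  classical
  have ss := h.rs.1
  have tt := h.rt.1
  let _ : CommGroup (RR S t) :=
    { (inferInstance : Group (RR S t)) with mul_comm := fun a b => Subtype.ext (hc _ a.2 _ b.2) }
  let f : G → RR S t := fun x => if hx : x ∈ RR S t then ⟨x * (s * x * s), mul_mem hx (h.sRs x hx)⟩ else 1
  have hf : ∀ x ∈ RR S t, (f x : G) = x * (s * x * s) := fun x hx => by simp only [f, dif_pos hx]
  obtain ⟨δ, d1, d2⟩ := ext2 h.sS h.s_nmem ss (inf_le_left : RR S t ≤ S) h.split f (fun x hx y hy => Subtype.ext (by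
      rw [coe_mul, hf _ (mul_mem hx hy), hf x hx, hf y hy, mul_assoc x (s * x * s), ← mul_assoc (s * x * s),
        hc _ (h.sRs x hx) y hy]
      simp only [mul_assoc]
      rw [← mul_assoc s s, ss, one_mul]))
    (fun x hx => Subtype.ext (by
      rw [hf _ (h.sRs x hx), hf x hx, ← mul_assoc s, ← mul_assoc s, ss, one_mul, mul_assoc x, ss, mul_one,
        hc _ (h.sRs x hx) x hx])) (y := ⟨z, h.sm1_zR⟩) (Subtype.ext h.zz)
  refine h.z1 (congrArg Subtype.val (tr4 h.perf S δ (x := t) (y := ⟨z, h.sm1_zR⟩)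
    (by rw [show 4 = 2 * 2 from rfl, pow_mul, pow_two t, tt, one_pow]) (fun g hg => ?_) fun g hg => ?_))
  · have r := h.rf_cj h.rt g
    generalize g * t * g⁻¹ = x at *
    rcases h.split x hg with k | k
    · refine (d1 x hg k).trans (Subtype.ext ((hf x k).trans ?_))
      rcases h.inv_cen h.rt (mem_RR.1 k).2 r.1 with e | e | rfl | rfl
      · exact absurd e r.2.1
      · exact absurd e r.2.2
      · rw [h.sm1_sts, ← mul_assoc, h.zc, mul_assoc, tt, mul_one]
      · rw [← mul_assoc s, h.zc s, mul_assoc z s, mul_assoc z (s * t), h.sm1_sts, ← mul_assoc z z, h.zz, one_mul,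
          mul_assoc, tt, mul_one]
    · have e : (⟨x, hg⟩ : (S : Subgroup G)) = ⟨s, h.sS⟩ * ⟨s * x, k.1⟩ :=
        Subtype.ext (show x = s * (s * x) by rw [← mul_assoc, ss, one_mul])
      rw [e, map_mul, d2, d1 _ _ k, mul_eq_left]
      refine Subtype.ext ((hf _ k).trans ?_)
      rw [← mul_assoc s s, ss, one_mul, mul_assoc, ← mul_assoc x, r.1, one_mul, ss, coe_one]
  · rw [← map_one δ]
    congr 1
    exact Subtype.ext (by simp [tt])

theorem LS.sm2a (h : LS z B S t s) (sm : ∀ b ∈ B t, b = 1 ∨ b = t) :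
    ∃ (D : Subgroup G) (c j : G), D ≤ RR S t ∧ t ∉ D ∧ (∀ x ∈ RR S t, x ∈ D ∨ x * t ∈ D) ∧ QG D z c j := by
  have tt := h.rt.1
  have zz := h.zz
  have tR : t ∈ RR S t := mem_RR.2 ⟨h.tS, rfl⟩
  have n1 : ∀ x, x * x ≠ t := fun x e => by
    have k : ∀ y ∈ B t, y * y = 1 := fun y hy => (sm y hy).elim (fun r => by rw [r, mul_one]) fun r => by rw [r, tt]
    refine h.rt.2.1 (e.symm.trans ((h.sqrt h.rt e).elim (k x) fun r => ?_))
    have := k _ r
    rwa [mul_assoc, ← mul_assoc x, h.zc, ← mul_assoc, ← mul_assoc, zz, one_mul] at this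
  have n2 : ∀ x, x * x ≠ z * t := fun x e => n1 (s * x * s) (by
    rw [show s * x * s * (s * x * s) = s * (x * (s * s) * x) * s by simp only [mul_assoc], h.rs.1, mul_one, e,
      ← mul_assoc s, h.zc s, mul_assoc z s, mul_assoc z, h.sm1_sts, ← mul_assoc, zz, one_mul])
  let T : Subgroup (RR S t) := zpowers ⟨t, tR⟩
  have mT : ∀ x : RR S t, x ∈ T ↔ (x : G) = 1 ∨ (x : G) = t := fun x => ⟨fun ⟨n, hn⟩ => by
      have e : (x : G) = t ^ n := (congrArg Subtype.val hn).symm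
      exact sm1_inv_uniq (mem_zpowers t) h.rt.2.1 tt ⟨n, e.symm⟩ (by rw [e, ← (Commute.refl t).mul_zpow, tt, one_zpow]),
    fun k => k.elim (fun e => by rw [show x = 1 from Subtype.ext e]; exact one_mem _)
      fun e => by rw [show x = ⟨t, tR⟩ from Subtype.ext e]; exact mem_zpowers _⟩
  have Tc : T ≤ center (RR S t) := zpowers_le.2 (mem_center_iff.2 fun g => Subtype.ext (mem_RR.1 g.2).2)
  have : T.Normal := ⟨fun n hn g => by rwa [mem_center_iff.1 (Tc hn) g, mul_inv_cancel_right]⟩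
  let π := QuotientGroup.mk' T
  have hπ : ∀ x y : RR S t, π x = π y → (x : G) = y ∨ (x : G) = y * t := fun x y e => by
    have := (mT _).1 (QuotientGroup.eq.1 e.symm)
    rw [coe_mul, coe_inv, inv_mul_eq_iff_eq_mul, inv_mul_eq_iff_eq_mul, mul_one] at this
    exact this
  have u : ∀ w, w * w = 1 → w ≠ 1 → w = π ⟨z, h.sm1_zR⟩ := fun w ww w1 => by
    obtain ⟨x, rfl⟩ := QuotientGroup.mk'_surjective T w
    have x2 : (x : G) * x = 1 := ((mT _).1 ((QuotientGroup.eq_one_iff (x * x)).1 ww)).resolve_right (n1 _)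
    rcases h.inv_cen h.rt (mem_RR.1 x.2).2 x2 with e | e | e | e
    · exact absurd ((QuotientGroup.eq_one_iff x).2 ((mT x).2 (Or.inl e))) w1
    · exact congrArg π (Subtype.ext e)
    · exact absurd ((QuotientGroup.eq_one_iff x).2 ((mT x).2 (Or.inr e))) w1
    · refine (QuotientGroup.eq.2 ((mT _).2 (Or.inr ?_))).symm
      rw [coe_mul, coe_inv, e, inv_mul_cancel_left]
  have sq : ∀ x : RR S t, π x * π x = π ⟨z, h.sm1_zR⟩ → (x : G) * x = z := fun x e =>
    (hπ (x * x) _ e).resolve_right (n2 _)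
  have o2 : ∀ w, orderOf w = 2 → w = π ⟨z, h.sm1_zR⟩ := fun w e =>
    u w (by rw [← pow_two, ← e, pow_orderOf_eq_one]) fun k => by rw [k, orderOf_one] at e; omega
  have pR : IsPGroup 2 (RR S t) := S.isPGroup'.to_le inf_le_left
  rcases Frob.exists_gens_of_forall_mem_zpowers (pR.to_quotient T)
    (fun x y hx hy => by rw [o2 x hx, o2 y hy]; exact mem_zpowers _) with hc | ⟨-, a, b, m, hi, ha, hb, hm, b2, ba⟩
  · exact absurd (fun x hx y hy => congrArg Subtype.val ((π.isMulCommutative_of_isCyclic_of_ker_le_center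
      (by rw [QuotientGroup.ker_mk']; exact Tc)).is_comm.comm ⟨x, hx⟩ ⟨y, hy⟩)) h.not_comm
  obtain ⟨m, rfl⟩ : ∃ n, m = n + 2 := ⟨m - 2, by omega⟩
  have e : a ^ 2 ^ (m + 1) = π ⟨z, h.sm1_zR⟩ := u _ (by
    rw [← pow_add, ← two_mul, ← pow_succ', ← ha, pow_orderOf_eq_one])
      (pow_ne_one_of_lt_orderOf (by positivity) (by rw [ha]; exact Nat.pow_lt_pow_right one_lt_two (by omega)))
  have bb : b * b = π ⟨z, h.sm1_zR⟩ := by rw [← pow_two, ← e]; exact b2
  obtain ⟨c, rfl⟩ := QuotientGroup.mk'_surjective T a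
  obtain ⟨j, rfl⟩ := QuotientGroup.mk'_surjective T b
  have jj := sq j bb
  have cj := sq (c * j) (by
    rw [map_mul, mul_assoc, ← mul_assoc (π j), mul_inv_eq_iff_eq_mul.1 ba, mul_assoc, mul_inv_cancel_left, bb])
  have jc : (j : G) * c * (j : G)⁻¹ = (c : G)⁻¹ := by
    rw [coe_mul, ← jj, ← mul_assoc, mul_left_inj] at cj
    rw [mul_inv_eq_iff_eq_mul, eq_inv_mul_iff_mul_eq, ← mul_assoc, cj]
  have zc : z ∈ zpowers (c : G) := by
    have := sq (c ^ 2 ^ m) (by rw [map_pow, ← pow_add, ← two_mul, ← pow_succ', e])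
    rw [← this, coe_pow]
    exact mul_mem (pow_mem (mem_zpowers _) _) (pow_mem (mem_zpowers _) _)
  have mD := fun g => TwoGrp.mem_zpowers_sup_zpowers_iff (TwoGrp.mem_normalizer_zpowers_of_inv jc) (jj ▸ zc) (g := g)
  refine ⟨zpowers (c : G) ⊔ zpowers (j : G), c, j, sup_le (zpowers_le.2 c.2) (zpowers_le.2 j.2), fun k => ?_,
    fun x hx => ?_, mem_sup_left (mem_zpowers _), mem_sup_right (mem_zpowers _), fun x hx => (mD x).1 hx, jj, jc, zc,
    fun ⟨n, hn⟩ => hb ⟨n, by beta_reduce; rw [← map_zpow]; exact congrArg π (Subtype.ext hn)⟩, fun k => ?_⟩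
  · obtain ⟨n, k | k⟩ := (mD t).1 k
    · exact (sm1_inv_uniq zc h.z1 zz ⟨n, k.symm⟩ tt).elim h.rt.2.1 h.rt.2.2
    · refine h.z1 (tt.symm.trans ?_).symm
      have : (j : G) * c ^ n * (j : G)⁻¹ = (c ^ n : G)⁻¹ := by rw [← conj_zpow, jc, inv_zpow]
      rw [k, mul_assoc, ← mul_assoc (j : G), mul_inv_eq_iff_eq_mul.1 this, mul_assoc, mul_inv_cancel_left, jj]
  · have key : ∀ y : RR S t, (y : G) ∈ zpowers (c : G) ⊔ zpowers (j : G) → π ⟨x, hx⟩ = π y →
        x ∈ zpowers (c : G) ⊔ zpowers (j : G) ∨ x * t ∈ zpowers (c : G) ⊔ zpowers (j : G) := fun y hy e =>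
      (hπ _ _ e).imp (fun r => (show x = y from r) ▸ hy) fun r => by
        rw [show x = y * t from r, mul_assoc, tt, mul_one]; exact hy
    obtain ⟨n, k | k⟩ := Frob.exists_eq_zpow_or_of_index_two hi hb (π ⟨x, hx⟩)
    · exact key (c ^ n) ((mD _).2 ⟨n, Or.inl rfl⟩) (by rw [k, map_zpow])
    · exact key (c ^ n * j) ((mD _).2 ⟨n, Or.inr rfl⟩) (by rw [k, map_mul, map_zpow])
  · have := orderOf_dvd_of_pow_eq_one (x := π c) (n := 2) (by
      rw [← map_pow, pow_two, show c * c = 1 from Subtype.ext k, map_one])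
    rw [ha, pow_add] at this
    have h1 := Nat.le_of_dvd two_pos this
    have := Nat.one_le_two_pow (n := m)
    omega

end CfsgLib.GL2D
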