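import Cfsg.Agent.Lib.GL2D.Bas
import Cfsg.Agent.Lib.GL2D.Gen

/-! SM2: an `s`-invariant complement.  See `plans/GL2D.md`. -/

set_option autoImplicit false

namespace CfsgLib.GL2D
open Subgroup

variable {G : Type*} [Group G] [Finite G] {z t s : G} {B : G → Subgroup G} {S : Sylow 2 G}

/-- The transfer of `C(t)` to `R ⧸ D₀`. -/
private theorem sm2_theta (h : LS z B S t s) {D₀ : Subgroup G} (tD : t ∉ D₀) (zD : z ∈ D₀)
    (cov : ∀ x ∈ RR S t, x ∈ D₀ ∨ x * t ∈ D₀) :
    ∃ θ : G → ℤˣ, (∀ x y, x * t = t * x → y * t = t * y → θ (x * y) = θ x * θ y) ∧ θ t = -1 ∧ θ z = 1 := by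
  classical
  have tt : t * t = 1 := h.rt.1
  set H := centralizer ({t} : Set G) with hH
  have mH : ∀ x, x ∈ H ↔ x * t = t * x := fun x => by simp [hH, mem_centralizer_iff, eq_comm]
  set R := (RR S t).subgroupOf H with hR
  have f0 : ∀ a ∈ RR S t, ∀ b ∈ RR S t, (if a * b ∈ D₀ then (1 : ℤˣ) else -1) =
      (if a ∈ D₀ then 1 else -1) * if b ∈ D₀ then 1 else -1 := by
    intro a hx b hy
    have yt := (mem_RR.1 hy).2
    by_cases ha : a ∈ D₀ <;> by_cases hb : b ∈ D₀
    · simp [ha, hb, mul_mem ha hb]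
    · have : a * b ∉ D₀ := fun e => hb ((mul_mem_cancel_left ha).1 e)
      simp [ha, hb, this]
    · have : a * b ∉ D₀ := fun e => ha ((mul_mem_cancel_right hb).1 e)
      simp [ha, hb, this]
    · have e := mul_mem ((cov a hx).resolve_left ha) ((cov b hy).resolve_left hb)
      have e2 : a * t * (b * t) = a * b := by
        rw [yt, mul_assoc, ← mul_assoc t, tt, one_mul]
      rw [e2] at e
      simp [ha, hb, e]
  let θ0 : R →* ℤˣ :=
    { toFun := fun x => if ((x : H) : G) ∈ D₀ then 1 else -1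
      map_one' := by simp [one_mem]
      map_mul' := fun x y => f0 _ (mem_subgroupOf.1 x.2) _ (mem_subgroupOf.1 y.2) }
  have odd : Odd R.index := by
    rw [← Nat.not_even_iff_odd, even_iff_two_dvd]
    exact h.odd
  have key : ∀ (x : G) (hx : x ∈ RR S t), (∀ g ∈ H, g * x = x * g) →
      MonoidHom.transfer θ0 ⟨x, (mH x).2 (mem_RR.1 hx).2⟩ = if x ∈ D₀ then 1 else -1 := by
    intro x hx c
    have xH := (mH x).2 (mem_RR.1 hx).2
    rw [MonoidHom.transfer_eq_pow θ0 ⟨x, xH⟩ (fun k g _ => by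
      have : Commute (⟨x, xH⟩ : H) g := Subtype.ext (c g g.2).symm
      rw [mul_assoc, (this.pow_left k).eq, inv_mul_cancel_left])]
    have xR : (⟨x, xH⟩ : H) ∈ R := mem_subgroupOf.2 hx
    have e : θ0 ((⟨_, xR⟩ : R) ^ R.index) = if x ∈ D₀ then 1 else -1 := by
      rw [map_pow]
      show (if x ∈ D₀ then (1 : ℤˣ) else -1) ^ R.index = _
      split_ifs
      · exact one_pow _
      · exact odd.neg_one_pow
    exact e
  refine ⟨fun g => if hg : g ∈ H then MonoidHom.transfer θ0 ⟨g, hg⟩ else 1, ?_, ?_, ?_⟩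
  · intro x y hx hy
    have hx' := (mH x).2 hx
    have hy' := (mH y).2 hy
    simp only [dif_pos hx', dif_pos hy', dif_pos (mul_mem hx' hy')]
    rw [← map_mul]; rfl
  · have tR : t ∈ RR S t := mem_RR.2 ⟨h.tS, rfl⟩
    have := key t tR fun g hg => (mH g).1 hg
    simp only [dif_pos ((mH t).2 rfl)]
    rw [this, if_neg tD]
  · have zR : z ∈ RR S t := mem_RR.2 ⟨h.zS, (h.zc t).symm⟩
    have := key z zR fun g _ => h.zc g
    simp only [dif_pos ((mH z).2 (h.zc t).symm)]
    rw [this, if_pos zD]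

theorem LS.sm2b (h : LS z B S t s) {D₀ : Subgroup G} {c j : G} (le : D₀ ≤ RR S t) (tD : t ∉ D₀)
    (cov : ∀ x ∈ RR S t, x ∈ D₀ ∨ x * t ∈ D₀) (hQ : QG D₀ z c j) :
    ∃ D, SmD z S t s D ∧ ∃ q ∈ D, s * q * s * q = z := by
  have zD : z ∈ D₀ := hQ.jj ▸ mul_mem hQ.jD hQ.jD
  obtain ⟨θ, θm, θt, θz⟩ := sm2_theta h tD zD cov
  have tt : t * t = 1 := h.rt.1
  have ss : s * s = 1 := h.rs.1
  have zz := h.zz
  have zc := h.zc
  have st := h.st
  have si : s⁻¹ = s := inv_eq_of_mul_eq_one_right ss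
  have ss' : ∀ x, s * (s * x) = x := fun x => by rw [← mul_assoc, ss, one_mul]
  have zt : z * t = t * z := (zc t).symm
  have sts : s * t * s = z * t := by rw [st, mul_assoc, mul_assoc, ss, mul_one]
  -- closure properties of `H = C(t)`
  have Hm : ∀ {x y}, x * t = t * x → y * t = t * y → x * y * t = t * (x * y) := fun {x y} hx hy => by
    rw [mul_assoc, hy, ← mul_assoc, hx, mul_assoc]
  have Hi : ∀ {x}, x * t = t * x → x⁻¹ * t = t * x⁻¹ := fun {x} hx => (Commute.inv_left (a := x) hx).eq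
  have Hs : ∀ {x}, x * t = t * x → s * x * s * t = t * (s * x * s) := fun {x} hx => by
    have e : t = s * (z * t) * s := by rw [← sts]; simp only [mul_assoc, ss', ss, mul_one]
    have e2 : x * (z * t) = z * t * x := by rw [← mul_assoc, zc, mul_assoc, hx, mul_assoc]
    calc s * x * s * t = s * x * s * (s * (z * t) * s) := by rw [← e]
      _ = s * (x * (z * t)) * s := by simp only [mul_assoc, ss']
      _ = s * (z * t) * s * (s * x * s) := by rw [e2]; simp only [mul_assoc, ss']
      _ = t * (s * x * s) := by rw [← e]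
  have θ1 : θ 1 = 1 := by
    have := θm 1 1 (by simp) (by simp)
    rw [mul_one] at this
    exact (mul_eq_left.1 this.symm)
  have θc : ∀ n x, n * t = t * n → x * t = t * x → θ (n * x * n⁻¹) = θ x := by
    intro n x hn hx
    have e := θm n n⁻¹ hn (Hi hn)
    rw [mul_inv_cancel, θ1] at e
    rw [θm _ _ (Hm hn hx) (Hi hn), θm _ _ hn hx, mul_comm (θ n), mul_assoc, ← e, mul_one]
  have θzx : ∀ x, x * t = t * x → θ (z * x) = θ x := fun x hx => by rw [θm _ _ zt hx, θz, one_mul]
  have θsc : ∀ n x, n * t = t * n → x * t = t * x → θ (s * (n * x * n⁻¹) * s) = θ (s * x * s) := by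
    intro n x hn hx
    rw [← θc (s * n * s) (s * x * s) (Hs hn) (Hs hx)]
    congr 1
    simp only [mul_inv_rev, si, mul_assoc, ss']
  set χ : G → ℤˣ := fun x => θ x * θ (s * x * s) with hχ
  have χm : ∀ x y, x * t = t * x → y * t = t * y → χ (x * y) = χ x * χ y := by
    intro x y hx hy
    have e : s * (x * y) * s = s * x * s * (s * y * s) := by simp only [mul_assoc, ss']
    simp only [hχ]
    rw [e, θm _ _ hx hy, θm _ _ (Hs hx) (Hs hy), mul_mul_mul_comm]
  have χs : ∀ x, χ (s * x * s) = χ x := by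
    intro x
    have e : s * (s * x * s) * s = x := by simp only [mul_assoc, ss', ss, mul_one]
    simp only [hχ]
    rw [e, mul_comm]
  have χz : χ z = 1 := by
    simp only [hχ]
    rw [zc, mul_assoc, ss, mul_one, θz, one_mul]
  have χN : ∀ n x, Nm z t n → x * t = t * x →
      n * x * n⁻¹ * t = t * (n * x * n⁻¹) ∧ χ (n * x * n⁻¹) = χ x := by
    have A : ∀ n x, n * t = t * n → x * t = t * x →
        n * x * n⁻¹ * t = t * (n * x * n⁻¹) ∧ χ (n * x * n⁻¹) = χ x := fun n x hn hx =>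
      ⟨Hm (Hm hn hx) (Hi hn), by simp only [hχ]; rw [θc n x hn hx, θsc n x hn hx]⟩
    intro n x hn hx
    rcases h.nm_split hn with hn | hn
    · exact A n x hn hx
    · obtain ⟨a1, a2⟩ := A _ x hn hx
      have e : n * x * n⁻¹ = s * (s * n * x * (s * n)⁻¹) * s := by
        simp only [mul_inv_rev, si, mul_assoc, ss', ss, mul_one]
      rw [e, χs]
      exact ⟨Hs a1, a2⟩
  have Rt : ∀ {x}, x ∈ RR S t → x * t = t * x := fun hx => (mem_RR.1 hx).2
  have RS : RR S t ≤ (S : Subgroup G) := inf_le_left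
  have pm : ∀ a : ℤˣ, a ≠ 1 → a = -1 := fun a ha => (Int.units_eq_one_or a).resolve_left ha
  -- `χ` is trivial on the square roots of `z`
  have χw : ∀ w ∈ RR S t, w * w = z → χ w = 1 := by
    intro w wR ww
    by_contra hw
    have wt := Rt wR
    have hU : ∀ g, Nm z t (g * t * g⁻¹) → Nm z (g * t * g⁻¹) w → g * t * g⁻¹ = t ∨ g * t * g⁻¹ = z * t := by
      intro g h1 h2
      have hr := h.rf_cj h.rt g
      generalize g * t * g⁻¹ = r at *
      rcases h.nm_split h1 with c1 | c1
      · rcases h.inv_cen h.rt c1 hr.1 with e | e | e | e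
        · exact absurd e hr.2.1
        · exact absurd e hr.2.2
        · exact Or.inl e
        · exact Or.inr e
      · exfalso
        apply hw
        have e1 := θsc _ w c1 wt
        have e2 : s * (s * r * w * (s * r)⁻¹) * s = r * w * r⁻¹ := by
          simp only [mul_inv_rev, si, mul_assoc, ss', ss, mul_one]
        have e3 : θ (r * w * r⁻¹) = θ w := by
          rcases h2 with h2 | h2
          · congr 1
            calc r * w * r⁻¹ = w * r * w⁻¹ * w * r⁻¹ := by rw [h2]
              _ = w := by group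
          · rw [← θzx w wt]
            congr 1
            have h3 : z * (w * r * w⁻¹) = r := by rw [h2, ← mul_assoc, zz, one_mul]
            calc r * w * r⁻¹ = z * (w * r * w⁻¹) * w * r⁻¹ := by rw [h3]
              _ = z * w := by group
        simp only [hχ]
        rw [← e1, e2, e3, Int.units_mul_self]
    have hwN : Nm z t w := Or.inl (by rw [wt, mul_inv_cancel_right])
    obtain ⟨δ, δR, -⟩ := ext2 h.sS h.s_nmem ss RS h.split χ (fun x hx y hy => χm x y (Rt hx) (Rt hy))
      (fun x _ => χs x) (y := 1) (mul_one 1)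
    apply hw
    refine tr4 h.perf S δ (x := w) (by rw [show 4 = 2 + 2 from rfl, pow_add, pow_two, ww, zz]) ?_ ?_
    · intro g hg
      obtain ⟨n, hn, e⟩ := lemU zz zc tt hwN hU g (h.nm _ hg)
      obtain ⟨a1, a2⟩ := χN n w hn wt
      rcases e with e | e
      · rw [e] at a1 a2
        rw [δR _ hg (mem_RR.2 ⟨hg, a1⟩), a2]
      · have e' : g * w * g⁻¹ = z * (n * w * n⁻¹) := by rw [e, ← mul_assoc, zz, one_mul]
        have b1 : g * w * g⁻¹ * t = t * (g * w * g⁻¹) := by rw [e']; exact Hm zt a1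
        rw [δR _ hg (mem_RR.2 ⟨hg, b1⟩), e', χm _ _ zt a1, χz, one_mul, a2]
    · intro g hg
      have e : g * (w * w) * g⁻¹ = z := by rw [ww, zc, mul_inv_cancel_right]
      have b1 : g * (w * w) * g⁻¹ * t = t * (g * (w * w) * g⁻¹) := by rw [e]; exact zt
      rw [δR _ hg (mem_RR.2 ⟨hg, b1⟩), e, χz]
  have χD : ∀ x ∈ D₀, χ x = 1 := by
    have A : ∀ n : ℤ, χ (c ^ n * j) = 1 := by
      intro n
      refine χw _ (le (mul_mem (zpow_mem hQ.cD n) hQ.jD)) ?_
      have e : j * c ^ n * j⁻¹ = (c ^ n)⁻¹ := by rw [← conj_zpow, hQ.jc, inv_zpow]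
      calc c ^ n * j * (c ^ n * j) = c ^ n * (j * c ^ n * j⁻¹) * (j * j) := by group
        _ = z := by rw [e, hQ.jj, mul_inv_cancel, one_mul]
    intro x hx
    obtain ⟨n, e | e⟩ := hQ.all x hx
    · have e1 := A n
      have e2 := A 0
      rw [zpow_zero, one_mul] at e2
      rw [χm _ _ (Rt (le (zpow_mem hQ.cD n))) (Rt (le hQ.jD)), e2, mul_one] at e1
      rw [e, e1]
    · rw [e, A]
  have χt : χ t = 1 := by
    simp only [hχ]
    rw [sts, θzx t rfl, Int.units_mul_self]
  have θs : ∀ x ∈ RR S t, θ (s * x * s) = θ x := by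
    intro x hx
    have e : χ x = 1 := by
      rcases cov x hx with e | e
      · exact χD x e
      · have := χD _ e
        rwa [χm _ _ (Rt hx) rfl, χt, mul_one] at this
    simp only [hχ] at e
    rw [eq_inv_of_mul_eq_one_right e, Int.units_inv_eq_self]
  have tR : t ∈ RR S t := mem_RR.2 ⟨h.tS, rfl⟩
  have zR : z ∈ RR S t := le zD
  let D : Subgroup G :=
    { carrier := {x | x ∈ RR S t ∧ θ x = 1}
      one_mem' := ⟨one_mem _, θ1⟩
      mul_mem' := fun {a b} ha hb => ⟨mul_mem ha.1 hb.1, by rw [θm _ _ (Rt ha.1) (Rt hb.1), ha.2, hb.2, mul_one]⟩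
      inv_mem' := fun {a} ha => ⟨inv_mem ha.1, by
        have := θm _ _ (Rt ha.1) (Hi (Rt ha.1))
        rw [mul_inv_cancel, θ1, ha.2, one_mul] at this
        exact this.symm⟩ }
  have mD : ∀ x, x ∈ D ↔ x ∈ RR S t ∧ θ x = 1 := fun _ => Iff.rfl
  have ne : (-1 : ℤˣ) ≠ 1 := by decide
  refine ⟨D, ⟨fun x hx => hx.1, fun e => ne (θt ▸ e.2), ⟨zR, θz⟩, fun x hx => ?_,
    fun x hx => ⟨h.sRs x hx.1, by rw [θs x hx.1]; exact hx.2⟩⟩, ?_⟩
  · by_cases e : θ x = 1
    · exact Or.inl ⟨hx, e⟩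
    · exact Or.inr ⟨mul_mem hx tR, by rw [θm _ _ (Rt hx) rfl, pm _ e, θt]; decide⟩
  · obtain ⟨δ, δR, δs⟩ := ext2 h.sS h.s_nmem ss RS h.split θ (fun x hx y hy => θm x y (Rt hx) (Rt hy)) θs
      (y := -1) (by decide)
    by_contra hq
    apply ne
    refine tr4 h.perf S δ (x := t) (by rw [show 4 = 2 + 2 from rfl, pow_add, pow_two, tt, mul_one]) ?_ ?_
    · intro g hg
      have hr := h.rf_cj h.rt g
      generalize g * t * g⁻¹ = r at *
      rcases h.split r hg with rR | rR
      · rw [δR _ hg rR]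
        rcases h.inv_cen h.rt (Rt rR) hr.1 with e | e | e | e
        · exact absurd e hr.2.1
        · exact absurd e hr.2.2
        · rw [e, θt]
        · rw [e, θzx t rfl, θt]
      · have e : (⟨r, hg⟩ : (S : Subgroup G)) = ⟨s, h.sS⟩ * ⟨s * r, RS rR⟩ := Subtype.ext (ss' r).symm
        rw [e, map_mul, δs, δR _ _ rR]
        by_cases e1 : θ (s * r) = 1
        · rw [e1, mul_one]
        · exfalso
          apply hq
          refine ⟨t * (s * r), ⟨mul_mem tR rR, by rw [θm _ _ rfl (Rt rR), pm _ e1, θt]; decide⟩, ?_⟩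
          have e2 := Rt rR
          calc s * (t * (s * r)) * s * (t * (s * r)) = s * (s * r * t) * s * (t * (s * r)) := by rw [e2]
            _ = r * t * (s * t * s) * r := by simp only [mul_assoc, ss']
            _ = r * (t * t) * r * z := by
                rw [sts, zt]; simp only [mul_assoc]; rw [zc r]
            _ = z := by rw [tt, mul_one, hr.1, one_mul]
    · intro g hg
      have e : (⟨_, hg⟩ : (S : Subgroup G)) = 1 := Subtype.ext (by simp [tt])
      rw [e, map_one]

end CfsgLib.GL2D
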