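import Cfsg.Agent.Lib.GL2D.Defs
import Cfsg.Agent.Lib.Frob.Quaternion
import Cfsg.Agent.Lib.Transfer.Thompson

/-! SM3: involutory automorphisms of quaternion groups.  See `plans/GL2D.md`. -/

set_option autoImplicit false
set_option linter.unusedVariables false

namespace CfsgLib.GL2D
open Subgroup

variable {G : Type*} [Group G] [Finite G] {D : Subgroup G} {z : G}

theorem exists_QG (hD : IsPGroup 2 D) (zD : z ∈ D) (zz : z * z = 1) (z1 : z ≠ 1)
    (un : ∀ x ∈ D, x * x = 1 → x = 1 ∨ x = z) (nc : ¬ ∀ x ∈ D, ∀ y ∈ D, x * y = y * x) : ∃ c j, QG D z c j := by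
  have o2 : ∀ x : D, orderOf x = 2 → (x : G) = z := fun x hx => by
    rcases un x x.2 (by rw [← pow_two, ← coe_pow, ← hx, pow_orderOf_eq_one]; rfl) with e | e
    · rw [show x = 1 from Subtype.ext e] at hx
      simp at hx
    · exact e
  rcases Frob.exists_gens_of_forall_mem_zpowers hD (fun x y hx hy => by
    rw [show y = x from Subtype.ext ((o2 y hy).trans (o2 x hx).symm)]
    exact mem_zpowers x) with hc | ⟨-, a, b, m, hi, ha, hb, hm, bb, ba⟩
  · exact absurd (fun x hx y hy => congrArg Subtype.val (hc.isMulCommutative.is_comm.comm (⟨x, hx⟩ : D) ⟨y, hy⟩)) nc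
  obtain ⟨n, rfl⟩ : ∃ n, m = n + 2 := ⟨m - 2, by omega⟩
  have az : ((a ^ 2 ^ (n + 1) : D) : G) = z := o2 _ (by
    rw [orderOf_pow' _ (by positivity), ha, Nat.gcd_eq_right (pow_dvd_pow _ (by omega)), pow_succ,
      Nat.mul_div_cancel_left _ (by positivity)])
  refine ⟨a, b, a.2, b.2, fun x hx => ?_, ?_, congrArg Subtype.val ba, ?_, fun e => hb ?_, fun e => ?_⟩
  · obtain ⟨i, e⟩ := Frob.exists_eq_zpow_or_of_index_two hi hb ⟨x, hx⟩
    exact ⟨i, e.imp (congrArg Subtype.val) (congrArg Subtype.val)⟩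
  · rw [← az, ← pow_two, ← coe_pow, bb]
    rfl
  · rw [← az]
    exact pow_mem (mem_zpowers _) _
  · obtain ⟨i, e⟩ := e
    exact ⟨i, Subtype.ext e⟩
  · have : orderOf a ∣ 2 := orderOf_dvd_of_pow_eq_one (Subtype.ext (by rw [coe_pow, pow_two, e]; rfl))
    rw [ha] at this
    have := Nat.le_of_dvd two_pos this
    have : 0 < 2 ^ n := by positivity
    rw [pow_add] at *
    omega

namespace QG
variable {c j s : G}

omit [Finite G] in
theorem jcn (h : QG D z c j) (n : ℤ) : j * c ^ n = c ^ (-n) * j := by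
  rw [← mul_inv_eq_iff_eq_mul, ← conj_zpow, h.jc, inv_zpow']

omit [Finite G] in
theorem out (h : QG D z c j) {x : G} (xD : x ∈ D) (hx : x ∉ zpowers c) : QG D z c x := by
  obtain ⟨n, e | rfl⟩ := h.all x xD
  · exact absurd (e ▸ zpow_mem (mem_zpowers c) n) hx
  refine ⟨h.cD, xD, fun y hy => ?_, ?_, ?_, h.zc, hx, h.cc⟩
  · obtain ⟨m, e | e⟩ := h.all y hy
    · exact ⟨m, .inl e⟩
    · exact ⟨m - n, .inr (by rw [e]; group)⟩
  · rw [mul_assoc, ← mul_assoc j, h.jcn, ← h.jj]
    group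
  · rw [show c ^ n * j * c * (c ^ n * j)⁻¹ = c ^ n * (j * c * j⁻¹) * (c ^ n)⁻¹ by group, h.jc]
    group

/-- The involution of the cyclic subgroup. -/
theorem inv_c (h : QG D z c j) (zz : z * z = 1) (z1 : z ≠ 1) {x : G} (hx : x ∈ zpowers c) (xx : x * x = 1) :
    x = 1 ∨ x = z := by
  by_cases x1 : x = 1
  · exact .inl x1
  have : Fact (Nat.Prime 2) := ⟨Nat.prime_two⟩
  exact .inr (Transfer.eq_of_orderOf_eq_two_of_isCyclic inferInstance hx h.zc
    (orderOf_eq_prime (by rwa [pow_two]) x1) (orderOf_eq_prime (by rwa [pow_two]) z1))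

/-- The main case: the cyclic subgroup is invariant. -/
theorem nf0 {q : G} (h : QG D z c j) (hD : IsPGroup 2 D) (zz : z * z = 1) (z1 : z ≠ 1)
    (zc : ∀ g, g * z = z * g) (ss : s * s = 1) (sD : ∀ x ∈ D, s * x * s ∈ D) (qD : q ∈ D)
    (hq : s * q * s * q = z) (hc : s * c * s ∈ zpowers c) :
    ∃ a ∈ D, (s * a * s * a = 1 ∨ s * a * s * a = z) ∧
      ∀ x ∈ D, a⁻¹ * (s * x * s) * a = x ∨ a⁻¹ * (s * x * s) * a = z * x := by
  have si : s⁻¹ = s := inv_eq_of_mul_eq_one_right ss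
  have zi : z⁻¹ = z := inv_eq_of_mul_eq_one_right zz
  have zl : ∀ x, z * (z * x) = x := fun x => by rw [← mul_assoc, zz, one_mul]
  let φ : G →* G := (MulAut.conj s).toMonoidHom
  have hφ : ∀ x, s * x * s = φ x := fun x => by simp [φ, si]
  have φφ : ∀ x, φ (φ x) = x := fun x => by
    rw [← hφ, ← hφ, ← mul_assoc, ← mul_assoc, ss, one_mul, mul_assoc, ss, mul_one]
  simp only [hφ] at *
  obtain ⟨k, hk⟩ := hc
  have hk : φ c = c ^ k := hk.symm
  have φn : ∀ n : ℤ, φ (c ^ n) = c ^ (k * n) := fun n => by rw [map_zpow, hk, ← zpow_mul]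
  -- elements of `⟨c⟩` killed by an odd exponent
  have odd : ∀ x ∈ D, ∀ m : ℤ, Odd m → x ^ m = 1 → x = 1 := fun x hx m hm e => by
    obtain ⟨n, hn⟩ := hD ⟨x, hx⟩
    have hn : x ^ ((2 : ℤ) ^ n) = 1 := by
      have : x ^ 2 ^ n = 1 := congrArg Subtype.val hn
      exact_mod_cast this
    have cp : IsCoprime m ((2 : ℤ) ^ n) := (Int.isCoprime_two_right.2 hm).pow_right
    obtain ⟨u, v, huv⟩ := cp
    rw [← zpow_one x, ← huv, zpow_add, mul_comm u, mul_comm v, zpow_mul, zpow_mul, e, hn]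
    simp
  have cn : ∀ n : ℤ, c ^ n ∈ D := fun n => zpow_mem h.cD n
  have two : ∀ n : ℤ, c ^ (2 * n) = 1 → c ^ n = 1 ∨ c ^ n = z := fun n e =>
    h.inv_c zz z1 (zpow_mem (mem_zpowers c) n) (by rw [← zpow_add, ← two_mul, e])
  have kk : c ^ (k * k - 1) = 1 := by rw [zpow_sub, ← φn, ← hk, φφ, zpow_one, mul_inv_cancel]
  have ko : Odd k := by
    by_contra hk
    have := odd c h.cD _ (((Int.not_odd_iff_even.1 hk).mul_right k).sub_odd odd_one) kk
    exact h.cc (by rw [this, mul_one])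
  -- closure of the congruence modulo `z`
  have gen : ∀ (a x : G), QG D z c x → (a⁻¹ * φ c * a = c ∨ a⁻¹ * φ c * a = z * c) →
      (a⁻¹ * φ x * a = x ∨ a⁻¹ * φ x * a = z * x) → ∀ y ∈ D, a⁻¹ * φ y * a = y ∨ a⁻¹ * φ y * a = z * y := by
    intro a x hx h1 h2
    let K : Subgroup G :=
      { carrier := {y | a⁻¹ * φ y * a = y ∨ a⁻¹ * φ y * a = z * y}
        one_mem' := .inl (by simp)
        mul_mem' := fun {u v} hu hv => by
          have e : a⁻¹ * φ (u * v) * a = a⁻¹ * φ u * a * (a⁻¹ * φ v * a) := by rw [map_mul]; group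
          change _ ∨ _
          rw [e]
          rcases hu with hu | hu <;> rcases hv with hv | hv <;> rw [hu, hv]
          · exact .inl rfl
          · exact .inr (by rw [← mul_assoc, zc, mul_assoc])
          · exact .inr (mul_assoc _ _ _)
          · exact .inl (by rw [mul_assoc, ← mul_assoc u, zc, mul_assoc, zl])
        inv_mem' := fun {u} hu => by
          have e : a⁻¹ * φ u⁻¹ * a = (a⁻¹ * φ u * a)⁻¹ := by rw [map_inv]; group
          change _ ∨ _
          rw [e]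
          rcases hu with hu | hu <;> rw [hu]
          · exact .inl rfl
          · exact .inr (by rw [mul_inv_rev, zi, zc]) }
    intro y hy
    have cK : c ∈ K := h1
    have xK : x ∈ K := h2
    obtain ⟨n, e | e⟩ := hx.all y hy
    · exact (e ▸ zpow_mem cK n : y ∈ K)
    · exact (e ▸ mul_mem (zpow_mem cK n) xK : y ∈ K)
  obtain ⟨m, rfl⟩ := ko
  -- `k = 2 m + 1`, `k² - 1 = 4 m (m + 1)`
  have cases : (Even m ∧ (φ c = c ∨ φ c = z * c)) ∨ (φ c = c⁻¹ ∨ φ c = z * c⁻¹) := by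
    rcases Int.even_or_odd m with hm | hm
    · left
      have : c ^ (2 * (2 * m)) = 1 := odd _ (cn _) (m + 1) hm.add_one (by rw [← zpow_mul, ← kk]; congr 1; ring)
      refine ⟨hm, (two _ this).imp (fun e => ?_) fun e => ?_⟩ <;> rw [hk, zpow_add, e, zpow_one]
      rw [one_mul]
    · right
      have : c ^ (2 * (2 * m + 2)) = 1 := odd _ (cn _) m hm (by rw [← zpow_mul, ← kk]; congr 1; ring)
      have e0 : c ^ (2 * m + 1) = c ^ (2 * m + 2) * c⁻¹ := by group
      refine (two _ this).imp (fun e => ?_) fun e => ?_ <;> rw [hk, e0, e]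
      rw [one_mul]
  by_cases hA : ∃ x ∈ D, x ∉ zpowers c ∧ (φ x = x ∨ φ x = z * x)
  · obtain ⟨x, xD, xc, hx⟩ := hA
    have hQ := h.out xD xc
    rcases cases with ⟨-, e⟩ | e
    · exact ⟨1, one_mem _, .inl (by simp), gen 1 x hQ (by simpa using e) (by simpa using hx)⟩
    · have xi : x⁻¹ * c⁻¹ * x = c := by rw [← hQ.jc]; group
      refine ⟨x, xD, ?_, gen x x hQ ?_ ?_⟩
      · rcases hx with hx | hx <;> rw [hx]
        · exact .inr hQ.jj
        · exact .inl (by rw [mul_assoc, hQ.jj, zz])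
      · rcases e with e | e <;> rw [e]
        · exact .inl xi
        · exact .inr (by rw [← mul_assoc, zc, mul_assoc z, mul_assoc z, xi])
      · rcases hx with hx | hx <;> rw [hx]
        · exact .inl (by group)
        · exact .inr (by rw [← mul_assoc, zc]; group)
  exfalso
  push Not at hA
  have jn : φ j ∉ zpowers c := fun e => h.jn (by
    obtain ⟨n, e⟩ := e
    have e : c ^ n = φ j := e
    rw [← φφ j, ← e, φn]
    exact zpow_mem (mem_zpowers c) _)
  obtain ⟨l, e | hl⟩ := h.all _ (sD j h.jD)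
  · exact jn (e ▸ zpow_mem (mem_zpowers c) l)
  have hl2 : c ^ ((2 * m + 2) * l) = 1 := by
    have := φφ j
    rw [hl, map_mul, φn, hl, ← mul_assoc, ← zpow_add, mul_eq_right] at this
    rw [← this]
    congr 1
    ring
  have nA : ∀ i : ℤ, c ^ i * j ∉ zpowers c := fun i e =>
    h.jn ((mul_mem_cancel_left (zpow_mem (mem_zpowers c) i)).1 e)
  rcases cases with ⟨hm, -⟩ | e
  · have : c ^ (2 * l) = 1 := odd _ (cn _) (m + 1) hm.add_one (by rw [← zpow_mul, ← hl2]; congr 1; ring)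
    rcases two _ this with e | e
    · exact (hA j h.jD h.jn).1 (by rw [hl, e, one_mul])
    · exact (hA j h.jD h.jn).2 (by rw [hl, e])
  rcases Int.even_or_odd l with ⟨i, rfl⟩ | hlo
  · have hz : Commute z c⁻¹ := (zc _).symm
    have := hA _ (mul_mem (cn i) h.jD) (nA i)
    rw [map_mul, map_zpow, hl] at this
    rcases e with e | e <;> rw [e] at this
    · exact this.1 (by group)
    · rw [hz.mul_zpow] at this
      have e2 : z ^ i * c⁻¹ ^ i * (c ^ (i + i) * j) = z ^ i * (c ^ i * j) := by group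
      rw [e2] at this
      rcases Int.even_or_odd' i with ⟨n, hn | hn⟩
      · exact this.1 (by rw [hn, zpow_mul, zpow_two, zz, one_zpow, one_mul])
      · exact this.2 (by rw [hn, zpow_add, zpow_mul, zpow_two, zz, one_zpow, one_mul, zpow_one])
  · have : c ^ (2 * m + 2) = 1 := odd _ (cn _) l hlo (by rw [← zpow_mul, hl2])
    by_cases qc : q ∈ zpowers c
    · obtain ⟨n, rfl⟩ := qc
      change φ (c ^ n) * c ^ n = z at hq
      rw [φn, ← zpow_add, show (2 * m + 1) * n + n = (2 * m + 2) * n by ring, zpow_mul, this, one_zpow] at hq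
      exact z1 hq.symm
    · exact (hA q qD qc).1 (mul_right_cancel (hq.trans (h.out qD qc).jj.symm))

end QG

omit [Finite G] in
theorem QG.swap {c e : G} (h : QG D z c e) (zz : z * z = 1) (z1 : z ≠ 1) (zc : ∀ g, g * z = z * g)
    (cc : c * c = z) : QG D z e c := by
  have inv : ∀ {x : G}, x * x = z → x⁻¹ = z * x := fun {x} xx => by
    rw [eq_comm, eq_inv_iff_mul_eq_one, mul_assoc, xx, zz]
  have ec : e * c = z * (c * e) := by rw [mul_inv_eq_iff_eq_mul.1 h.jc, inv cc, mul_assoc]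
  have ce : c * e = e⁻¹ * c := by rw [inv h.jj, mul_assoc, ec, ← mul_assoc, zz, one_mul]
  have z2 : z = e ^ (2 : ℤ) := by rw [zpow_two, h.jj]
  refine ⟨h.jD, h.cD, fun x hx => ?_, cc, by rw [ce]; group, h.jj ▸ mul_mem (mem_zpowers _) (mem_zpowers _),
    fun hc => ?_, by rw [h.jj]; exact z1⟩
  · have four : ∀ n : ℤ, c ^ n = 1 ∨ c ^ n = z ∨ c ^ n = c ∨ c ^ n = z * c := fun n => by
      have zn : ∀ m : ℤ, z ^ m = 1 ∨ z ^ m = z := fun m => by
        rcases Int.even_or_odd' m with ⟨n, hn | hn⟩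
        · exact .inl (by rw [hn, zpow_mul, zpow_two, zz, one_zpow])
        · exact .inr (by rw [hn, zpow_add, zpow_mul, zpow_two, zz, one_zpow, one_mul, zpow_one])
      rcases Int.even_or_odd' n with ⟨m, hm | hm⟩
      · rw [hm, zpow_mul, zpow_two, cc]
        rcases zn m with e | e <;> simp [e]
      · rw [hm, zpow_add, zpow_mul, zpow_two, cc, zpow_one]
        rcases zn m with e | e <;> simp [e]
    obtain ⟨n, rfl | rfl⟩ := h.all x hx <;> rcases four n with e1 | e1 | e1 | e1 <;> rw [e1]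
    · exact ⟨0, .inl (by simp)⟩
    · exact ⟨2, .inl z2⟩
    · exact ⟨0, .inr (by simp)⟩
    · exact ⟨2, .inr (by rw [← z2])⟩
    · exact ⟨1, .inl (by simp)⟩
    · exact ⟨2 + 1, .inl (by rw [zpow_add, ← z2, zpow_one])⟩
    · exact ⟨-1, .inr (by rw [ce, zpow_neg_one])⟩
    · exact ⟨1, .inr (by rw [zpow_one, ec, mul_assoc])⟩
  · obtain ⟨n, hn⟩ := hc
    have : e * c = c * e := by rw [← hn]; exact ((Commute.refl e).zpow_right n).eq
    rw [this] at ec
    exact z1 (by simpa using ec)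

theorem QG.normal_form {c j s q : G} (h : QG D z c j) (hD : IsPGroup 2 D) (zz : z * z = 1) (z1 : z ≠ 1)
    (zc : ∀ g, g * z = z * g) (ss : s * s = 1) (sD : ∀ x ∈ D, s * x * s ∈ D) (qD : q ∈ D)
    (hq : s * q * s * q = z) :
    ∃ a ∈ D, (s * a * s * a = 1 ∨ s * a * s * a = z) ∧
      ∀ x ∈ D, a⁻¹ * (s * x * s) * a = x ∨ a⁻¹ * (s * x * s) * a = z * x := by
  by_cases hc : s * c * s ∈ zpowers c
  · exact h.nf0 hD zz z1 zc ss sD qD hq hc
  have hd := h.out (sD c h.cD) hc
  have si : s⁻¹ = s := inv_eq_of_mul_eq_one_right ss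
  have cc : c * c = z := by
    have : s * c * s⁻¹ * (s * c * s⁻¹) = z := by rw [si, hd.jj]
    calc c * c = s⁻¹ * (s * c * s⁻¹ * (s * c * s⁻¹)) * s := by group
      _ = z := by rw [this, zc, mul_assoc, inv_mul_cancel, mul_one]
  have n1 : c * (s * c * s) ∉ zpowers c := fun e => hc ((mul_mem_cancel_left (mem_zpowers c)).1 e)
  have he := h.out (mul_mem h.cD hd.jD) n1
  refine (he.swap zz z1 zc cc).nf0 hD zz z1 zc ss sD qD hq ?_
  have : s * (c * (s * c * s)) * s = (c * (s * c * s))⁻¹ := by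
    rw [eq_inv_iff_mul_eq_one]
    calc s * (c * (s * c * s)) * s * (c * (s * c * s)) = s * c * s * c * (s * s) * c * (s * c * s) := by group
      _ = s * c * s * (c * c) * (s * c * s) := by rw [ss]; group
      _ = 1 := by rw [cc, zc, mul_assoc, hd.jj, zz]
  rw [this]
  exact inv_mem (mem_zpowers _)

end CfsgLib.GL2D
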