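import Cfsg.Agent.Lib.GL2D.Cor

/-! TAU: the normalised trace.  See `plans/GL2D.md`. -/

set_option autoImplicit false
set_option linter.unusedSectionVars false

namespace CfsgLib.GL2D
open Subgroup

variable {G : Type*} [Group G] [Finite G] {A : Type*} [Ring A] [Algebra ℚ A] {ρ : G →* A}

/-- rational characters are real -/
theorem tau_inv {V : Type*} [AddCommGroup V] [Module ℚ V] [FiniteDimensional ℚ V] (σ : Representation ℚ G V) (g : G) :
    σ.character g⁻¹ = σ.character g := by
  classical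
  let _ := Fintype.ofFinite G
  let b := Module.finBasis ℚ V
  let M : G →* Matrix _ _ ℚ := (LinearMap.toMatrixAlgEquiv b).toAlgHom.toRingHom.toMonoidHom.comp σ
  have hM : ∀ g, σ.character g = (M g).trace := fun g => LinearMap.trace_eq_matrix_trace ℚ b (σ g)
  let S := ∑ k : G, (M k).transpose * M k
  have h1 : (M g).transpose * S = S * M g⁻¹ := by
    simp only [S, Finset.mul_sum, Finset.sum_mul]
    refine Fintype.sum_equiv (Equiv.mulRight g) _ _ fun k => ?_
    rw [Equiv.coe_mulRight, mul_assoc, ← map_mul, mul_inv_cancel_right, map_mul, Matrix.transpose_mul, mul_assoc]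
  have h2 : IsUnit S := Matrix.mulVec_injective_iff_isUnit.1 (by
    refine (injective_iff_map_eq_zero (Matrix.mulVecLin S)).2 fun v hv => ?_
    have h3 : ∑ k : G, (M k).mulVec v ⬝ᵥ (M k).mulVec v = 0 := by
      have := congrArg (v ⬝ᵥ ·) hv
      simp only [Matrix.mulVecLin_apply, S, Matrix.sum_mulVec, dotProduct_sum, dotProduct_zero] at this
      rw [← this]
      refine Finset.sum_congr rfl fun k _ => ?_
      rw [← Matrix.mulVec_mulVec, Matrix.dotProduct_mulVec v, Matrix.vecMul_transpose]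
    have h4 := (Finset.sum_eq_zero_iff_of_nonneg fun k _ => Finset.sum_nonneg fun i _ => mul_self_nonneg _).1 h3 1
      (Finset.mem_univ _)
    rw [map_one, Matrix.one_mulVec] at h4
    exact dotProduct_self_eq_zero.1 h4)
  obtain ⟨U, hU⟩ := h2
  rw [hM, hM, ← Matrix.trace_transpose (M g), ← Matrix.trace_units_conj U (M g⁻¹), hU, ← h1, ← hU, mul_assoc,
    Units.mul_inv, mul_one]

section

variable {B : Type*} [Ring B] [Algebra ℚ B] [FiniteDimensional ℚ B] {θ : G →* B}

/-- the trace of the left multiplication -/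
noncomputable def tauT (B : Type*) [Ring B] [Algebra ℚ B] : B →ₗ[ℚ] ℚ :=
  LinearMap.trace ℚ B ∘ₗ (Algebra.lmul ℚ B).toLinearMap

theorem tauT_one : tauT B 1 = Module.finrank ℚ B := by
  rw [tauT, LinearMap.comp_apply, AlgHom.toLinearMap_apply, map_one, LinearMap.trace_one]

theorem tauT_idem {e : B} (h : e * e = e) : tauT B e = Module.finrank ℚ (LinearMap.range (Algebra.lmul ℚ B e)) :=
  (LinearMap.IsIdempotentElem.isProj_range (Algebra.lmul ℚ B e) (by rw [IsIdempotentElem, ← map_mul, h])).trace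

theorem tau_half (hi : Irr θ) (lf : ∀ f x v : B, f * f = f → f ≠ 1 → x * f = x → x ≠ 0 → x * v = 0 → f * v = 0)
    {e : B} (h : e * e = e) (h0 : e ≠ 0) (h1 : e ≠ 1) : tauT B e ≤ tauT B (1 - e) := by
  classical
  let _ := Fintype.ofFinite G
  obtain ⟨g, hg⟩ : ∃ g, (1 - e) * θ g * e ≠ 0 := by
    by_contra! hn
    have hc : (Fintype.card G : ℚ) ≠ 0 := Nat.cast_ne_zero.2 Fintype.card_ne_zero
    have a1 : ∀ g, e * (θ g * e) = θ g * e := fun g => by
      have := hn g
      rw [sub_mul, sub_mul, one_mul, sub_eq_zero, mul_assoc] at this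
      exact this.symm
    let e' : B := (Fintype.card G : ℚ)⁻¹ • ∑ g, θ g * e * θ g⁻¹
    have a2 : e' * e = e := by
      simp only [e', smul_mul_assoc, Finset.sum_mul]
      rw [Finset.sum_congr rfl (g := fun _ => e) fun g _ => by
        rw [mul_assoc, mul_assoc, a1, ← mul_assoc, ← map_mul, mul_inv_cancel, map_one, one_mul]]
      rw [Finset.sum_const, Finset.card_univ, ← Nat.cast_smul_eq_nsmul ℚ, smul_smul, inv_mul_cancel₀ hc, one_smul]
    have a3 : e * e' = e' := by
      simp only [e', mul_smul_comm, Finset.mul_sum]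
      rw [Finset.sum_congr rfl fun g _ => by rw [← mul_assoc, a1]]
    rcases hi e' (by rw [← a3, mul_assoc, ← mul_assoc e', a2, a3, a3]) (fun k => by
      simp only [e', mul_smul_comm, smul_mul_assoc, Finset.mul_sum, Finset.sum_mul]
      congr 1
      refine Fintype.sum_equiv (Equiv.mulLeft k) _ _ fun g => ?_
      rw [Equiv.coe_mulLeft, mul_assoc _ (θ _) (θ k), ← map_mul, mul_inv_rev, inv_mul_cancel_right, map_mul]
      simp only [mul_assoc]) with c | c
    · exact h0 (by rw [← a2, c, zero_mul])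
    · exact h1 (by rw [← c, ← a3, c, mul_one])
  have h2 : (1 - e) * (1 - e) = 1 - e := by rw [mul_sub, mul_one, sub_mul, one_mul, h, sub_self, sub_zero]
  rw [tauT_idem h, tauT_idem h2, Nat.cast_le]
  refine LinearMap.finrank_le_finrank_of_injective (f := (Algebra.lmul ℚ B ((1 - e) * θ g * e)).restrict
    fun v _ => ⟨θ g * e * v, by simp [mul_assoc, sub_mul]⟩) ((injective_iff_map_eq_zero _).2 ?_)
  rintro ⟨_, v, rfl⟩ hv
  have := lf e _ _ h h1 (by rw [mul_assoc, h]) hg (congrArg Subtype.val hv)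
  change e * (e * v) = 0 at this
  rw [← mul_assoc, h] at this
  exact Subtype.ext this

theorem tau_sum {u w : G} {p : ℕ} (hp : p.Prime) (hu : orderOf u = p) (hw : w ∈ zpowers u) (h1 : w ≠ 1) :
    ∑ s ∈ Finset.range p, θ w ^ s = ∑ s ∈ Finset.range p, θ u ^ s := by
  classical
  have : Fact p.Prime := ⟨hp⟩
  have ho : orderOf w = p := orderOf_eq_prime (orderOf_dvd_iff_pow_eq_one.1 (hu ▸ orderOf_dvd_of_mem_zpowers hw)) h1
  have he : zpowers w = zpowers u :=
    eq_of_le_of_card_ge (zpowers_le.2 hw) (by rw [Nat.card_zpowers, Nat.card_zpowers, ho, hu])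
  have k : ∀ x : G, orderOf x = p → ∑ s ∈ Finset.range p, θ x ^ s = ∑ᶠ g ∈ (zpowers x : Set G), θ g := fun x hx => by
    rw [← finsum_mem_coe_finset]
    refine finsum_mem_eq_of_bijOn (fun s => x ^ s) ⟨fun s _ => pow_mem (mem_zpowers x) s, fun s hs t ht e => ?_,
      fun g hg => ?_⟩ fun s _ => (map_pow θ x s).symm
    · exact pow_injOn_Iio_orderOf (by simpa [hx] using hs) (by simpa [hx] using ht) e
    · obtain ⟨s, hs, e⟩ := Finset.mem_image.1 (mem_zpowers_iff_mem_range_orderOf.1 hg)
      exact ⟨s, by simpa [hx] using hs, e⟩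
  rw [k w ho, k u hu, he]

open Polynomial in
theorem tau_dim (inj : Function.Injective θ) {u y : G} {p a m : ℕ} (hp : p.Prime) (hu : orderOf u = p)
    (hy : y * u * y⁻¹ = u ^ a) (ha : ∀ i < m, ∀ j < m, a ^ i ≡ a ^ j [MOD p] → i = j) :
    (p - 1) * m ≤ Module.finrank ℚ B := by
  have : Fact p.Prime := ⟨hp⟩
  have hp0 : (p : ℚ) ≠ 0 := Nat.cast_ne_zero.2 hp.ne_zero
  obtain ⟨N, hN⟩ : ∃ N, N = ∑ s ∈ Finset.range p, θ u ^ s := ⟨_, rfl⟩
  have n1 : θ u * N = N := by
    have := mul_geom_sum (θ u) p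
    rwa [← hN, ← map_pow, ← hu, pow_orderOf_eq_one, map_one, sub_self, sub_mul, one_mul, sub_eq_zero] at this
  have n2 : ∀ s, θ u ^ s * N = N := fun s => by
    induction s with
    | zero => rw [pow_zero, one_mul]
    | succ s ih => rw [pow_succ, mul_assoc, n1, ih]
  have n3 : N * N = (p : ℚ) • N := by
    nth_rw 1 [hN]
    rw [Finset.sum_mul, Finset.sum_congr rfl fun s _ => n2 s, Finset.sum_const, Finset.card_range,
      Nat.cast_smul_eq_nsmul]
  obtain ⟨f, hf⟩ : ∃ f, f = (p : ℚ) • (1 : B) - N := ⟨_, rfl⟩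
  have f1 : N * f = 0 := by rw [hf, mul_sub, mul_smul_comm, mul_one, n3, sub_self]
  have f2 : f ≠ 0 := fun e => by
    rw [hf, sub_eq_zero] at e
    rw [← e, mul_smul_comm, mul_one, ← map_one θ] at n1
    rw [inj (smul_right_injective B hp0 n1), orderOf_one] at hu
    exact hp.one_lt.ne hu
  have f3 : Commute (θ u) f := by
    rw [hf, hN]
    exact ((Commute.one_right _).smul_right _).sub_right
      (Commute.sum_right _ _ _ fun s _ => (Commute.refl _).pow_right s)
  have y1 : ∀ j, y ^ j * u = u ^ a ^ j * y ^ j := fun j => by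
    induction j with
    | zero => simp
    | succ j ih =>
      rw [pow_succ' y, mul_assoc, ih, ← mul_assoc, pow_succ' a, pow_mul, ← hy, conj_pow, mul_assoc _ y⁻¹,
        inv_mul_cancel_left]
  have y2 : ∀ j s, θ y ^ j * θ u ^ s = θ (u ^ a ^ j) ^ s * θ y ^ j := fun j s => by
    refine (SemiconjBy.pow_right ?_ s).eq
    rw [SemiconjBy, ← map_pow θ y, ← map_mul, ← map_mul, y1]
  have li : LinearIndependent ℚ fun x : Fin m × Fin (p - 1) => θ u ^ (x.2 : ℕ) * f * θ y ^ (x.1 : ℕ) := by
    rw [Fintype.linearIndependent_iff]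
    rintro c hc ⟨l, i⟩
    let Q : Fin m → ℚ[X] := fun j => ∑ i : Fin (p - 1), monomial i (c (j, i))
    have q1 : ∑ j : Fin m, aeval (θ u) (Q j) * f * θ y ^ (j : ℕ) = 0 := by
      rw [← hc, Fintype.sum_prod_type]
      refine Finset.sum_congr rfl fun j _ => ?_
      simp only [Q, map_sum, aeval_monomial, Finset.sum_mul, ← Algebra.smul_def, smul_mul_assoc]
    have q2 : ∀ j, ∀ w ∈ zpowers u, Commute (θ w) (aeval (θ u) (Q j)) ∧ Commute (θ w) f := fun j w hw => by
      have : Commute (θ u) (aeval (θ u) (Q j)) := by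
        have := (Commute.all X (Q j)).map (aeval (θ u))
        rwa [aeval_X] at this
      obtain ⟨k, rfl⟩ := mem_powers_iff_mem_zpowers.2 hw
      simp only [map_pow]
      exact ⟨this.pow_left k, f3.pow_left k⟩
    have q3 : ∀ j : Fin m, ∑ s ∈ Finset.range p, θ (u ^ a ^ (l : ℕ))⁻¹ ^ s *
        (aeval (θ u) (Q j) * f * θ y ^ (j : ℕ)) * θ u ^ s = aeval (θ u) (Q j) *
          ((∑ s ∈ Finset.range p, θ ((u ^ a ^ (l : ℕ))⁻¹ * u ^ a ^ (j : ℕ)) ^ s) * f) * θ y ^ (j : ℕ) := fun j => by
      rw [Finset.sum_mul, Finset.mul_sum, Finset.sum_mul]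
      refine Finset.sum_congr rfl fun s _ => ?_
      have c1 := q2 j _ (pow_mem (inv_mem (pow_mem (mem_zpowers u) (a ^ (l : ℕ)))) s)
      have c2 := q2 j _ (pow_mem (pow_mem (mem_zpowers u) (a ^ (j : ℕ))) s)
      rw [map_pow] at c1 c2
      rw [← map_pow θ (_ * _), ((Commute.refl u).pow_pow _ _).inv_left.mul_pow, map_mul, map_pow θ _ s,
        map_pow θ _ s, mul_assoc, mul_assoc, y2, ← mul_assoc, ← mul_assoc, ← mul_assoc, c1.1.eq,
        mul_assoc _ f, ← c2.2.eq]
      simp only [mul_assoc]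
    have q4 : aeval (θ u) (Q l) * f = 0 := by
      have e1 : ∑ s ∈ Finset.range p, θ (u ^ a ^ (l : ℕ))⁻¹ ^ s *
          (∑ j : Fin m, aeval (θ u) (Q j) * f * θ y ^ (j : ℕ)) * θ u ^ s = 0 := by simp [q1]
      simp only [Finset.mul_sum, Finset.sum_mul _ _ (θ u ^ _)] at e1
      rw [Finset.sum_comm, Finset.sum_congr rfl fun j _ => q3 j, Finset.sum_eq_single l (fun j _ hj => by
        rw [tau_sum hp hu (mul_mem (inv_mem (pow_mem (mem_zpowers u) _)) (pow_mem (mem_zpowers u) _)) fun e =>
          hj (Fin.ext (ha _ j.2 _ l.2 (hu ▸ pow_eq_pow_iff_modEq.1 (inv_mul_eq_one.1 e).symm))), ← hN, f1,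
          mul_zero, zero_mul]) (by simp)] at e1
      simp only [inv_mul_cancel, map_one, one_pow, Finset.sum_const, Finset.card_range, smul_mul_assoc, one_mul,
        mul_smul_comm] at e1
      rw [← Nat.cast_smul_eq_nsmul ℚ, smul_eq_zero_iff_right hp0, ← map_pow] at e1
      have := congrArg (· * θ (y ^ (l : ℕ))⁻¹) e1
      simpa only [mul_assoc, ← map_mul, mul_inv_cancel, map_one, mul_one, zero_mul] using this
    have q5 : Q l = 0 := by
      by_contra hn
      have d1 : (Q l).degree < (cyclotomic p ℚ).degree := by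
        rw [degree_cyclotomic, Nat.totient_prime hp]
        simp only [Q, ← C_mul_X_pow_eq_monomial]
        exact degree_sum_fin_lt _
      obtain ⟨r, t, e⟩ := ((cyclotomic.irreducible_rat hp.pos).coprime_iff_not_dvd.2 fun hd =>
        (degree_le_of_dvd hd hn).not_gt d1)
      have e2 := congrArg (fun z => aeval (θ u) z * f) e
      simp only [map_add, map_mul, map_one, one_mul, add_mul, mul_assoc, q4, mul_zero, add_zero, cyclotomic_prime,
        map_sum, map_pow, aeval_X, ← hN, f1] at e2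
      exact f2 e2.symm
    have := congrArg (coeff · i) q5
    simpa [Q, coeff_monomial, Fin.val_inj] using this
  simpa [mul_comm] using li.fintype_card_le_finrank

theorem tau_main (nt : (1 : B) ≠ 0) (inj : Function.Injective θ) (hi : Irr θ)
    (hs : Submodule.span ℚ (Set.range θ) = ⊤)
    (lf : ∀ f x v : B, f * f = f → f ≠ 1 → x * f = x → x ≠ 0 → x * v = 0 → f * v = 0) : ∃ τ : G → ℚ, Tr τ := by
  classical
  let _ := Fintype.ofFinite G
  have : Nontrivial B := ⟨⟨1, 0, nt⟩⟩
  have hn : (0 : ℚ) < Module.finrank ℚ B := Nat.cast_pos.2 Module.finrank_pos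
  let σ : Representation ℚ G B := (Algebra.lmul ℚ B).toRingHom.toMonoidHom.comp θ
  have hσ : ∀ g, σ.character g = tauT B (θ g) := fun _ => rfl
  refine ⟨fun g => 2 * σ.character g / Module.finrank ℚ B, ?_, fun g x => ?_, fun g => ?_, fun L hL => ?_,
    fun z z2 z1 zc g => ?_, fun u y p a m hp hu hy ha => ?_⟩
  · rw [σ.char_one, mul_div_assoc, div_self hn.ne', mul_one]
  · rw [σ.char_conj]
  · rw [tau_inv]
  · have hc : (Nat.card L : ℚ) ≠ 0 := Nat.cast_ne_zero.2 Nat.card_pos.ne'
    let s := (L : Set G).toFinite.toFinset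
    have ms : ∀ g, g ∈ s ↔ g ∈ L := fun g => Set.Finite.mem_toFinset _
    have cs : s.card = Nat.card L := (Set.ncard_eq_toFinset_card _).symm
    let e : B := (Nat.card L : ℚ)⁻¹ • ∑ g ∈ s, θ g
    have a1 : ∀ k ∈ L, θ k * e = e := fun k hk => by
      simp only [e, mul_smul_comm, Finset.mul_sum, ← map_mul]
      congr 1
      exact Finset.sum_equiv (Equiv.mulLeft k) (fun g => by rw [ms, ms, Equiv.coe_mulLeft, mul_mem_cancel_left hk])
        fun _ _ => rfl
    have a2 : e * e = e := by
      change ((Nat.card L : ℚ)⁻¹ • ∑ g ∈ s, θ g) * e = e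
      rw [smul_mul_assoc, Finset.sum_mul, Finset.sum_congr rfl fun g hg => a1 g ((ms g).1 hg), Finset.sum_const, cs,
        ← Nat.cast_smul_eq_nsmul ℚ, smul_smul, inv_mul_cancel₀ hc, one_smul]
    have a3 : e ≠ 1 := fun c => hL (eq_bot_iff.2 fun k hk => inj (by simpa [c] using a1 k hk))
    have a4 : sm (fun g => 2 * σ.character g / Module.finrank ℚ B) L =
        2 * (Nat.card L * tauT B e) / Module.finrank ℚ B := by
      simp only [sm, e, map_smul, map_sum, smul_eq_mul, mul_inv_cancel_left₀ hc, hσ, Finset.mul_sum, Finset.sum_div]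
      rfl
    by_cases a5 : e = 0
    · exact Or.inl (by rw [a4, a5]; simp)
    · have b1 := tau_half hi lf a2 a5 a3
      have b2 := tau_half hi lf (e := 1 - e) (by rw [mul_sub, mul_one, sub_mul, one_mul, a2, sub_self, sub_zero])
        (sub_ne_zero.2 a3.symm) (by simpa using a5)
      rw [sub_sub_cancel] at b2
      rw [map_sub, tauT_one] at b1 b2
      refine Or.inr ?_
      rw [a4, show tauT B e = Module.finrank ℚ B / 2 by linarith]
      field_simp
  · have zz : θ z * θ z = 1 := by rw [← map_mul, z2, map_one]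
    have e : θ z = -1 := by
      rcases hi ((2 : ℚ)⁻¹ • (1 + θ z)) (by
        rw [smul_mul_smul_comm, mul_add, add_mul, add_mul, zz, one_mul, one_mul, mul_one, add_comm (θ z),
          ← two_smul ℚ, smul_smul]
        norm_num) (fun k => by
          rw [mul_smul_comm, smul_mul_assoc, mul_add, add_mul, ← map_mul, ← map_mul, zc, one_mul, mul_one]) with c | c
      · exact eq_neg_of_add_eq_zero_right ((smul_eq_zero_iff_right (by norm_num)).1 c)
      · rw [inv_smul_eq_iff₀ two_ne_zero, two_smul, add_right_inj, ← map_one θ] at c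
        exact absurd (inj c) z1
    simp only [hσ, map_mul, e, neg_mul, one_mul, map_neg]
    ring
  · have hc : (0 : ℚ) < Nat.card G := Nat.cast_pos.2 Nat.card_pos
    let _ : Invertible (Nat.card G : ℚ) := invertibleOfNonzero hc.ne'
    have d1 : (((p - 1) * m : ℕ) : ℚ) ≤ Module.finrank ℚ B := Nat.cast_le.2 (tau_dim inj hp hu hy ha)
    have d2 := (σ.linHom σ).card_inv_mul_sum_char_eq_finrank
    simp only [Representation.char_linHom, tau_inv] at d2
    have d3 : (Module.finrank ℚ (σ.linHom σ).invariants : ℚ) ≤ Module.finrank ℚ B := by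
      refine Nat.cast_le.2 (LinearMap.finrank_le_finrank_of_injective
        (f := LinearMap.applyₗ (1 : B) ∘ₗ (σ.linHom σ).invariants.subtype) ((injective_iff_map_eq_zero _).2 ?_))
      rintro ⟨φ, hφ⟩ h0
      refine Subtype.ext (LinearMap.ext_on_range hs fun g => ?_)
      have := congrArg (· (θ g)) (hφ g)
      simp only [Representation.linHom_apply, LinearMap.comp_apply] at this
      change θ g * φ (θ g⁻¹ * θ g) = _ at this
      rw [← map_mul, inv_mul_cancel, map_one, show φ 1 = 0 from h0, mul_zero] at this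
      exact this.symm
    have d4 : sm (fun g => (2 * σ.character g / Module.finrank ℚ B) ^ 2) Set.univ =
        4 * (∑ g, σ.character g * σ.character g) / (Module.finrank ℚ B) ^ 2 := by
      rw [sm_eq _ (s := Finset.univ) (by simp), Finset.mul_sum, Finset.sum_div]
      exact Finset.sum_congr rfl fun g _ => by ring
    rw [inv_mul_eq_iff_eq_mul₀ hc.ne'] at d2
    rw [d4, d2]
    calc _ ≤ (Module.finrank ℚ B : ℚ) * (4 * (Nat.card G * Module.finrank ℚ B) / (Module.finrank ℚ B) ^ 2) := by
          gcongr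
      _ = _ := by field_simp

end

theorem Rp.exists_tr (h : Rp ρ) (hi : Irr ρ) : ∃ τ : G → ℚ, Tr τ := by
  let B := Algebra.adjoin ℚ (Set.range ρ)
  have hB : Subalgebra.toSubmodule B = Submodule.span ℚ (Set.range ρ) := by
    rw [Algebra.adjoin_eq_span, ← MonoidHom.coe_mrange, Submonoid.closure_eq]
  have : FiniteDimensional ℚ B := by
    have := FiniteDimensional.span_of_finite ℚ (Set.finite_range ρ)
    rwa [← hB] at this
  let θ : G →* B := ρ.codRestrict B fun g => Algebra.subset_adjoin ⟨g, rfl⟩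
  refine tau_main (θ := θ) (fun e => h.two.nt (congrArg Subtype.val e))
    (fun a b e => h.inj (congrArg Subtype.val e)) (fun f ff hf => ?_) ?_ fun f x v ff f1 xf x0 xv => ?_
  · exact (hi f (congrArg Subtype.val ff) fun g => congrArg Subtype.val (hf g)).imp Subtype.ext Subtype.ext
  · refine Submodule.map_injective_of_injective (f := B.val.toLinearMap) Subtype.val_injective ?_
    rw [Submodule.map_span, ← Set.range_comp, Submodule.map_top]
    exact hB.symm.trans (Submodule.range_subtype _).symm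
  · obtain ⟨w, hw⟩ := h.two.lf f x (congrArg Subtype.val ff) (fun e => f1 (Subtype.ext e)) (congrArg Subtype.val xf)
      fun e => x0 (Subtype.ext e)
    refine Subtype.ext ?_
    change (f : A) * v = 0
    rw [← hw, mul_assoc, show (x : A) * v = 0 from congrArg Subtype.val xv, mul_zero]

end CfsgLib.GL2D
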